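/-
Arithmetic of the field with nine elements and of its two-dimensional special unitary group.
-/
import Cfsg.Agent.Lib.SUAmalgam.Pairs

set_option autoImplicit false
set_option linter.unusedSectionVars false

open Matrix
open scoped commutatorElement

namespace CfsgLib.SUPhanThree

open CfsgLib.ClassicalForms CfsgLib.SUAmalgam

variable {F : Type*} [Field F] [Fintype F] (c : Conj F 3) (hF : Nat.card F = 3 ^ 2)
include hF

theorem three_eq_zero : (3 : F) = 0 := by
  have h : (Fintype.card F : F) = 0 := FiniteField.cast_card_eq_zero F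
  rw [← Nat.card_eq_fintype_card, hF] at h
  exact eq_zero_of_pow_eq_zero (by exact_mod_cast h : (3 : F) ^ 2 = 0)

theorem two_ne_zero' : (2 : F) ≠ 0 := fun h => one_ne_zero (α := F) (by
  linear_combination three_eq_zero hF - h)

theorem neg_one_ne_one : (-1 : F) ≠ 1 := fun h => two_ne_zero' hF (by linear_combination -h)

include c

omit hF in
theorem conj_cube (x : F) : c.σ x = x ^ 3 := c.apply x

omit hF in
theorem fixed_cases {x : F} (hx : c.σ x = x) : x = 0 ∨ x = 1 ∨ x = -1 := by
  rw [conj_cube c] at hx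
  have : x * ((x - 1) * (x + 1)) = 0 := by linear_combination hx
  rcases mul_eq_zero.1 this with h | h
  · exact Or.inl h
  rcases mul_eq_zero.1 h with h | h
  · exact Or.inr (Or.inl (sub_eq_zero.1 h))
  · exact Or.inr (Or.inr (eq_neg_of_add_eq_zero_left h))

omit hF in
theorem nm_cases (x : F) : x = 0 ∨ nm c x = 1 ∨ nm c x = -1 := by
  rcases fixed_cases c (nm_fixed c x) with h | h | h
  · exact Or.inl ((nm_eq_zero c).1 h)
  · exact Or.inr (Or.inl h)
  · exact Or.inr (Or.inr h)

omit hF in
theorem nm_eq_pow (x : F) : nm c x = x ^ 4 := by rw [nm, conj_cube c]; ring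

omit hF in
theorem nm_one_ne_zero {x : F} (h : nm c x = 1) : x ≠ 0 := by
  rintro rfl
  rw [nm_zero] at h
  exact zero_ne_one h

omit hF in
theorem nm_neg_one_ne_zero {x : F} (h : nm c x = -1) : x ≠ 0 := by
  rintro rfl
  rw [nm_zero] at h
  exact one_ne_zero (α := F) (by linear_combination h)

/-- The trace of an element of norm minus one does not vanish. -/
theorem trace_ne_zero {x : F} (h : nm c x = -1) : x + c.σ x ≠ 0 := by
  intro e
  have h2 : x ^ 2 = 1 := by
    rw [nm] at h
    linear_combination x * e - h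
  have : x ^ 4 = 1 := by linear_combination (x ^ 2 + 1) * h2
  rw [← nm_eq_pow c, h] at this
  exact neg_one_ne_one hF this

/-- A square root of minus one. -/
theorem exists_zeta : ∃ ζ : F, nm c ζ = 1 ∧ ζ ^ 2 = -1 := by
  obtain ⟨t, ht, ht1, ht2⟩ := exists_norm_one_ne hF c
  refine ⟨t, ht, ?_⟩
  have h : t ^ 4 = 1 := by rw [← nm_eq_pow c]; exact ht
  have : (t * t - 1) * (t ^ 2 + 1) = 0 := by linear_combination h
  rcases mul_eq_zero.1 this with h | h
  · exact absurd (sub_eq_zero.1 h) ht2
  · exact eq_neg_of_add_eq_zero_left h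

omit hF in
theorem conj_zeta {ζ : F} (h2 : ζ ^ 2 = -1) : c.σ ζ = -ζ := by
  rw [conj_cube c]; linear_combination ζ * h2

omit hF in
theorem norm_one_cases {ζ : F} (h2 : ζ ^ 2 = -1) {x : F} (hx : nm c x = 1) :
    x = 1 ∨ x = -1 ∨ x = ζ ∨ x = -ζ := by
  rw [nm_eq_pow c] at hx
  have : (x - 1) * ((x + 1) * ((x - ζ) * (x + ζ))) = 0 := by
    linear_combination hx - (x ^ 2 - 1) * h2
  simpa [sub_eq_zero, ← eq_neg_iff_add_eq_zero] using this

/-- An element of norm minus one and trace one. -/
theorem exists_w : ∃ w : F, nm c w = -1 ∧ w + c.σ w = 1 := by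
  obtain ⟨w, hw⟩ := c.exists_norm (d := (-1 : F)) (by rw [map_neg, map_one])
  have h : c.σ (w + c.σ w) = w + c.σ w := by rw [map_add, c.invol, add_comm]
  rcases fixed_cases c h with h | h | h
  · exact absurd h (trace_ne_zero c hF hw)
  · exact ⟨w, hw, h⟩
  · exact ⟨-w, by rw [nm_neg]; exact hw, by rw [map_neg]; linear_combination -h⟩

/-- The elements fixing or exchanging the two coordinate lines. -/
def Mono (g : SUg 2 F 3) : Prop := mat g 0 0 = 0 ∨ mat g 1 0 = 0

omit hF in
theorem col_norm (g : SUg 2 F 3) : nm c (mat g 0 0) + nm c (mat g 1 0) = 1 := by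
  obtain ⟨h1, h2⟩ := shape c g
  have hd : (mat g).det = 1 := g.1.2
  rw [Matrix.det_fin_two, h1, h2] at hd
  simp only [nm]
  linear_combination hd

omit hF in
theorem eq_sb (g : SUg 2 F 3) : g = sb c (mat g 0 0) (mat g 1 0) (col_norm c g) := by
  obtain ⟨h1, h2⟩ := shape c g
  refine ext_mat fun k l => ?_
  fin_cases k <;> fin_cases l <;> simp [mat_sb, h1, h2]

theorem nm_of_not_mono {g : SUg 2 F 3} (hg : ¬ Mono g) :
    nm c (mat g 0 0) = -1 ∧ nm c (mat g 1 0) = -1 := by
  simp only [Mono, not_or] at hg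
  have h := col_norm c g
  rcases nm_cases c (mat g 0 0) with h0 | h0 | h0
  · exact absurd h0 hg.1
  · rcases nm_cases c (mat g 1 0) with h1 | h1 | h1
    · exact absurd h1 hg.2
    · rw [h0, h1] at h; exact absurd (by linear_combination h) (one_ne_zero (α := F))
    · rw [h0, h1] at h; exact absurd (by linear_combination -h) (one_ne_zero (α := F))
  · refine ⟨h0, ?_⟩
    rw [h0] at h
    linear_combination h + three_eq_zero hF

/-- An element of square minus one is monomial. -/
theorem mono_of_sq {g : SUg 2 F 3} (h : mat (g * g) = -1) : Mono g := by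
  by_contra hg
  obtain ⟨ha, hb⟩ := nm_of_not_mono c hF hg
  have h10 := congrFun (congrFun h 1) 0
  rw [mat_mul, Matrix.mul_apply, Fin.sum_univ_two, (shape c g).1] at h10
  simp at h10
  have : mat g 1 0 * (mat g 0 0 + c.σ (mat g 0 0)) = 0 := by linear_combination h10
  rcases mul_eq_zero.1 this with e | e
  · exact nm_neg_one_ne_zero c hb e
  · exact trace_ne_zero c hF ha e

omit hF in
theorem mat_cube (g : SUg 2 F 3) : mat (g * g * g) =
    ((mat g 0 0 + c.σ (mat g 0 0)) ^ 2 - 1) • mat g -
      (mat g 0 0 + c.σ (mat g 0 0)) • (1 : Matrix (Fin 2) (Fin 2) F) := by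
  obtain ⟨h1, -⟩ := shape c g
  have hd : (mat g).det = 1 := g.1.2
  rw [Matrix.det_fin_two] at hd
  rw [mat_mul, mat_mul]
  ext k l
  fin_cases k <;> fin_cases l <;>
    simp [Matrix.mul_apply, Fin.sum_univ_two, h1] <;>
    simp only [h1] at hd
  · linear_combination -(2 * mat g 0 0 + c.σ (mat g 0 0)) * hd
  · linear_combination -(mat g 0 1) * hd
  · linear_combination -(mat g 1 0) * hd
  · linear_combination -(2 * c.σ (mat g 0 0) + mat g 0 0) * hd

/-- The cube of a non-monomial element is a sign. -/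
theorem cube_of_not_mono {g : SUg 2 F 3} (hg : ¬ Mono g) :
    mat (g * g * g) = 1 ∨ mat (g * g * g) = -1 := by
  obtain ⟨ha, -⟩ := nm_of_not_mono c hF hg
  have hf : c.σ (mat g 0 0 + c.σ (mat g 0 0)) = mat g 0 0 + c.σ (mat g 0 0) := by
    rw [map_add, c.invol, add_comm]
  rw [mat_cube c g]
  rcases fixed_cases c hf with h | h | h
  · exact absurd h (trace_ne_zero c hF ha)
  · right; simp [h]
  · left; simp [h]

omit hF in
theorem mono_mul {g h : SUg 2 F 3} (hg : Mono g) (hh : Mono h) : Mono (g * h) := by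
  obtain ⟨g11, g01⟩ := shape c g
  rcases hg with hg | hg <;> rcases hh with hh | hh <;>
    simp [Mono, mat_mul, Matrix.mul_apply, Fin.sum_univ_two, hg, hh, g01, g11]

omit hF in
theorem mono_inv {g : SUg 2 F 3} (hg : Mono g) : Mono g⁻¹ := by
  have e : mat g⁻¹ = (mat g).adjugate := Matrix.SpecialLinearGroup.coe_inv _
  rw [Mono, e, Matrix.adjugate_fin_two]
  rcases hg with hg | hg
  · left; simp [(shape c g).1, hg]
  · right; simp [hg]

/-- The diagonal element. -/
def dg (a : F) (h : nm c a = 1) : SUg 2 F 3 := sb c a 0 (by rw [h, nm_zero, add_zero])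

/-- The antidiagonal element. -/
def ad (b : F) (h : nm c b = 1) : SUg 2 F 3 := sb c 0 b (by rw [h, nm_zero, zero_add])

omit hF in
theorem mat_dg (a : F) (h : nm c a = 1) : mat (dg c a h) = !![a, 0; 0, c.σ a] := by
  rw [dg, mat_sb]; ext k l; fin_cases k <;> fin_cases l <;> simp

omit hF in
theorem mat_ad (b : F) (h : nm c b = 1) : mat (ad c b h) = !![0, -c.σ b; b, 0] := by
  rw [ad, mat_sb]; ext k l; fin_cases k <;> fin_cases l <;> simp

omit hF in
theorem mono_cases {g : SUg 2 F 3} (hg : Mono g) :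
    (∃ a h, g = dg c a h) ∨ ∃ b h, g = ad c b h := by
  have hn := col_norm c g
  rcases hg with h0 | h0
  · refine Or.inr ⟨mat g 1 0, by rwa [h0, nm_zero, zero_add] at hn, ?_⟩
    conv_lhs => rw [eq_sb c g]
    simp only [ad, h0]
  · refine Or.inl ⟨mat g 0 0, by rwa [h0, nm_zero, add_zero] at hn, ?_⟩
    conv_lhs => rw [eq_sb c g]
    simp only [dg, h0]

omit hF in
theorem dg_mul (a b : F) (ha : nm c a = 1) (hb : nm c b = 1) :
    dg c a ha * dg c b hb = dg c (a * b) (by rw [nm_mul, ha, hb, one_mul]) := by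
  refine ext_mat fun k l => ?_
  rw [mat_mul, mat_dg, mat_dg, mat_dg]
  fin_cases k <;> fin_cases l <;> simp

omit hF in
theorem dg_mul_ad (a b : F) (ha : nm c a = 1) (hb : nm c b = 1) :
    dg c a ha * ad c b hb = ad c (c.σ a * b) (by rw [nm_mul, nm_conj, ha, hb, one_mul]) := by
  refine ext_mat fun k l => ?_
  rw [mat_mul, mat_dg, mat_ad, mat_ad]
  fin_cases k <;> fin_cases l <;> simp [c.invol]

omit hF in
theorem ad_sq (b : F) (h : nm c b = 1) : mat (ad c b h * ad c b h) = -1 := by
  rw [mat_mul, mat_ad]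
  simp only [nm] at h
  ext k l
  fin_cases k <;> fin_cases l <;> simp [Matrix.mul_apply, Fin.sum_univ_two] <;>
    linear_combination h

omit hF in
theorem dg_sq {ζ : F} (h : nm c ζ = 1) (h2 : ζ ^ 2 = -1) : mat (dg c ζ h * dg c ζ h) = -1 := by
  rw [mat_mul, mat_dg, conj_zeta c h2]
  ext k l
  fin_cases k <;> fin_cases l <;> simp [Matrix.mul_apply, Fin.sum_univ_two] <;>
    linear_combination h2

/-- The monomial elements are generated by two of them. -/
theorem mono_mem_closure {ζ : F} (hζ : nm c ζ = 1) (h2 : ζ ^ 2 = -1) (S : Subgroup (SUg 2 F 3))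
    (ht : dg c ζ hζ ∈ S) {b : F} (hb : nm c b = 1) (hj : ad c b hb ∈ S) {g : SUg 2 F 3}
    (hg : Mono g) : g ∈ S := by
  have hd : ∀ a h, dg c a h ∈ S := by
    intro a h
    rcases norm_one_cases c h2 h with rfl | rfl | rfl | rfl
    · convert one_mem S
      refine ext_mat fun k l => ?_
      rw [mat_dg]
      fin_cases k <;> fin_cases l <;> simp
    · convert mul_mem ht ht using 1
      rw [dg_mul]
      simp only [← sq, h2]
    · exact ht
    · convert mul_mem ht (mul_mem ht ht) using 1
      rw [dg_mul, dg_mul]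
      simp only [← sq, h2]
      congr 1
      ring
  rcases mono_cases c hg with ⟨a, h, rfl⟩ | ⟨b', h, rfl⟩
  · exact hd a h
  · have hne := nm_one_ne_zero c hb
    convert mul_mem (hd (c.σ (b' / b)) (by rw [nm_conj, nm_div, h, hb, div_one])) hj using 1
    rw [dg_mul_ad]
    simp only [c.invol, div_mul_cancel₀ _ hne]

/-- Conjugation by a non-monomial element moves the torus. -/
theorem conj_not_diag {g : SUg 2 F 3} (hg : ¬ Mono g) {ζ : F} (hζ : nm c ζ = 1) (h2 : ζ ^ 2 = -1) :
    ∃ b h, g * dg c ζ hζ * g⁻¹ = ad c b h := by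
  have hm : Mono (g * dg c ζ hζ * g⁻¹) := by
    refine mono_of_sq c hF ?_
    have e : g * dg c ζ hζ * g⁻¹ * (g * dg c ζ hζ * g⁻¹) =
        g * (dg c ζ hζ * dg c ζ hζ) * g⁻¹ := by group
    rw [e, mat_mul, mat_mul, dg_sq c hζ h2, Matrix.mul_neg, Matrix.mul_one, Matrix.neg_mul,
      ← mat_mul, mul_inv_cancel, mat_one]
  rcases mono_cases c hm with ⟨a, h, e⟩ | h
  swap
  · exact h
  exfalso
  have e' : g * dg c ζ hζ = dg c a h * g := by rw [← e]; group
  have e00 := congrArg (fun z => mat z 0 0) e'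
  have e10 := congrArg (fun z => mat z 1 0) e'
  simp [mat_mul, Matrix.mul_apply, Fin.sum_univ_two, mat_dg] at e00 e10
  simp only [Mono, not_or] at hg
  have ha : a = ζ := mul_right_cancel₀ hg.1 (by linear_combination -e00)
  have hs : c.σ a = ζ := mul_right_cancel₀ hg.2 (by linear_combination -e10)
  rw [ha, conj_zeta c h2] at hs
  have : (2 : F) * ζ = 0 := by linear_combination -hs
  exact (mul_eq_zero.1 this).elim (two_ne_zero' hF) (nm_one_ne_zero c hζ)

/-- A homomorphism to an abelian group of exponent dividing four is trivial. -/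
theorem hom_eq_one {A : Type*} [CommGroup A] (h4 : ∀ a : A, a ^ 4 = 1) (χ : SUg 2 F 3 →* A)
    (g : SUg 2 F 3) : χ g = 1 := by
  obtain ⟨ζ, hζ, h2⟩ := exists_zeta c hF
  have hneg : ∀ x : SUg 2 F 3, mat x = -1 → χ x = 1 := by
    intro x hx
    have e : x = ⁅dg c ζ hζ, ad c 1 (nm_one c)⁆ := by
      refine Subtype.ext (Subtype.ext ?_)
      show mat x = mat _
      have k : dg c ζ hζ * ad c 1 (nm_one c) = x * (ad c 1 (nm_one c) * dg c ζ hζ) := by
        refine ext_mat fun k l => ?_
        rw [mat_mul, mat_mul, mat_mul, hx, mat_dg, mat_ad, conj_zeta c h2]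
        fin_cases k <;> fin_cases l <;> simp [Matrix.mul_apply, Fin.sum_univ_two]
      rw [commutatorElement_def, k]
      congr 1
      group
    rw [e, map_commutatorElement, commutatorElement_eq_one_iff_commute]
    exact mul_comm _ _
  have hnm : ∀ x, ¬ Mono x → χ x = 1 := by
    intro x hx
    have h3 : χ x ^ 3 = 1 := by
      rw [← map_pow, pow_succ, pow_two]
      rcases cube_of_not_mono c hF hx with h | h
      · rw [show x * x * x = 1 from Subtype.ext (Subtype.ext h), map_one]
      · exact hneg _ h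
    calc χ x = χ x ^ 4 * (χ x ^ 3)⁻¹ := by group
      _ = 1 := by rw [h4, h3, inv_one, mul_one]
  by_cases hg : Mono g
  swap
  · exact hnm g hg
  obtain ⟨w, hw, -⟩ := exists_w c hF
  let x : SUg 2 F 3 := sb c w w (by rw [hw]; linear_combination -three_eq_zero hF)
  have hx : ¬ Mono x := by simp [Mono, x, mat_sb, nm_neg_one_ne_zero c hw]
  have hgx : ¬ Mono (g * x) := fun h => hx (by
    have := mono_mul c (mono_inv c hg) h
    rwa [inv_mul_cancel_left] at this)
  have h1 := hnm _ hgx
  rwa [map_mul, hnm x hx, mul_one] at h1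

end CfsgLib.SUPhanThree
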