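/-
Automorphisms of the two-dimensional special unitary group over the field with nine elements
normalising the diagonal torus, and the adjustment of consecutive standard pairs.
-/
import Cfsg.Agent.Lib.SUPhanThree.Field

set_option autoImplicit false
set_option linter.unusedSectionVars false

open Matrix
open scoped commutatorElement

namespace CfsgLib.SUPhanThree

open CfsgLib.ClassicalForms CfsgLib.SUAmalgam

variable {F : Type*} [Field F] [Fintype F] (c : Conj F 3) (hF : Nat.card F = 3 ^ 2)
include hF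

/-- The conjugation as an automorphism. -/
def cE : F ≃+* F := { c.σ with invFun := c.σ, left_inv := c.invol, right_inv := c.invol }

omit hF in
theorem cE_apply (x : F) : cE c x = c.σ x := rfl

omit hF in
theorem cE_comm {τ : F ≃+* F} (x : F) : τ (c.σ x) = c.σ (τ x) := by
  rw [c.apply, c.apply, map_pow]

omit hF in
theorem mat_semi_two (b : F) (hd : ∀ i, nm c ((![1, b] : Fin 2 → F) i) = 1) (τ : F ≃+* F)
    (g : SUg 2 F 3) : mat (semi c ![1, b] hd τ g) =
      Matrix.diagonal ![1, b] * (mat g).map τ * Matrix.diagonal ![1, c.σ b] := by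
  rw [mat_semi]
  congr 2
  funext i
  fin_cases i <;> simp

/-- An automorphism normalising the torus is a diagonal semilinear one. -/
theorem exists_semi (α : SUg 2 F 3 ≃* SUg 2 F 3) (hD : ∀ g, IsDiag₂ g → IsDiag₂ (α g)) :
    ∃ (b : F) (τ : F ≃+* F), (τ = RingEquiv.refl F ∨ τ = cE c) ∧ nm c b = 1 ∧ ∀ g, mat (α g) =
      Matrix.diagonal ![1, b] * (mat g).map τ * Matrix.diagonal ![1, c.σ b] := by
  classical
  obtain ⟨ζ, hζ, h2⟩ := exists_zeta c hF
  set t := dg c ζ hζ with ht
  have h11 : nm c (1 : F) = 1 := nm_one c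
  set j := ad c 1 h11 with hj
  have hsq : ∀ x : SUg 2 F 3, mat (x * x) = -1 → mat (α x * α x) = -1 := by
    intro x hx
    have e : x * x = t * t := Subtype.ext (Subtype.ext (hx.trans (dg_sq c hζ h2).symm))
    -- the sign is the only element of order two in the torus
    have hdt : IsDiag₂ (α t) := hD _ (by simp [IsDiag₂, ht, mat_dg])
    obtain ⟨a, h, ea⟩ := diag_eq_sb hdt
    have hne : α t * α t ≠ 1 := fun e1 => by
      have h1 : t * t = 1 := α.injective (by rw [map_mul, e1, map_one])
      have := congrArg mat h1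
      rw [dg_sq c hζ h2, mat_one] at this
      exact neg_one_ne_one hF (by simpa using congrFun (congrFun this 0) 0)
    have ha : nm c a = 1 := by rwa [nm_zero, add_zero] at h
    rw [← map_mul, e, map_mul, ea, show sb c a 0 h = dg c a ha from rfl] at *
    rcases norm_one_cases c h2 ha with rfl | rfl | rfl | rfl
    · exact absurd (by rw [dg_mul]; refine ext_mat fun k l => ?_; rw [mat_dg]; fin_cases k <;> fin_cases l <;> simp) hne
    · exact absurd (by rw [dg_mul]; refine ext_mat fun k l => ?_; rw [mat_dg]; fin_cases k <;> fin_cases l <;> simp) hne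
    · exact dg_sq c ha h2
    · exact dg_sq c ha (by linear_combination h2)
  obtain ⟨a, h, ea⟩ := diag_eq_sb (c := c) (hD t (by simp [IsDiag₂, ht, mat_dg]))
  have ha : nm c a = 1 := by rwa [nm_zero, add_zero] at h
  have ea' : α t = dg c a ha := ea
  have ha2 : a ^ 2 = -1 := by
    have := hsq t (dg_sq c hζ h2)
    rw [ea'] at this
    have h00 := congrFun (congrFun this 0) 0
    simp [mat_mul, mat_dg, Matrix.mul_apply, Fin.sum_univ_two] at h00
    linear_combination h00
  obtain ⟨τ, hτ, hτ'⟩ : ∃ τ : F ≃+* F, τ ζ = a ∧ (τ = RingEquiv.refl F ∨ τ = cE c) := by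
    have : (a - ζ) * (a + ζ) = 0 := by linear_combination ha2 - h2
    rcases mul_eq_zero.1 this with e | e
    · exact ⟨_, (sub_eq_zero.1 e).symm, Or.inl rfl⟩
    · exact ⟨_, by rw [cE_apply, conj_zeta c h2]; linear_combination -e, Or.inr rfl⟩
  obtain ⟨b, hb, eb⟩ : ∃ b hb, α j = ad c b hb := by
    rcases mono_cases c (mono_of_sq c hF (hsq j (ad_sq c 1 h11))) with ⟨b, hb, e⟩ | h
    swap
    · exact h
    exfalso
    have h1 : α (t * j) = α (j * t) := by
      rw [map_mul, map_mul, ea', e, dg_mul, dg_mul]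
      simp only [mul_comm a b]
    have h3 := congrArg (fun z => mat z 1 0) (α.injective h1)
    simp [mat_mul, Matrix.mul_apply, Fin.sum_univ_two, ht, hj, mat_dg, mat_ad, conj_zeta c h2] at h3
    exact nm_one_ne_zero c hζ ((mul_eq_zero.1 (show (2 : F) * ζ = 0 by linear_combination -h3)
      ).resolve_left (two_ne_zero' hF))
  have hd : ∀ i, nm c ((![1, b] : Fin 2 → F) i) = 1 := by intro i; fin_cases i <;> simp [hb]
  let β : SUg 2 F 3 ≃* SUg 2 F 3 := MulEquiv.ofBijective _ (semi_bijective c _ hd τ)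
  have hβt : β t = α t := by
    refine ext_mat fun k l => ?_
    show mat (semi c _ hd τ t) k l = _
    rw [mat_semi_apply, ea', ht, mat_dg, mat_dg]
    have hbb : b * c.σ b = 1 := hb
    fin_cases k <;> fin_cases l <;> simp [hτ, cE_comm c]
    linear_combination c.σ a * hbb
  have hβj : β j = α j := by
    refine ext_mat fun k l => ?_
    show mat (semi c _ hd τ j) k l = _
    rw [mat_semi_apply, eb, hj, mat_ad, mat_ad]
    fin_cases k <;> fin_cases l <;> simp
  let γ := α.trans β.symm
  have hfix : ∀ x, Mono x → γ x = x := fun x hx =>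
    mono_mem_closure c hF hζ h2 (MonoidHom.eqLocus γ.toMonoidHom (MonoidHom.id _))
      (show γ t = t by simp [γ, ← hβt]) h11 (show γ j = j by simp [γ, ← hβj]) hx
  have hγ : ∀ g, γ g = g := by
    intro g
    by_cases hg : Mono g
    · exact hfix g hg
    have hconj : ∀ m, Mono m → mat (m * m) = -1 → (g⁻¹ * γ g) * m = m * (g⁻¹ * γ g) := by
      intro m hm hm2
      have hgm : Mono (g * m * g⁻¹) := mono_of_sq c hF (by
        have e : g * m * g⁻¹ * (g * m * g⁻¹) = g * (m * m) * g⁻¹ := by group
        rw [e, mat_mul, mat_mul, hm2, Matrix.mul_neg, Matrix.mul_one, Matrix.neg_mul,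
          ← mat_mul, mul_inv_cancel, mat_one])
      have e := hfix _ hgm
      rw [map_mul, map_mul, map_inv, hfix m hm] at e
      calc g⁻¹ * γ g * m = g⁻¹ * (γ g * m * (γ g)⁻¹) * γ g := by group
        _ = _ := by rw [e]; group
    obtain ⟨z, hz⟩ : ∃ z, z = g⁻¹ * γ g := ⟨_, rfl⟩
    rw [← hz] at hconj
    have zt := hconj t (Or.inr (by simp [ht, mat_dg])) (dg_sq c hζ h2)
    have zj := hconj j (Or.inl (by simp [hj, mat_ad])) (ad_sq c 1 h11)
    obtain ⟨s11, s01⟩ := shape c z
    have t10 := congrArg (fun x => mat x 1 0) zt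
    have j10 := congrArg (fun x => mat x 1 0) zj
    simp [mat_mul, Matrix.mul_apply, Fin.sum_univ_two, ht, hj, mat_dg, mat_ad, conj_zeta c h2] at t10 j10
    have hz10 : mat z 1 0 = 0 := by
      have : (2 * ζ) * mat z 1 0 = 0 := by linear_combination t10
      exact (mul_eq_zero.1 this).resolve_left
        (mul_ne_zero (two_ne_zero' hF) (nm_one_ne_zero c hζ))
    have hza : c.σ (mat z 0 0) = mat z 0 0 := by rw [← s11]; exact j10
    have hzn := col_norm c z
    rw [hz10, nm_zero, add_zero] at hzn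
    have hzz : z * z = 1 := by
      refine ext_mat fun k l => ?_
      have h1 : mat z 0 0 * mat z 0 0 = 1 := by rw [nm, hza] at hzn; exact hzn
      rw [mat_mul, mat_one]
      fin_cases k <;> fin_cases l <;>
        simp [Matrix.mul_apply, Fin.sum_univ_two, s01, s11, hz10, hza, h1]
    have hcen : ∀ x, x * z = z * x := fun x => ext_mat fun k l => by
      rw [mat_mul, mat_mul]
      fin_cases k <;> fin_cases l <;>
        simp [Matrix.mul_apply, Fin.sum_univ_two, s01, s11, hz10, hza, mul_comm]
    have hg' : γ g = g * z := by rw [hz, mul_inv_cancel_left]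
    have h3 : γ (g * g * g) = g * g * g * z := by
      rw [map_mul, map_mul, hg']
      calc g * z * (g * z) * (g * z) = g * (z * g) * z * (g * z) := by group
        _ = g * g * (z * z) * (g * z) := by rw [← hcen g]; group
        _ = g * g * g * z := by rw [hzz]; group
    have hm : Mono (g * g * g) := by
      rcases cube_of_not_mono c hF hg with h | h <;> exact Or.inr (by rw [h]; simp)
    rw [hfix _ hm, left_eq_mul] at h3
    rw [hg', h3, mul_one]
  refine ⟨b, τ, hτ', hb, fun g => ?_⟩
  have e : α g = β g := by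
    have := congrArg β (hγ g)
    simpa [γ] using this
  rw [e]
  exact mat_semi_two c b hd τ g

variable {G : Type*} [Group G] {c}

/-- Adjusting the second of two consecutive standard pairs. -/
theorem exists_adjust {V A B V' C : Subgroup G}
    {φ φ' : SUg 3 F 3 →* G} (h : IsPair c V A B φ) (h' : IsPair c V' B C φ')
    (hAC : ∀ x ∈ A, ∀ y ∈ C, x * y = y * x) :
    ∃ φ'' : SUg 3 F 3 →* G, IsPair c V' B C φ'' ∧
      φ''.comp (emb (r := 2) c 0 (by norm_num)) = φ.comp (emb (r := 2) c 1 (by norm_num)) := by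
  classical
  set a := φ.comp (emb (r := 2) c 1 (by norm_num)) with hadef
  set b := φ'.comp (emb (r := 2) c 0 (by norm_num)) with hbdef
  let α : SUg 2 F 3 ≃* SUg 2 F 3 :=
    ((MonoidHom.ofInjective h.inj₁).trans (MulEquiv.subgroupCongr (h.range₁.trans h'.range₀.symm))).trans
      (MonoidHom.ofInjective h'.inj₀).symm
  have hα : ∀ g, b (α g) = a g := fun g => by
    have e1 : (MonoidHom.ofInjective h'.inj₀ (α g) : G) = a g := by
      show ((MonoidHom.ofInjective h'.inj₀) ((MonoidHom.ofInjective h'.inj₀).symm _) : G) = a g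
      rw [MulEquiv.apply_symm_apply]
      rfl
    exact e1
  obtain ⟨t₀, ht₀, ht₀1, ht₀2⟩ := exists_norm_one_ne hF c
  have hts₀ : nm c t₀ + nm c (0 : F) = 1 := by rw [nm_zero, add_zero]; exact ht₀
  have hd₁ : ∀ i, nm c ((![1, t₀] : Fin 2 → F) i) = 1 := by
    intro i; fin_cases i <;> simp [show nm c t₀ = 1 from ht₀]
  set u := φ' (emb c 1 (by norm_num : 1 + 2 ≤ 3) (sb c t₀ 0 hts₀)) with hudef
  have huC : u ∈ C := h'.range₁ ▸ ⟨_, rfl⟩
  -- the centraliser of a torus element cuts out the diagonal elements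
  have hcent : ∀ g, IsDiag₂ g ↔ u * b g * u⁻¹ = b g := by
    intro g
    have e : u * b g * u⁻¹ = b (semi c _ hd₁ (RingEquiv.refl F) g) := by
      rw [hudef, hbdef]
      show φ' _ * φ' _ * (φ' _)⁻¹ = φ' _
      rw [← map_inv, ← map_mul, ← map_mul, conj_torus₁ t₀ hts₀ g hd₁]
    rw [e]
    constructor
    · intro hg
      congr 1
      refine ext_mat fun k l => ?_
      rw [mat_semi_apply]
      have htt : t₀ * c.σ t₀ = 1 := ht₀
      fin_cases k <;> fin_cases l <;> simp [hg.1, hg.2]
      linear_combination (mat g 1 1) * htt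
    · intro hg
      have e2 := h'.inj₀ hg
      have h01 := congrArg (fun z => mat z 0 1) e2
      simp [mat_semi_apply] at h01
      obtain ⟨-, hs⟩ := shape c g
      have hne : c.σ t₀ ≠ 1 := fun e1 => ht₀1 (by rw [← c.invol t₀, e1, map_one])
      have hz : mat g 0 1 = 0 := by
        by_contra hz
        exact hne (mul_left_cancel₀ hz (h01.trans (mul_one _).symm))
      refine ⟨hz, ?_⟩
      rw [hz] at hs
      exact c.eq_zero (neg_eq_zero.1 hs.symm)
  -- the preimage of the torus consists of diagonal elements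
  have hsub : ∀ g, IsDiag₂ (α g) → IsDiag₂ g := by
    intro g hg
    have hd₀ : ∀ i, nm c ((![c.σ t₀, 1] : Fin 2 → F) i) = 1 := by
      intro i; fin_cases i <;> simp [show nm c t₀ = 1 from ht₀]
    set g' := semi c _ hd₀ (RingEquiv.refl F) g with hg'def
    set v := φ (emb c 0 (by norm_num : (0 : ℕ) + 2 ≤ 3) (sb c t₀ 0 hts₀)) with hvdef
    have hvA : v ∈ A := h.range₀ ▸ ⟨_, rfl⟩
    have hconj : a g' = v * a g * v⁻¹ := by
      rw [hvdef, hadef]
      show φ _ = φ _ * φ _ * (φ _)⁻¹
      rw [← map_inv, ← map_mul, ← map_mul, conj_torus₀ t₀ hts₀ g hd₀]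
    have hdiag' : IsDiag₂ (α g') := by
      rw [hcent, hα, hconj]
      have h1 := (hcent _).1 hg
      rw [hα] at h1
      have hc1 := hAC v hvA u huC
      calc u * (v * a g * v⁻¹) * u⁻¹ = (u * v) * a g * (u * v)⁻¹ := by group
        _ = (v * u) * a g * (v * u)⁻¹ := by rw [hc1]
        _ = v * (u * a g * u⁻¹) * v⁻¹ := by group
        _ = _ := by rw [h1]
    have hcomm : g * g' = g' * g := α.injective (by rw [map_mul, map_mul]; exact diag_comm hg hdiag')
    have h00 := congrArg (fun z => mat z 0 0) hcomm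
    obtain ⟨-, hs⟩ := shape c g
    simp [mat_mul, Matrix.mul_apply, Fin.sum_univ_two, hg'def, mat_semi_apply, hs, c.invol] at h00
    have hts : t₀ * c.σ t₀ = 1 := ht₀
    have hne : t₀ ≠ c.σ t₀ := fun e1 => ht₀2 (by
      conv_lhs => arg 2; rw [e1]
      exact hts)
    have hy : c.σ (mat g 1 0) * mat g 1 0 * (t₀ - c.σ t₀) = 0 := by
      linear_combination -h00
    rcases mul_eq_zero.1 hy with h0 | h0
    · have hz : mat g 1 0 = 0 := (mul_eq_zero.1 h0).elim c.eq_zero id
      exact ⟨by rw [hs, hz, map_zero, neg_zero], hz⟩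
    · exact absurd (sub_eq_zero.1 h0) hne
  have hD : ∀ g, IsDiag₂ g → IsDiag₂ (α g) := by
    let f : {g : SUg 2 F 3 // IsDiag₂ g} → {g : SUg 2 F 3 // IsDiag₂ g} := fun g =>
      ⟨α.symm g.1, hsub _ (by rw [MulEquiv.apply_symm_apply]; exact g.2)⟩
    have hf : Function.Surjective f := Finite.surjective_of_injective fun x y e =>
      Subtype.ext (α.symm.injective (congrArg Subtype.val e))
    intro g hg
    obtain ⟨⟨x, hx⟩, e⟩ := hf ⟨g, hg⟩
    have e1 : α.symm x = g := congrArg Subtype.val e
    rw [← e1, MulEquiv.apply_symm_apply]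
    exact hx
  obtain ⟨β, τ, -, hβ, hmain⟩ := exists_semi c hF α hD
  have hd3 : ∀ i, nm c ((![1, β, 1] : Fin 3 → F) i) = 1 := by intro i; fin_cases i <;> simp [hβ]
  refine ⟨φ'.comp (semi c _ hd3 τ), h'.comp_semi _ hd3 τ, MonoidHom.ext fun g => ?_⟩
  show φ' (semi c _ hd3 τ (emb c 0 _ g)) = a g
  rw [← hα, semi_emb]
  refine congrArg (fun z => φ' (emb c 0 _ z)) (ext_mat fun k l => ?_)
  rw [hmain, mat_semi_apply]
  fin_cases k <;> fin_cases l <;> simp [shift, Matrix.mul_diagonal, Matrix.diagonal_mul]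

end CfsgLib.SUPhanThree
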