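/-
Three blocks inside a central quotient of the four-dimensional group: lifts and canonical involutions.
-/
import Cfsg.Agent.Lib.SUPhanThree.Aut
import Cfsg.Agent.Lib.ClassicalForms.Unitary.Simple
import Cfsg.Agent.Lib.ClassicalForms.Unitary.Center

set_option autoImplicit false
set_option linter.unusedSectionVars false

open Matrix
open scoped commutatorElement

namespace CfsgLib.SUPhanThree

open CfsgLib.ClassicalForms CfsgLib.SUAmalgam

variable {F : Type*} [Field F] [Fintype F] {m : ℕ} (c : Conj F 3)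

/-- Scalar elements. -/
def Sc : Subgroup (SUg m F 3) where
  carrier := {y | ∃ μ : F, ∀ x, act y x = μ • x}
  one_mem' := ⟨1, fun x => by rw [act_one, one_smul]⟩
  mul_mem' := by
    rintro a b ⟨μ, ha⟩ ⟨ν, hb⟩
    exact ⟨ν * μ, fun x => by rw [act_mul, hb, act_smul, ha, smul_smul]⟩
  inv_mem' := by
    rintro a ⟨μ, ha⟩
    refine ⟨μ⁻¹, fun x => ?_⟩
    by_cases hμ : μ = 0
    · have : x = 0 := by rw [← act_inv_act a x, ha x, hμ, zero_smul, act_zero]
      rw [this, act_zero, smul_zero]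
    · conv_lhs => rw [← one_smul F x, ← inv_mul_cancel₀ hμ, ← smul_smul, ← ha x, act_smul,
        act_inv_act]

theorem Sc_comm {z : SUg m F 3} (hz : z ∈ Sc) (y : SUg m F 3) : Commute z y := by
  obtain ⟨μ, h⟩ := hz
  exact ext_act fun k => by rw [act_mul, act_mul, h, h, act_smul]

theorem Sc_of_center (hF : Nat.card F = 3 ^ 2) (hm : 2 ≤ m) {z : SUg m F 3}
    (hz : z ∈ Subgroup.center (SUg m F 3)) : z ∈ Sc := by
  obtain ⟨a, ha⟩ := exists_scalar_of_commute_su hF hm (suToGU z) fun s hs => by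
    rw [← suToGU_suOfGU s hs]
    exact (Commute.map (Subgroup.mem_center_iff.1 hz (suOfGU s hs)).symm suToGU)
  exact ⟨a, fun x => ha x⟩

include c in
theorem Sc_pow_four {z : SUg 4 F 3} (hz : z ∈ Sc) : z ^ 4 = 1 := by
  obtain ⟨μ, h⟩ := hz
  have hm : mat z = μ • (1 : Matrix (Fin 4) (Fin 4) F) := by
    refine Matrix.ext_of_mulVec_single fun k => ?_
    show act z _ = _
    rw [h, Matrix.smul_mulVec, Matrix.one_mulVec]
  have hd : μ ^ 4 = 1 := by
    have h1 : (mat z).det = 1 := z.1.2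
    rwa [hm, Matrix.det_smul, Matrix.det_one, mul_one, Fintype.card_fin] at h1
  refine ext_act fun k => ?_
  rw [act_one, pow_succ, pow_succ, pow_succ, pow_one, act_mul, act_mul, act_mul, h, h, h, h,
    smul_smul, smul_smul, smul_smul, show μ * μ * μ * μ = μ ^ 4 by ring, hd, one_smul]

/-- The diagonal twist. -/
noncomputable def D (a : F) (ha : nm c a = 1) : SUg 2 F 3 →* SUg 2 F 3 :=
  semi c ![1, a] (by intro i; fin_cases i <;> simp [ha]) (RingEquiv.refl F)

theorem mat_D (a : F) (ha : nm c a = 1) (g : SUg 2 F 3) :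
    mat (D c a ha g) = !![mat g 0 0, mat g 0 1 * c.σ a; a * mat g 1 0, mat g 1 1] := by
  simp only [nm] at ha
  ext k l
  simp only [D]; rw [mat_semi_apply]
  fin_cases k <;> fin_cases l <;> simp
  linear_combination mat g 1 1 * ha

theorem D_dg (a : F) (ha : nm c a = 1) (b : F) (hb : nm c b = 1) : D c a ha (dg c b hb) = dg c b hb := by
  refine ext_mat fun k l => ?_
  rw [mat_D, mat_dg]
  fin_cases k <;> fin_cases l <;> simp

theorem D_ad (a : F) (ha : nm c a = 1) (b : F) (hb : nm c b = 1) :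
    D c a ha (ad c b hb) = ad c (a * b) (by rw [nm_mul, ha, hb, one_mul]) := by
  refine ext_mat fun k l => ?_
  rw [mat_D, mat_ad, mat_ad]
  fin_cases k <;> fin_cases l <;> simp [mul_comm]

/-- Three blocks inside a central quotient. -/
structure Win {G : Type*} [Group G] (g : SUg 4 F 3 →* G) (f : ℕ → (SUg 2 F 3 →* G)) : Prop where
  ker : ∀ y, g y = 1 → y ∈ Sc
  mem : ∀ k, k < 3 → ∀ x, ∃ y, g y = f k x
  inj : ∀ k, k < 3 → Function.Injective (f k)
  comm : ∀ x y, Commute (f 0 x) (f 2 y)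
  conjU : ∀ k, k + 1 < 3 → ∀ a ha x, f (k + 1) (dg c a ha) * f k x * (f (k + 1) (dg c a ha))⁻¹ =
    f k (D c a ha x)
  conjD : ∀ k, k + 1 < 3 → ∀ a ha x, f k (dg c a ha) * f (k + 1) x * (f k (dg c a ha))⁻¹ =
    f (k + 1) (D c a ha x)

variable {c} {G : Type*} [Group G] {g : SUg 4 F 3 →* G} {f : ℕ → (SUg 2 F 3 →* G)}

theorem Win.congr (W : Win c g f) {y y' : SUg 4 F 3} (h : g y = g y') :
    ∃ z ∈ Sc, y' = y * z :=
  ⟨y⁻¹ * y', W.ker _ (by rw [map_mul, map_inv, h, inv_mul_cancel]), by group⟩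

theorem Win.comm_congr (W : Win c g f) {y y' u u' : SUg 4 F 3} (h : g y = g y') (h' : g u = g u') :
    ⁅y, u⁆ = ⁅y', u'⁆ := by
  obtain ⟨z, hz, rfl⟩ := W.congr h
  obtain ⟨w, hw, rfl⟩ := W.congr h'
  simp only [commutatorElement_def, _root_.mul_inv_rev]
  calc y * u * y⁻¹ * u⁻¹ = y * (u * (z * z⁻¹) * (w * w⁻¹)) * y⁻¹ * u⁻¹ := by group
    _ = _ := by
      have a1 : ∀ p, z * p = p * z := fun p => (Sc_comm hz p).eq
      have a2 : ∀ p, w * p = p * w := fun p => (Sc_comm hw p).eq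
      calc y * (u * (z * z⁻¹) * (w * w⁻¹)) * y⁻¹ * u⁻¹
          = y * ((u * z) * (z⁻¹ * w) * w⁻¹) * y⁻¹ * u⁻¹ := by group
        _ = y * (z * u * (w * z⁻¹) * w⁻¹) * y⁻¹ * u⁻¹ := by
            rw [← a1 u, ← a2 z⁻¹]
        _ = y * z * (u * w) * z⁻¹ * (w⁻¹ * y⁻¹) * u⁻¹ := by group
        _ = y * z * (u * w) * z⁻¹ * (y⁻¹ * w⁻¹) * u⁻¹ := by
            rw [show w⁻¹ * y⁻¹ = y⁻¹ * w⁻¹ from ((Sc_comm hw y).inv_inv).eq]
        _ = y * z * (u * w) * (z⁻¹ * y⁻¹) * (w⁻¹ * u⁻¹) := by group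

/-- The canonical involution of a block. -/
def IsCom (c : Conj F 3) (g : SUg 4 F 3 →* G) (f : SUg 2 F 3 →* G) (ζ : F) (hζ : nm c ζ = 1)
    (d : SUg 4 F 3) : Prop :=
  ∀ y u, g y = f (dg c ζ hζ) → g u = f (ad c 1 (nm_one c)) → ⁅y, u⁆ = d

section

variable (W : Win c g f) (hF : Nat.card F = 3 ^ 2) {ζ : F} (hζ : nm c ζ = 1) (h2 : ζ ^ 2 = -1)
include W hF h2

theorem tj_com : ⁅dg c ζ hζ, ad c 1 (nm_one c)⁆ = dg c ζ hζ * dg c ζ hζ := by
  have k : dg c ζ hζ * ad c 1 (nm_one c) =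
      dg c ζ hζ * dg c ζ hζ * (ad c 1 (nm_one c) * dg c ζ hζ) := by
    refine ext_mat fun k l => ?_
    rw [mat_mul, mat_mul (dg c ζ hζ * dg c ζ hζ), dg_sq c hζ h2, mat_mul, mat_dg, mat_ad, conj_zeta c h2]
    fin_cases k <;> fin_cases l <;> simp [Matrix.mul_apply, Fin.sum_univ_two]
  rw [commutatorElement_def, k]
  group

theorem jj_eq : ad c 1 (nm_one c) * ad c 1 (nm_one c) = dg c ζ hζ * dg c ζ hζ :=
  Subtype.ext (Subtype.ext ((ad_sq c 1 (nm_one c)).trans (dg_sq c hζ h2).symm))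

theorem exists_com {k : ℕ} (hk : k < 3) :
    ∃ d, IsCom c g (f k) ζ hζ d ∧ g d = f k (dg c ζ hζ * dg c ζ hζ) := by
  obtain ⟨y, hy⟩ := W.mem k hk (dg c ζ hζ)
  obtain ⟨u, hu⟩ := W.mem k hk (ad c 1 (nm_one c))
  refine ⟨⁅y, u⁆, fun y' u' hy' hu' => W.comm_congr (hy'.trans hy.symm) (hu'.trans hu.symm), ?_⟩
  rw [map_commutatorElement, hy, hu, ← map_commutatorElement, tj_com W hF hζ h2]

variable {k : ℕ} (hk : k < 3) {d : SUg 4 F 3} (hd : IsCom c g (f k) ζ hζ d)
  (hgd : g d = f k (dg c ζ hζ * dg c ζ hζ))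
include hk hd hgd

theorem com_commute_t {y : SUg 4 F 3} (hy : g y = f k (dg c ζ hζ)) : Commute d y := by
  obtain ⟨z, hz, e⟩ := W.congr (show g (y * y) = g d by rw [map_mul, hy, hgd, map_mul])
  rw [e]
  exact ((Commute.refl y).mul_left (Commute.refl y)).mul_left (Sc_comm hz y)

theorem com_commute_j {u : SUg 4 F 3} (hu : g u = f k (ad c 1 (nm_one c))) : Commute d u := by
  obtain ⟨z, hz, e⟩ := W.congr (show g (u * u) = g d by
    rw [map_mul, hu, hgd, ← map_mul, jj_eq W hF hζ h2])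
  rw [e]
  exact ((Commute.refl u).mul_left (Commute.refl u)).mul_left (Sc_comm hz u)

theorem com_sq : d * d = 1 := by
  obtain ⟨y, hy⟩ := W.mem k hk (dg c ζ hζ)
  obtain ⟨u, hu⟩ := W.mem k hk (ad c 1 (nm_one c))
  have hdd := hd y u hy hu
  obtain ⟨z, hz, e⟩ := W.congr (show g d = g (y * y) by rw [map_mul, hy, hgd, map_mul])
  have h1 : Commute (y * y) u := by
    rw [e]
    exact (com_commute_j W hF hζ h2 hk hd hgd hu).mul_left (Sc_comm hz u)
  have h3 : Commute d y := com_commute_t W hF hζ h2 hk hd hgd hy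
  have h4 : u * y * u⁻¹ = d⁻¹ * y := by
    rw [← hdd]
    simp only [commutatorElement_def]
    group
  have h5 : y * y = d⁻¹ * d⁻¹ * (y * y) := by
    calc y * y = y * y * u * u⁻¹ := by group
      _ = u * (y * y) * u⁻¹ := by rw [h1.eq]
      _ = (u * y * u⁻¹) * (u * y * u⁻¹) := by group
      _ = d⁻¹ * (y * d⁻¹) * y := by rw [h4]; group
      _ = _ := by rw [← (h3.inv_left).eq]; group
  have h6 : d⁻¹ * d⁻¹ = 1 := mul_right_cancel (b := y * y) (by rw [one_mul]; exact h5.symm)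
  rwa [← _root_.mul_inv_rev, inv_eq_one] at h6

theorem com_conj {p : SUg 4 F 3} (φ : SUg 2 F 3 → SUg 2 F 3)
    (hp : ∀ x, g p * f k x * (g p)⁻¹ = f k (φ x)) (ht : φ (dg c ζ hζ) = dg c ζ hζ) {a : F}
    {ha : nm c a = 1} (hj : φ (ad c 1 (nm_one c)) = dg c a ha * ad c 1 (nm_one c)) :
    Commute p d := by
  obtain ⟨y, hy⟩ := W.mem k hk (dg c ζ hζ)
  obtain ⟨u, hu⟩ := W.mem k hk (ad c 1 (nm_one c))
  obtain ⟨r, hr, hrd⟩ : ∃ r, g r = f k (dg c a ha) ∧ (Commute r y ∧ Commute r d) := by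
    have hdy := com_commute_t W hF hζ h2 hk hd hgd hy
    rcases norm_one_cases c h2 ha with rfl | rfl | rfl | rfl
    · refine ⟨1, ?_, Commute.one_left _, Commute.one_left _⟩
      rw [map_one, show dg c 1 ha = 1 from ext_mat fun k l => by
        rw [mat_dg]; fin_cases k <;> fin_cases l <;> simp, map_one]
    · refine ⟨y * y, ?_, (Commute.refl y).mul_left (Commute.refl y),
        hdy.symm.mul_left hdy.symm⟩
      rw [map_mul, hy, ← map_mul, dg_mul]
      simp only [← sq, h2]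
    · exact ⟨y, hy, Commute.refl y, hdy.symm⟩
    · refine ⟨y * y * y, ?_, ((Commute.refl y).mul_left (Commute.refl y)).mul_left (Commute.refl y),
        (hdy.symm.mul_left hdy.symm).mul_left hdy.symm⟩
      rw [map_mul, map_mul, hy, ← map_mul, ← map_mul, dg_mul, dg_mul]
      simp only [← sq, h2, neg_one_mul]
  have h1 : g (p * y * p⁻¹) = g y := by rw [map_mul, map_mul, map_inv, hy, hp, ht]
  have h3 : g (p * u * p⁻¹) = g (r * u) := by
    rw [map_mul, map_mul, map_inv, hu, hp, hj, map_mul, map_mul, hr, hu]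
  have h4 : p * d * p⁻¹ = d := by
    conv_lhs => rw [← hd y u hy hu]
    rw [show p * ⁅y, u⁆ * p⁻¹ = ⁅p * y * p⁻¹, p * u * p⁻¹⁆ from
      map_commutatorElement (MulAut.conj p).toMonoidHom y u, W.comm_congr h1 h3]
    have e : ⁅y, r * u⁆ = r * ⁅y, u⁆ * r⁻¹ := by
      simp only [commutatorElement_def, _root_.mul_inv_rev]
      calc y * (r * u) * y⁻¹ * (u⁻¹ * r⁻¹) = y * r * (u * y⁻¹ * u⁻¹ * r⁻¹) := by group
        _ = r * y * (u * y⁻¹ * u⁻¹ * r⁻¹) := by rw [hrd.1.eq]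
        _ = _ := by group
    rw [e, hd y u hy hu, hrd.2.eq, mul_inv_cancel_right]
  exact mul_inv_eq_iff_eq_mul.1 h4

theorem com_commute {x : SUg 2 F 3} {p : SUg 4 F 3} (hp : g p = f k x) : Commute d p := by
  let S : Subgroup (SUg 2 F 3) :=
    { carrier := {x | ∀ p, g p = f k x → Commute d p}
      one_mem' := fun p hp => (Sc_comm (W.ker p (by rw [hp, map_one])) d).symm
      mul_mem' := fun {a b} ha hb p hp => by
        obtain ⟨p₁, h₁⟩ := W.mem k hk a
        obtain ⟨p₂, h₂⟩ := W.mem k hk b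
        obtain ⟨z, hz, e⟩ := W.congr (show g (p₁ * p₂) = g p by rw [map_mul, h₁, h₂, hp, map_mul])
        rw [e]
        exact ((ha p₁ h₁).mul_right (hb p₂ h₂)).mul_right (Sc_comm hz d).symm
      inv_mem' := fun {a} ha p hp => by
        have := ha p⁻¹ (by rw [map_inv, hp, map_inv, inv_inv])
        simpa using this.inv_right }
  have hm : ∀ y, Mono y → y ∈ S := fun y hy => mono_mem_closure c hF hζ h2 S
    (fun p hp => com_commute_t W hF hζ h2 hk hd hgd hp) (nm_one c)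
    (fun p hp => com_commute_j W hF hζ h2 hk hd hgd hp) hy
  by_cases hx : Mono x
  · exact hm x hx p hp
  have hx3 : Mono (x * x * x) := by
    rcases cube_of_not_mono c hF hx with h | h <;> exact Or.inr (by rw [h]; simp)
  have h3 : Commute d (p * p * p) := hm _ hx3 _ (by simp [hp])
  have hcen : x * (dg c ζ hζ * dg c ζ hζ) * x⁻¹ = dg c ζ hζ * dg c ζ hζ := by
    refine ext_mat fun k l => ?_
    rw [mat_mul, mat_mul, dg_sq c hζ h2, Matrix.mul_neg, Matrix.mul_one, Matrix.neg_mul,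
      ← mat_mul, mul_inv_cancel, mat_one]
  obtain ⟨z, hz, e⟩ := W.congr (show g d = g (p * d * p⁻¹) by
    rw [map_mul, map_mul, map_inv, hp, hgd]
    conv_lhs => rw [← hcen]
    rw [map_mul, map_mul, map_inv, map_mul])
  have hdd := com_sq W hF hζ h2 hk hd hgd
  have zc : ∀ q, z * q = q * z := fun q => (Sc_comm hz q).eq
  have hzz : z * z = 1 := by
    have h1 : (p * d * p⁻¹) * (p * d * p⁻¹) = 1 := by
      rw [show (p * d * p⁻¹) * (p * d * p⁻¹) = p * (d * d) * p⁻¹ by group, hdd]; group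
    rw [e] at h1
    calc z * z = (d * d) * z * z := by rw [hdd, one_mul]
      _ = d * (d * z) * z := by group
      _ = d * (z * d) * z := by rw [zc d]
      _ = 1 := by rw [← h1]; group
  have h5 : p * p * p * d * (p * p * p)⁻¹ = d * z := by
    have step : ∀ q, p * (d * q) * p⁻¹ = d * z * (p * q * p⁻¹) := fun q => by rw [← e]; group
    calc p * p * p * d * (p * p * p)⁻¹ = p * (p * (p * d * p⁻¹) * p⁻¹) * p⁻¹ := by group
      _ = p * (p * (d * z) * p⁻¹) * p⁻¹ := by rw [e]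
      _ = p * (d * z * z) * p⁻¹ := by
          rw [step, ← zc p, mul_inv_cancel_right]
      _ = p * d * p⁻¹ := by rw [mul_assoc d z z, hzz, mul_one]
      _ = d * z := e
  rw [← h3.eq, mul_inv_cancel_right, left_eq_mul] at h5
  rw [h5, mul_one, mul_inv_eq_iff_eq_mul] at e
  exact e.symm

end

end CfsgLib.SUPhanThree
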