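/-
A block in diagonal position: its lifts are scalar on the complementary coordinates.
-/
import Cfsg.Agent.Lib.SUPhanThree.Lifts

set_option autoImplicit false
set_option linter.unusedSectionVars false

open Matrix
open scoped commutatorElement

namespace CfsgLib.SUPhanThree

open CfsgLib.ClassicalForms CfsgLib.SUAmalgam

variable {F : Type*} [Field F] [Fintype F] (c : Conj F 3) {m : ℕ}

include c in
theorem mat_inv (p : SUg m F 3) (i l : Fin m) : mat p⁻¹ i l = c.σ (mat p l i) := by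
  rw [← act_single, ← act_single, ← c.single_right (act p⁻¹ (Pi.single l 1)) i, ← herm_act p,
    act_act_inv, c.single_left]

/-- The coordinate signs of the three blocks. -/
def sg (k : ℕ) (i : Fin 4) : F := if (i : ℕ) = k ∨ (i : ℕ) = k + 1 then -1 else 1

/-- The entries on two coordinates. -/
def sub2 (r s : Fin 4) (p : SUg 4 F 3) : Matrix (Fin 2) (Fin 2) F :=
  !![mat p r r, mat p r s; mat p s r, mat p s s]

variable (hF : Nat.card F = 3 ^ 2)
include hF

theorem unitary_two {a b : Fin 2 → F} {U : Matrix (Fin 2) (Fin 2) F}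
    (hu : (U.map c.σ)ᵀ * U = 1) (h3 : U * U * U = 1)
    (hconj : ∀ i l, b i * U i l = c.σ (U l i) * a l) (hb : ∀ i, a i = b i) (hne : ∀ i, b i ≠ 0) :
    U = 1 := by
  have e := fun i l => congrFun (congrFun hu i) l
  have e00 := e 0 0
  have e01 := e 0 1
  have e11 := e 1 1
  simp [Matrix.mul_apply, Fin.sum_univ_two] at e00 e01 e11
  have real : ∀ i, c.σ (U i i) = U i i := fun i => by
    have := hconj i i
    rw [hb] at this
    exact mul_right_cancel₀ (hne i) (by linear_combination -this)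
  by_cases h0 : U 0 0 = 0
  · exfalso
    have h10 : U 1 0 ≠ 0 := fun h => by simp [h, h0] at e00
    have h11 : U 1 1 = 0 := by
      rw [h0, map_zero, zero_mul, zero_add] at e01
      exact (mul_eq_zero.1 e01).resolve_left fun h => h10 (c.eq_zero h)
    have := congrFun (congrFun h3 0) 0
    simp [Matrix.mul_apply, Fin.sum_univ_two, h0, h11] at this
  have hr1 : U 0 0 * U 0 0 = 1 := by
    rcases fixed_cases c (real 0) with h | h | h
    · exact absurd h h0
    · rw [h, one_mul]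
    · rw [h]; norm_num
  rw [real 0, hr1] at e00
  have h10 : U 1 0 = 0 := by
    have : c.σ (U 1 0) * U 1 0 = 0 := by linear_combination e00
    exact (mul_eq_zero.1 this).elim c.eq_zero id
  rw [h10, map_zero, zero_mul, add_zero, real 0] at e01
  have h01 : U 0 1 = 0 := (mul_eq_zero.1 e01).resolve_left h0
  have cube : ∀ x : F, x * x * x = 1 → x = 1 := fun x hx => by
    have : (x - 1) ^ 3 = 0 := by linear_combination hx + (-x ^ 2 + x) * three_eq_zero hF
    exact sub_eq_zero.1 (eq_zero_of_pow_eq_zero this)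
  have c0 := congrFun (congrFun h3 0) 0
  have c1 := congrFun (congrFun h3 1) 1
  simp [Matrix.mul_apply, Fin.sum_univ_two, h01, h10] at c0 c1
  ext i l
  fin_cases i <;> fin_cases l <;> simp [h01, h10, cube _ c0, cube _ c1]

/-- The product with the diagonal twist of a non-monomial element is monomial. -/
theorem D_mul_mono {ζ : F} (hζ : nm c ζ = 1) (h2 : ζ ^ 2 = -1) {x : SUg 2 F 3} (hx : ¬ Mono x) :
    Mono (D c ζ hζ x * x) := by
  obtain ⟨ha, hb⟩ := nm_of_not_mono c hF hx
  obtain ⟨h11, h01⟩ := shape c x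
  have ha4 : mat x 0 0 ^ 4 = -1 := by rw [← nm_eq_pow c, ha]
  simp only [nm] at hb
  have : (mat x 0 0 ^ 2 - ζ) * (mat x 0 0 ^ 2 + ζ) = 0 := by linear_combination ha4 - h2
  rcases mul_eq_zero.1 this with h | h
  · left
    rw [mat_mul, mat_D, Matrix.mul_apply, Fin.sum_univ_two]
    simp [h01, conj_zeta c h2]
    linear_combination h + ζ * hb
  · right
    rw [mat_mul, mat_D, Matrix.mul_apply, Fin.sum_univ_two]
    simp [h11, conj_cube c (mat x 0 0)]
    linear_combination (mat x 0 0 * mat x 1 0) * h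

variable {c} {G : Type*} [Group G] {g : SUg 4 F 3 →* G} {f : ℕ → (SUg 2 F 3 →* G)}
  (W : Win c g f) {ζ : F} (hζ : nm c ζ = 1) (h2 : ζ ^ 2 = -1)
  {k : ℕ} (hk : k < 3) {d : SUg 4 F 3} (hd : IsCom c g (f k) ζ hζ d)
  (hgd : g d = f k (dg c ζ hζ * dg c ζ hζ))

omit hF in
theorem entry_zero {d p : SUg 4 F 3} {e : Fin 4 → F} (he : mat d = Matrix.diagonal e)
    (h : Commute d p) {i l : Fin 4} (hil : e i ≠ e l) : mat p i l = 0 := by
  have h1 := congrFun (congrFun (congrArg mat h.eq) i) l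
  rw [mat_mul, mat_mul, he, Matrix.diagonal_mul, Matrix.mul_diagonal] at h1
  have : (e i - e l) * mat p i l = 0 := by linear_combination h1
  exact (mul_eq_zero.1 this).resolve_left (sub_ne_zero.2 hil)

omit hF in
theorem mat_scalar {z : SUg 4 F 3} (hz : z ∈ Sc) : ∃ μ : F, mat z = μ • (1 : Matrix (Fin 4) (Fin 4) F) := by
  obtain ⟨μ, h⟩ := hz
  refine ⟨μ, Matrix.ext_of_mulVec_single fun k => ?_⟩
  show act z _ = _
  rw [h, Matrix.smul_mulVec, Matrix.one_mulVec]

omit hF in
theorem col_ne_zero (u : SUg 4 F 3) (i : Fin 4) : ∃ l, mat u l i ≠ 0 := by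
  by_contra h
  simp only [not_exists, ne_eq, not_not] at h
  have h1 : act u (Pi.single i 1) = act u 0 := by
    funext l; rw [act_single, h, act_zero]; rfl
  have := congrArg (act u⁻¹) h1
  rw [act_inv_act, act_inv_act] at this
  simpa using congrFun this i

include W h2 hk hd hgd

theorem pair_data {e : Fin 4 → F} (he : mat d = Matrix.diagonal e) {y : SUg 4 F 3} {a : Fin 4 → F}
    (hy : g y = f k (dg c ζ hζ)) (ha : mat y = Matrix.diagonal a) :
    (∃ μ : F, ∀ i, a i ^ 2 = μ * e i) ∧ (∀ i, nm c (a i) = 1) ∧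
      ∀ u, g u = f k (ad c 1 (nm_one c)) → ∀ i l, (e i ≠ e l → mat u i l = 0) ∧
        a i * mat u i l = e i * (mat u i l * a l) := by
  refine ⟨?_, fun i => ?_, fun u hu i l => ⟨fun h => entry_zero he
    (com_commute_j W hF hζ h2 hk hd hgd hu) h, ?_⟩⟩
  · obtain ⟨z, hz, ez⟩ := W.congr (show g d = g (y * y) by rw [map_mul, hy, hgd, map_mul])
    obtain ⟨μ, hμ⟩ := mat_scalar hz
    refine ⟨μ, fun i => ?_⟩
    have := congrFun (congrFun (congrArg mat ez) i) i
    rw [mat_mul, mat_mul, ha, he, hμ] at this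
    simp at this
    linear_combination this
  · have := congrFun (congrFun (congrArg mat (inv_mul_cancel y)) i) i
    rw [mat_mul, Matrix.mul_apply, Finset.sum_eq_single i, mat_inv c, ha, mat_one] at this
    · simp at this
      rw [nm]; linear_combination this
    · intro b _ hb; rw [ha]; simp [hb]
    · simp
  · have e1 : y * u = d * (u * y) := by
      rw [← hd y u hy hu, commutatorElement_def]; group
    have := congrFun (congrFun (congrArg mat e1) i) l
    rw [mat_mul, mat_mul, mat_mul, ha, he, Matrix.diagonal_mul, Matrix.diagonal_mul,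
      Matrix.mul_diagonal] at this
    exact this

theorem pair_values {e : Fin 4 → F} (he : mat d = Matrix.diagonal e) {y : SUg 4 F 3} {a : Fin 4 → F}
    (hy : g y = f k (dg c ζ hζ)) (ha : mat y = Matrix.diagonal a) {p q r s : Fin 4}
    (hpr : ∀ φ : Fin 4 → F, φ p * φ q * φ r * φ s = ∏ i, φ i)
    (hcov : ∀ i, i = p ∨ i = q ∨ i = r ∨ i = s)
    (hep : e p = -1) (heq : e q = -1) (her : e r = 1) (hes : e s = 1) :
    a q = -a p ∧ a r = a s ∧ a r ^ 2 = -a p ^ 2 ∧ ∀ u, g u = f k (ad c 1 (nm_one c)) → mat u q p ≠ 0 := by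
  obtain ⟨⟨μ, hμ⟩, hn, hj⟩ := pair_data hF W hζ h2 hk hd hgd he hy ha
  obtain ⟨u₀, hu₀⟩ := W.mem k hk (ad c 1 (nm_one c))
  have h0 : ∀ i, a i ≠ 0 := fun i => nm_one_ne_zero c (hn i)
  have hne := neg_one_ne_one hF
  have hY : ∀ u, g u = f k (ad c 1 (nm_one c)) → mat u q p ≠ 0 := by
    intro u hu e0
    obtain ⟨l, hl⟩ := col_ne_zero u p
    rcases hcov l with rfl | rfl | rfl | rfl
    · have := (hj u hu l l).2
      rw [hep] at this
      have h2' : (2 : F) * (a l * mat u l l) = 0 := by linear_combination this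
      exact (mul_ne_zero (two_ne_zero' hF) (mul_ne_zero (h0 l) hl)) h2'
    · exact hl e0
    · exact hl ((hj u hu l p).1 (by rw [her, hep]; exact hne.symm))
    · exact hl ((hj u hu l p).1 (by rw [hes, hep]; exact hne.symm))
  have hq : a q = -a p := by
    have := (hj u₀ hu₀ q p).2
    rw [heq] at this
    exact mul_right_cancel₀ (hY u₀ hu₀) (by linear_combination this)
  have hdet : a p * a q * a r * a s = 1 := by
    rw [hpr, ← Matrix.det_diagonal, ← ha]
    exact y.1.2
  have p2 := hμ p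
  have r2 := hμ r
  have s2 := hμ s
  rw [hep] at p2
  rw [her] at r2
  rw [hes] at s2
  refine ⟨hq, ?_, by linear_combination r2 + p2, hY⟩
  have : (a r - a s) * (a r + a s) = 0 := by linear_combination r2 - s2
  rcases mul_eq_zero.1 this with h | h
  · exact sub_eq_zero.1 h
  exfalso
  have h4 : a r ^ 4 = 1 := by rw [← nm_eq_pow c, hn]
  have hbad : (-1 : F) = 1 := by
    rw [hq, eq_neg_of_add_eq_zero_right h] at hdet
    linear_combination hdet + h4 - (a r ^ 2) * (p2 + r2)
  exact hne hbad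

variable {e : Fin 4 → F} (he : mat d = Matrix.diagonal e) {r s : Fin 4}
  (her : e r = 1) (hes : e s = 1) (hrs : r ≠ s) (hout : ∀ i, i ≠ r → i ≠ s → e i = -1)
  {y : SUg 4 F 3} {a : Fin 4 → F} (hy : g y = f k (dg c ζ hζ)) (ha : mat y = Matrix.diagonal a)
  (hya : a r = a s)
  {b : SUg 4 F 3} {a' : Fin 4 → F} (hb : ∀ x, g b * f k x * (g b)⁻¹ = f k (D c ζ hζ x))
  (hba : mat b = Matrix.diagonal a') (hbr : a' r ≠ a' s) (hb0 : a' r ≠ 0 ∧ a' s ≠ 0)

include he her hes hrs hout hy ha hya hb hba hbr hb0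

/-- Every lift is scalar on the complementary coordinates. -/
theorem scalar_compl (x : SUg 2 F 3) (p : SUg 4 F 3) (hp : g p = f k x) :
    mat p r s = 0 ∧ mat p s r = 0 ∧ mat p r r = mat p s s := by
  classical
  have hne := neg_one_ne_one hF
  let B : SUg 4 F 3 → Matrix (Fin 2) (Fin 2) F := sub2 r s
  have hsum : ∀ φ : Fin 4 → F, (∀ i, i ≠ r → i ≠ s → φ i = 0) → ∑ i, φ i = φ r + φ s := by
    intro φ h
    rw [← Finset.sum_pair hrs]
    refine (Finset.sum_subset (Finset.subset_univ _) fun i _ hi => ?_).symm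
    simp only [Finset.mem_insert, Finset.mem_singleton, not_or] at hi
    exact h i hi.1 hi.2
  have hmul : ∀ p q, Commute d p → ∀ u v, e u = 1 →
      mat (p * q) u v = mat p u r * mat q r v + mat p u s * mat q s v := by
    intro p q hp u v hu
    rw [mat_mul, Matrix.mul_apply, hsum]
    intro j h1 h2'
    rw [entry_zero he hp (show e u ≠ e j by rw [hu, hout j h1 h2']; exact hne.symm), zero_mul]
  have Bmul : ∀ p q, Commute d p → B (p * q) = B p * B q := fun p q hp => by
    ext i l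
    fin_cases i <;> fin_cases l <;>
      simp [B, sub2, hmul p q hp _ _ her, hmul p q hp _ _ hes]
  have hcd : ∀ {x p}, g p = f k x → Commute d p := fun hp => com_commute W hF hζ h2 hk hd hgd hp
  have Bone : B 1 = 1 := by
    ext i l
    fin_cases i <;> fin_cases l <;> simp [B, sub2, hrs, Ne.symm hrs]
  have Binv : ∀ p, B p⁻¹ = ((B p).map c.σ)ᵀ := fun p => by
    ext i l
    fin_cases i <;> fin_cases l <;> simp [B, sub2, mat_inv c]
  have good : ∀ {p}, (∃ μ : F, B p = μ • 1) → mat p r s = 0 ∧ mat p s r = 0 ∧ mat p r r = mat p s s := by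
    rintro p ⟨μ, hμ⟩
    have h := fun i l => congrFun (congrFun hμ i) l
    have h00 := h 0 0
    have h01 := h 0 1
    have h10 := h 1 0
    have h11 := h 1 1
    simp [B, sub2] at h00 h01 h10 h11
    exact ⟨h01, h10, h00.trans h11.symm⟩
  refine good ?_
  have Bsc : ∀ {z : SUg 4 F 3}, z ∈ Sc → ∃ μ : F, B z = μ • 1 := fun hz => by
    obtain ⟨μ, hμ⟩ := mat_scalar hz
    refine ⟨μ, ?_⟩
    ext i l
    fin_cases i <;> fin_cases l <;> simp [B, sub2, hμ, hrs, Ne.symm hrs]
  let S : Subgroup (SUg 2 F 3) :=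
    { carrier := {x | ∀ p, g p = f k x → ∃ μ : F, B p = μ • 1}
      one_mem' := fun p hp => Bsc (W.ker p (by rw [hp, map_one]))
      mul_mem' := fun {x x'} h h' p hp => by
        obtain ⟨p₁, h₁⟩ := W.mem k hk x
        obtain ⟨p₂, h₂⟩ := W.mem k hk x'
        obtain ⟨z, hz, ez⟩ := W.congr (show g (p₁ * p₂) = g p by rw [map_mul, h₁, h₂, hp, map_mul])
        obtain ⟨μ, hμ⟩ := h p₁ h₁
        obtain ⟨ν, hν⟩ := h' p₂ h₂
        obtain ⟨ρ, hρ⟩ := Bsc hz
        refine ⟨μ * ν * ρ, ?_⟩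
        rw [ez, Bmul _ _ ((hcd h₁).mul_right (hcd h₂)), Bmul _ _ (hcd h₁), hμ, hν, hρ]
        simp [smul_smul, mul_comm, mul_left_comm]
      inv_mem' := fun {x} h p hp => by
        obtain ⟨μ, hμ⟩ := h p⁻¹ (by rw [map_inv, hp, map_inv, inv_inv])
        refine ⟨c.σ μ, ?_⟩
        rw [← inv_inv p, Binv, hμ]
        ext i l
        fin_cases i <;> fin_cases l <;> simp }
  have ht : dg c ζ hζ ∈ S := fun p hp => by
    obtain ⟨z, hz, ez⟩ := W.congr (hy.trans hp.symm)
    obtain ⟨ρ, hρ⟩ := Bsc hz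
    refine ⟨a r * ρ, ?_⟩
    rw [ez, Bmul _ _ (hcd hy), hρ, show B y = a r • (1 : Matrix (Fin 2) (Fin 2) F) by
      ext i l
      fin_cases i <;> fin_cases l <;> simp [B, sub2, ha, hrs, Ne.symm hrs, hya]]
    simp [smul_smul, mul_comm]
  have hSconj : ∀ x₀ q, q ∈ S → x₀ * q * x₀⁻¹ ∈ S := by
    intro x₀ q hq p hp
    obtain ⟨p₀, h₀⟩ := W.mem k hk x₀
    have hcp := hcd hp
    obtain ⟨μ, hμ⟩ := hq (p₀⁻¹ * p * p₀) (by
      rw [map_mul, map_mul, map_inv, h₀, hp, map_mul, map_mul, map_inv]; group)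
    refine ⟨μ, ?_⟩
    have hc0 := hcd h₀
    rw [show p = p₀ * (p₀⁻¹ * p * p₀) * p₀⁻¹ by group,
      Bmul _ _ (hc0.mul_right ((hc0.inv_right.mul_right hcp).mul_right hc0)), Bmul _ _ hc0, hμ,
      Matrix.mul_smul, Matrix.mul_one, Matrix.smul_mul, ← Bmul _ _ hc0, mul_inv_cancel, Bone]
  obtain ⟨w, hw, -⟩ := exists_w c hF
  let x₁ : SUg 2 F 3 := sb c w w (by rw [hw]; linear_combination -three_eq_zero hF)
  have hx₁ : ¬ Mono x₁ := by simp [Mono, x₁, mat_sb, nm_neg_one_ne_zero c hw]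
  obtain ⟨β, hβ, hconj⟩ := conj_not_diag c hF hx₁ hζ h2
  have hM : ∀ q, Mono q → q ∈ S := fun q hq =>
    mono_mem_closure c hF hζ h2 S ht hβ (hconj ▸ hSconj _ _ ht) hq
  suffices hS : ∀ x, x ∈ S from hS x p hp
  have h3mem : ∀ q, ¬ Mono q → q * q * q = 1 → q ∈ S := by
    intro q hq hq3
    obtain ⟨p₀, h₀⟩ := W.mem k hk q
    have hz := W.ker (p₀ * p₀ * p₀) (by rw [map_mul, map_mul, h₀, ← map_mul, ← map_mul, hq3, map_one])
    obtain ⟨z, hzdef⟩ : ∃ z, z = p₀ * p₀ * p₀ := ⟨_, rfl⟩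
    rw [← hzdef] at hz
    -- a lift of order three
    obtain ⟨P, hP, hP3⟩ : ∃ P, g P = f k q ∧ P * P * P = 1 := by
      have hz4 := Sc_pow_four c hz
      refine ⟨p₀ ^ 4 * (z ^ 4)⁻¹ , ?_, ?_⟩
      · rw [hz4, inv_one, mul_one, map_pow, h₀, pow_succ, pow_succ, pow_two, ← map_mul, ← map_mul,
          hq3, map_one, one_mul]
      · rw [hz4, inv_one, mul_one]
        calc p₀ ^ 4 * p₀ ^ 4 * p₀ ^ 4 = (p₀ * p₀ * p₀) ^ 4 := by
              rw [show p₀ * p₀ * p₀ = p₀ ^ 3 by rw [pow_succ, pow_two], ← pow_mul, ← pow_add, ← pow_add]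
          _ = 1 := by rw [← hzdef, hz4]
    have hR : g (b * P * b⁻¹) = f k (D c ζ hζ q) := by rw [map_mul, map_mul, map_inv, hP, hb]
    obtain ⟨lam, hlam⟩ := hM _ (D_mul_mono c hF hζ h2 hq) (b * P * b⁻¹ * P) (by
      rw [map_mul, hR, hP, map_mul])
    have cP := hcd hP
    have cR := hcd hR
    obtain ⟨R, hRdef⟩ : ∃ R, R = b * P * b⁻¹ := ⟨_, rfl⟩
    rw [← hRdef] at hlam hR cR
    have hRB : B R = lam • B P⁻¹ := by
      rw [show R = R * P * P⁻¹ by group, Bmul _ _ (cR.mul_right cP), hlam, Matrix.smul_mul,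
        Matrix.one_mul]
    have hR3 : R * R * R = 1 := by
      rw [hRdef, show b * P * b⁻¹ * (b * P * b⁻¹) * (b * P * b⁻¹) = b * (P * P * P) * b⁻¹ by group,
        hP3]
      group
    have hPi3 : B P⁻¹ * B P⁻¹ * B P⁻¹ = 1 := by
      rw [← Bmul _ _ cP.inv_right, ← Bmul _ _ (cP.inv_right.mul_right cP.inv_right),
        show P⁻¹ * P⁻¹ * P⁻¹ = (P * P * P)⁻¹ by group, hP3, inv_one, Bone]
    have h := congrArg B hR3
    rw [Bmul _ _ (cR.mul_right cR), Bmul _ _ cR, hRB, Bone] at h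
    simp only [Matrix.smul_mul, Matrix.mul_smul, smul_smul, hPi3] at h
    have h00 := congrFun (congrFun h 0) 0
    simp at h00
    have hl1 : lam = 1 := by
      have : (lam - 1) ^ 3 = 0 := by linear_combination h00 + (-lam ^ 2 + lam) * three_eq_zero hF
      exact sub_eq_zero.1 (eq_zero_of_pow_eq_zero this)
    have hbP : b * P = R * b := by rw [hRdef]; group
    have hU : B P = 1 := by
      refine unitary_two c hF (a := ![a' r, a' s]) (b := ![a' r, a' s]) ?_ ?_ ?_ (fun _ => rfl) ?_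
      · rw [← Binv, ← Bmul _ _ cP.inv_right, inv_mul_cancel, Bone]
      · rw [← Bmul _ _ cP, ← Bmul _ _ (cP.mul_right cP), hP3, Bone]
      · intro i l
        have h1 : ∀ u v, a' u * mat P u v = mat R u v * a' v := fun u v => by
          have := congrFun (congrFun (congrArg mat hbP) u) v
          rwa [mat_mul, mat_mul, hba, Matrix.diagonal_mul, Matrix.mul_diagonal] at this
        rw [hl1, one_smul, Binv] at hRB
        have h2' := fun i l => congrFun (congrFun hRB i) l
        have r00 := h2' 0 0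
        have r01 := h2' 0 1
        have r10 := h2' 1 0
        have r11 := h2' 1 1
        simp [B, sub2] at r00 r01 r10 r11
        fin_cases i <;> fin_cases l <;> simp [B, sub2, h1, r00, r01, r10, r11]
      · intro i; fin_cases i <;> simp [hb0.1, hb0.2]
    intro p hp
    obtain ⟨z', hz', ez⟩ := W.congr (hP.trans hp.symm)
    obtain ⟨ρ, hρ⟩ := Bsc hz'
    exact ⟨ρ, by rw [ez, Bmul _ _ cP, hU, hρ, Matrix.one_mul]⟩
  intro q
  by_cases hq : Mono q
  · exact hM q hq
  have hqq : Mono (q * q * q) := by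
    rcases cube_of_not_mono c hF hq with h | h <;> exact Or.inr (by rw [h]; simp)
  have h6 : q * q * q * (q * q * q) = 1 := by
    refine Subtype.ext (Subtype.ext ?_)
    show mat _ = 1
    rw [mat_mul]
    rcases cube_of_not_mono c hF hq with h | h <;> simp [h]
  have hq4 : ¬ Mono (q * q * q * q) := fun h => hq (by
    have := mono_mul c (mono_inv c hqq) h
    rwa [inv_mul_cancel_left] at this)
  have hc : q * (q * q * q) = q * q * q * q := by group
  have h12 : q * q * q * q * (q * q * q * q) * (q * q * q * q) = 1 := by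
    calc q * q * q * q * (q * q * q * q) * (q * q * q * q)
        = (q * q * q * (q * q * q)) * (q * q * q * (q * q * q)) := by group
      _ = 1 := by rw [h6, one_mul]
  have := mul_mem (inv_mem (hM _ hqq)) (h3mem _ hq4 h12)
  rwa [inv_mul_cancel_left] at this

end CfsgLib.SUPhanThree
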