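/-
Decomposition of three-dimensional blocks over the field with nine elements.
-/
import Cfsg.Agent.Lib.SUPhanThree.Field

set_option autoImplicit false
set_option linter.unusedSectionVars false

open Matrix

namespace CfsgLib.SUPhanThree

open CfsgLib.ClassicalForms CfsgLib.SUAmalgam

variable {F : Type*} [Field F] [Fintype F] {m : ℕ} (c : Conj F 3)

/-- An element moving the first vector to a nice one is a product of three block elements. -/
theorem decomp_nice {i : ℕ} (hi : i + 3 ≤ m) {g : SUg m F 3} (hg : g ∈ Blk c m i 3)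
    (hn : nm c (co (act g (ev m F i)) i) ≠ 1) :
    ∃ h ∈ Blk c m (i + 1) 2, ∃ s ∈ Blk c m i 2, ∃ h' ∈ Blk c m (i + 1) 2, g = h * s * h' := by
  set y := act g (ev m F i) with hy
  have hT : T (q := 3) i y = 1 := by rw [hy, T_Blk c hg (Or.inl le_rfl), T_ev c (by omega), if_pos le_rfl]
  have hT3 : T (q := 3) (i + 1 + 1 + 1) y = 0 := by
    rw [hy, T_Blk c hg (Or.inr (by omega)), T_ev c (by omega), if_neg (by omega)]
  rw [T_succ c i, T_succ c (i + 1), T_succ c (i + 1 + 1), hT3, add_zero] at hT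
  obtain ⟨b, hb⟩ := exists_nm c (k := nm c (co y (i + 1)) + nm c (co y (i + 1 + 1)))
    (by rw [map_add, nm_fixed, nm_fixed])
  obtain ⟨h, hh, hh1, hh2⟩ := move_frame c (show i + 1 + 2 ≤ m by omega) y (a := b) (b := 0)
    (fun e => hn (by linear_combination hT - e)) (by rw [nm_zero, add_zero, hb])
  set y' := act h y with hy'
  obtain ⟨s, hs, hs1, hs2⟩ := move_frame c (show i + 2 ≤ m by omega) y' (a := 1) (b := 0)
    (by rw [hy', co_Blk c hh (Or.inl (by omega)), ← hy', hh1, hb, hT]; exact one_ne_zero)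
    (by rw [hy', co_Blk c hh (Or.inl (by omega)), ← hy', hh1, hb, hT, nm_one, nm_zero, add_zero])
  have hfix : act (s * h * g) (ev m F i) = ev m F i := by
    rw [act_mul, act_mul, ← hy, ← hy']
    refine co_ext fun j hj => ?_
    rw [co_ev (show i < m by omega)]
    rcases lt_trichotomy j i with hji | rfl | hji
    · rw [co_Blk c hs (Or.inl hji), hy', co_Blk c hh (Or.inl (by omega)), hy,
        co_Blk c hg (Or.inl hji), co_ev (show i < m by omega), if_neg (by omega)]
    · rw [hs1, if_pos rfl]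
    · rw [if_neg (by omega)]
      rcases Nat.lt_or_ge j (i + 2) with hj2 | hj2
      · rw [show j = i + 1 by omega, hs2]
      · rw [co_Blk c hs (Or.inr hj2)]
        rcases Nat.lt_or_ge j (i + 3) with hj3 | hj3
        · rw [show j = i + 1 + 1 by omega, hy', hh2]
        · rw [hy', co_Blk c hh (Or.inr (by omega)), hy, co_Blk c hg (Or.inr hj3),
            co_ev (show i < m by omega), if_neg (by omega)]
  have hH : s * h * g ∈ Blk c m (i + 1) 2 :=
    Blk_step c (mul_mem (mul_mem (Blk_mono c le_rfl (by omega) hs)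
      (Blk_mono c (by omega) (by omega) hh)) hg) hfix
  exact ⟨h⁻¹, inv_mem hh, s⁻¹, inv_mem hs, _, hH, by group⟩

variable (hF : Nat.card F = 3 ^ 2)
include hF

/-- Moving a vector to a nice one. -/
theorem move_nice {i : ℕ} (hi : i + 2 ≤ m) (x : Fin m → F) :
    ∃ t ∈ Blk c m i 2, nm c (co (act t x) i) ≠ 1 := by
  by_cases h : co x i ≠ 0 ∨ co x (i + 1) ≠ 0
  · obtain ⟨t, ht, hn⟩ := move_norm c hi x (k := -1) h (by rw [map_neg, map_one])
      (fun _ => neg_ne_zero.2 one_ne_zero)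
    exact ⟨t, ht, by rw [hn]; exact neg_one_ne_one hF⟩
  · simp only [ne_eq, not_or, not_not] at h
    exact ⟨1, one_mem _, by rw [act_one, h.1, nm_zero]; exact zero_ne_one⟩

theorem Blk_three_le (i : ℕ) (hi : i + 3 ≤ m) :
    Blk c m i 3 ≤ Blk c m i 2 ⊔ Blk c m (i + 1) 2 := fun g hg => by
  obtain ⟨t, ht, hn⟩ := move_nice c hF (show i + 2 ≤ m by omega) (act g (ev m F i))
  rw [← act_mul] at hn
  obtain ⟨h, hh, s, hs, h', hh', e⟩ :=
    decomp_nice c hi (mul_mem (Blk_mono c le_rfl (by omega) ht) hg) hn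
  rw [show g = t⁻¹ * (h * s * h') by rw [← e]; group]
  exact mul_mem (Subgroup.mem_sup_left (inv_mem ht)) (mul_mem (mul_mem (Subgroup.mem_sup_right hh)
    (Subgroup.mem_sup_left hs)) (Subgroup.mem_sup_right hh'))

theorem nm_two : nm c (2 : F) = 1 := by
  rw [nm_eq_pow c]
  linear_combination (5 : F) * three_eq_zero hF

theorem rows_aux {x0 x1 y1 h : F} (h0 : nm c x0 = 1) (hy : nm c y1 = 1) (hh : nm c h = -1) :
    ∃ A B A' B' : F, nm c A + nm c B = 1 ∧ nm c A' + nm c B' = 1 ∧
      nm c (A * x0 + B * x1) ≠ 1 ∧ nm c (A' * x0 + B' * y1) ≠ 1 ∧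
      nm c (A' * c.σ A + B' * (h * c.σ B)) ≠ 1 := by
  obtain ⟨w, hw, hwt⟩ := exists_w c hF
  have hm1 : (-1 : F) + -1 = 1 := by linear_combination -three_eq_zero hF
  have h2 := nm_two c hF
  obtain ⟨B, hB, hx⟩ : ∃ B, nm c B = -1 ∧ nm c (w * x0 + B * x1) ≠ 1 := by
    rcases nm_cases c x1 with rfl | h1 | h1
    · refine ⟨w, hw, ?_⟩
      rw [mul_zero, add_zero, nm_mul, hw, h0, mul_one]
      exact neg_one_ne_one hF
    · refine ⟨w * x0 / x1, by rw [nm_div, nm_mul, hw, h0, h1, mul_one, div_one], ?_⟩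
      rw [div_mul_cancel₀ _ (nm_one_ne_zero c h1), ← two_mul, nm_mul, nm_mul, hw, h0, h2]
      simpa using neg_one_ne_one hF
    · refine ⟨w * x0 * w / x1, by rw [nm_div, nm_mul, nm_mul, hw, h0, h1]; norm_num, ?_⟩
      rw [div_mul_cancel₀ _ (nm_neg_one_ne_zero c h1),
        show w * x0 + w * x0 * w = w * x0 * (1 + w) by ring, nm_mul, nm_mul, hw, h0,
        show nm c (1 + w) = 1 by
          simp only [nm, map_add, map_one] at hw ⊢
          linear_combination hw + hwt]
      simpa using neg_one_ne_one hF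
  have hy0 := nm_one_ne_zero c hy
  obtain ⟨p, hp⟩ : ∃ p, p = x0 / y1 * (h * c.σ B) := ⟨_, rfl⟩
  have hpn : nm c p = 1 := by
    rw [hp, nm_mul, nm_mul, nm_div, nm_conj, h0, hy, hh, hB]; norm_num
  obtain ⟨r, hr⟩ : ∃ r, r = c.σ w * c.σ p + w * p := ⟨_, rfl⟩
  have hr2 : r * r = 1 := by
    have hrf : c.σ r = r := by simp only [hr, map_add, map_mul, c.invol]; ring
    have hne := trace_ne_zero c hF (show nm c (w * p) = -1 by rw [nm_mul, hw, hpn, mul_one])
    rcases fixed_cases c hrf with e | e | e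
    · exact absurd (by rw [hr] at e; rw [map_mul]; linear_combination e) hne
    · rw [e, mul_one]
    · rw [e]; norm_num
  have hrs : c.σ r = r := by simp only [hr, map_add, map_mul, c.invol]; ring
  have hrn : nm c r = 1 := by rw [nm, hrs, hr2]
  refine ⟨w, B, w, r * (w * x0 / y1), by rw [hw, hB, hm1],
    by rw [nm_mul, nm_div, nm_mul, hrn, hw, h0, hy]; simpa using hm1, hx, ?_, ?_⟩
  · rw [show w * x0 + r * (w * x0 / y1) * y1 = w * x0 * (1 + r) by field_simp, nm_mul, nm_mul, hw, h0]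
    rcases fixed_cases c hrs with e | e | e
    · rw [e, mul_zero] at hr2; exact absurd hr2 zero_ne_one
    · rw [e, one_add_one_eq_two, h2]; simpa using neg_one_ne_one hF
    · rw [e]; simp
  · rw [show r * (w * x0 / y1) * (h * c.σ B) = w * (r * p) by rw [hp]; ring, ← mul_add, nm_mul, hw]
    have : nm c (c.σ w + r * p) = 1 := by
      simp only [nm, map_add, map_mul, c.invol, hrs] at hw hpn ⊢
      linear_combination hw + (r * r) * hpn + hr2 + hr2 - r * hr
    rw [this, mul_one]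
    exact neg_one_ne_one hF

/-- Two rows avoiding norm one. -/
theorem exists_rows {x0 : F} (x1 y1 : F) {h : F} (h0 : nm c x0 = 1) (hh : nm c h = -1) :
    ∃ A B A' B' : F, nm c A + nm c B = 1 ∧ nm c A' + nm c B' = 1 ∧
      nm c (A * x0 + B * x1) ≠ 1 ∧ nm c (A' * x0 + B' * y1) ≠ 1 ∧
      nm c (A' * c.σ A + B' * (h * c.σ B)) ≠ 1 := by
  by_cases hy : nm c y1 = 1
  · exact rows_aux c hF h0 hy hh
  by_cases hx : nm c x1 = 1
  · obtain ⟨A, B, A', B', e1, e2, e3, e4, e5⟩ :=
      rows_aux c hF (x1 := y1) (h := c.σ h) h0 hx (by rw [nm_conj, hh])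
    refine ⟨A', B', A, B, e2, e1, e4, e3, ?_⟩
    rw [← nm_conj]
    simp only [map_add, map_mul, c.invol] at e5 ⊢
    convert e5 using 3 <;> ring
  refine ⟨0, 1, 0, 1, by simp, by simp, by simpa using hx, by simpa using hy, ?_⟩
  simp [hh, neg_one_ne_one hF]

end CfsgLib.SUPhanThree
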