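/-
The chart for covers with four-dimensional windows over the field with nine elements.
-/
import Cfsg.Agent.Lib.SUAmalgam.Cover
import Cfsg.Agent.Lib.SUPhanThree.Decomp

set_option autoImplicit false
set_option linter.unusedSectionVars false

open Matrix

namespace CfsgLib.SUPhanThree

open CfsgLib.ClassicalForms CfsgLib.SUAmalgam

variable {F : Type*} [Field F] [Fintype F] {m : ℕ} {c : Conj F 3} {K : Type*} [Group K]

/-- One step of the induction. -/
structure Lvl {c : Conj F 3} {K : Type*} [Group K] (C : Cover c m K) where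
  k : ℕ
  hk : k + 3 ≤ m
  hI : C.Good (k + 1)
  hI2 : C.Good (k + 2)
  hI3 : C.Good (k + 3)
  hF : Nat.card F = 3 ^ 2
  inj₄ : k + 4 ≤ m → KerFree C.π (C.S k ⊔ C.S (k + 1) ⊔ C.S (k + 2))

namespace Lvl

variable {C : Cover c m K} (D : Lvl C)

/-- The first vector. -/
def e : Fin m → F := ev m F D.k

/-- The stabiliser. -/
def L : Subgroup K := C.Fam (D.k + 1)

/-- The part commuting with the first block. -/
def L₂ : Subgroup K := C.Fam (D.k + 2)

/-- The stabiliser in the window. -/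
def LJ : Subgroup K := C.S (D.k + 1) ⊔ ⨆ (_ : D.k + 4 ≤ m), C.S (D.k + 2)

/-- The window. -/
def J : Subgroup K := C.S D.k ⊔ D.LJ

theorem S₁_le_L : C.S (D.k + 1) ≤ D.L := C.S_le_Fam le_rfl (by have := D.hk; omega)

theorem LJ_le_L : D.LJ ≤ D.L :=
  sup_le D.S₁_le_L (iSup_le fun h => C.S_le_Fam (Nat.le_succ _) h)

theorem S₁_le_LJ : C.S (D.k + 1) ≤ D.LJ := le_sup_left

theorem S₁_le_J : C.S (D.k + 1) ≤ D.J := D.S₁_le_LJ.trans le_sup_right

theorem S₀_le_J : C.S D.k ≤ D.J := le_sup_left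

theorem L₂_le_L : D.L₂ ≤ D.L := C.Fam_anti (by omega)

theorem hk2 : D.k + 2 ≤ m := by have := D.hk; omega

theorem hk12 : D.k + 1 + 2 ≤ m := by have := D.hk; omega

theorem π_L {a : K} (ha : a ∈ D.L) : C.π a ∈ Blk c m (D.k + 1) m := C.map_mem_Fam ha

theorem π_L₂ {a : K} (ha : a ∈ D.L₂) : C.π a ∈ Blk c m (D.k + 2) m := C.map_mem_Fam ha

theorem π_S₀ {a : K} (ha : a ∈ C.S D.k) : C.π a ∈ Blk c m D.k 2 := C.map_mem_S D.hk2 ha

theorem π_S₁ {a : K} (ha : a ∈ C.S (D.k + 1)) : C.π a ∈ Blk c m (D.k + 1) 2 :=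
  C.map_mem_S D.hk12 ha

theorem π_LJ {a : K} (ha : a ∈ D.LJ) : C.π a ∈ Blk c m (D.k + 1) 3 := by
  suffices h : D.LJ ≤ (Blk c m (D.k + 1) 3).comap C.π from h ha
  exact sup_le (fun b hb => Blk_mono c le_rfl (by omega) (D.π_S₁ hb))
    (iSup_le fun h b hb => Blk_mono c (by omega) (by omega) (C.map_mem_S h hb))

theorem π_J {a : K} (ha : a ∈ D.J) : C.π a ∈ Blk c m D.k 4 := by
  suffices h : D.J ≤ (Blk c m D.k 4).comap C.π from h ha
  exact sup_le (fun b hb => Blk_mono c le_rfl (by omega) (D.π_S₀ hb))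
    (fun b hb => Blk_mono c (by omega) (by omega) (D.π_LJ hb))

theorem inj_J : KerFree C.π D.J := by
  by_cases h : D.k + 4 ≤ m
  · rw [J, LJ, iSup_pos h, ← sup_assoc]
    exact D.inj₄ h
  · rw [J, LJ, iSup_neg h, sup_bot_eq]
    exact C.inj _ D.hk

theorem LJ_map : Blk c m (D.k + 1) 3 ≤ D.LJ.map C.π := by
  by_cases h : D.k + 4 ≤ m
  · rw [LJ, iSup_pos h, Subgroup.map_sup, C.map_S _ D.hk12, C.map_S _ h]
    exact Blk_three_le c D.hF (D.k + 1) (by omega)
  · rw [LJ, iSup_neg h, sup_bot_eq, C.map_S _ D.hk12]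
    exact fun g hg l hl => hg l (by have := l.isLt; omega)

theorem exists_LJ {g : SUg m F 3} (hg : g ∈ Blk c m (D.k + 1) 3) : ∃ a ∈ D.LJ, C.π a = g :=
  D.LJ_map hg

theorem exists_S₀ {g : SUg m F 3} (hg : g ∈ Blk c m D.k 2) : ∃ a ∈ C.S D.k, C.π a = g :=
  (C.map_S _ D.hk2).ge hg

theorem exists_S₁ {g : SUg m F 3} (hg : g ∈ Blk c m (D.k + 1) 2) :
    ∃ a ∈ C.S (D.k + 1), C.π a = g :=
  (C.map_S _ D.hk12).ge hg

theorem comm_L₂ {a b : K} (ha : a ∈ C.S D.k) (hb : b ∈ D.L₂) : a * b = b * a := by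
  suffices D.L₂ ≤ Subgroup.centralizer ({a} : Set K) from
    Subgroup.mem_centralizer_iff.1 (this hb) a rfl
  refine C.Fam_le fun j hj hj' b hb => Subgroup.mem_centralizer_iff.2 ?_
  rintro _ rfl
  exact C.comm D.k j hj hj' _ ha b hb

theorem J_stab {a : K} (ha : a ∈ D.J) (h : act (C.π a) D.e = D.e) : a ∈ D.L := by
  obtain ⟨b, hb, e⟩ := D.exists_LJ (Blk_step c (r := 3) (D.π_J ha) h)
  rw [← D.inj_J.eq (Subgroup.mem_sup_right hb) ha e]
  exact D.LJ_le_L hb

theorem ap_L_e {a : K} (ha : a ∈ D.L) : act (C.π a) D.e = D.e :=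
  act_ev_Blk c (D.π_L ha) (Or.inl (Nat.lt_succ_self _))

theorem ap_S₀_e {s : K} (hs : s ∈ C.S D.k) : act (C.π s) D.e =
    co (act (C.π s) D.e) D.k • ev m F D.k + co (act (C.π s) D.e) (D.k + 1) • ev m F (D.k + 1) := by
  have := D.hk
  refine co_ext fun j _ => ?_
  rw [co_add, co_smul, co_smul, co_ev (show D.k < m by omega), co_ev (show D.k + 1 < m by omega)]
  by_cases h0 : j = D.k
  · subst h0; simp
  by_cases h1 : j = D.k + 1
  · subst h1; simp
  rw [if_neg h0, if_neg h1, co_Blk c (D.π_S₀ hs) (by omega), e, co_ev (show D.k < m by omega),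
    if_neg h0]
  ring

/-- The vectors of norm one beyond the induction level. -/
def Vec₁ (x : Fin m → F) : Prop := Sup D.k x ∧ T (q := 3) D.k x = 1

theorem vec_act {a : K} {i r : ℕ} (ha : C.π a ∈ Blk c m i r) (hi : D.k ≤ i) {x : Fin m → F}
    (hx : D.Vec₁ x) : D.Vec₁ (act (C.π a) x) :=
  ⟨Sup.act c ha hi hx.1, by rw [T_Blk c ha (Or.inl hi)]; exact hx.2⟩

theorem vec_e : D.Vec₁ D.e := by
  have := D.hk
  refine ⟨fun j hj => ?_, ?_⟩
  · rw [e, co_ev (show D.k < m by omega), if_neg (by omega)]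
  · rw [e, T_ev c (show D.k < m by omega), if_pos le_rfl]

/-- The vectors outside the exceptional set. -/
def Nice (x : Fin m → F) : Prop := nm c (co x D.k) ≠ 1

theorem tail_ne {x : Fin m → F} (hx : D.Vec₁ x) (h : D.Nice x) : T (q := 3) (D.k + 1) x ≠ 0 := by
  intro h0
  have := hx.2
  rw [T_succ c D.k, h0, add_zero] at this
  exact h this

theorem nice_L {a : K} (ha : a ∈ D.L) {x : Fin m → F} :
    D.Nice (act (C.π a) x) ↔ D.Nice x := by
  rw [Nice, Nice, co_Blk c (D.π_L ha) (Or.inl (Nat.lt_succ_self _))]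

/-- The base coset. -/
def base : K ⧸ D.L := QuotientGroup.mk 1

theorem smul_base (a : K) : a • D.base = (QuotientGroup.mk a : K ⧸ D.L) := by
  show (QuotientGroup.mk (a * 1) : K ⧸ D.L) = _
  rw [mul_one]

theorem smul_base_eq {a b : K} (h : a⁻¹ * b ∈ D.L) : a • D.base = b • D.base := by
  rw [D.smul_base, D.smul_base, QuotientGroup.eq]; exact h

/-- A chart value at a vector. -/
def Ch (x : Fin m → F) (p : K ⧸ D.L) : Prop :=
  ∃ l ∈ D.L, ∃ s ∈ C.S D.k, act (C.π (l * s)) D.e = x ∧ p = (l * s) • D.base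

theorem ch_exists {x : Fin m → F} (hx : D.Vec₁ x) (h : D.Nice x) : ∃ p, D.Ch x p := by
  have := D.hk
  have hu := D.tail_ne hx h
  obtain ⟨b, hb⟩ := exists_nm c (k := T (q := 3) (D.k + 1) x) (c.herm_self _)
  have hb0 : b ≠ 0 := fun e => hu (by rw [← hb, e, nm_zero])
  obtain ⟨g, hg, hge⟩ := D.hI.trans D.hk12 (b⁻¹ • cut (D.k + 1) x)
    (fun j hj => by
      rw [co_smul, co_mk _ (show j < m by omega)]
      simp [cut, hj])
    (by
      have hs : Sup (D.k + 1) (b⁻¹ • cut (D.k + 1) x) := fun j hj => by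
        rw [co_smul, co_mk _ (show j < m by omega)]
        simp [cut, hj]
      rw [T_eq_herm hs, c.smul_left, c.smul_right, ← mul_assoc,
        show b⁻¹ * c.σ b⁻¹ = (nm c b)⁻¹ by rw [nm, map_inv₀, mul_inv]]
      show (nm c b)⁻¹ * T (q := 3) (D.k + 1) x = 1
      rw [← hb, inv_mul_cancel₀ (fun e => hb0 ((nm_eq_zero c).1 e))])
  obtain ⟨l, hl, rfl⟩ := D.hI.map hg
  have hk0 : co D.e D.k = 1 := by rw [e, co_ev (show D.k < m by omega), if_pos rfl]
  have hk1 : co D.e (D.k + 1) = 0 := by rw [e, co_ev (show D.k < m by omega), if_neg (by omega)]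
  obtain ⟨g₀, hg₀, h0, h1⟩ := move_frame c D.hk2 D.e (a := co x D.k) (b := b)
    (by rw [hk0, hk1]; simp)
    (by rw [hk0, hk1, hb, ← T_succ c D.k, hx.2]; simp)
  obtain ⟨s, hs, rfl⟩ := D.exists_S₀ hg₀
  refine ⟨_, l, hl, s, hs, ?_, rfl⟩
  rw [map_mul, act_mul, D.ap_S₀_e hs, h0, h1, act_add, act_smul, act_smul, hge,
    show act (C.π l) (ev m F D.k) = ev m F D.k from D.ap_L_e hl, smul_smul, mul_inv_cancel₀ hb0,
    one_smul]
  refine co_ext fun j hj => ?_
  rw [co_add, co_smul, co_ev (show D.k < m by omega), co_mk (cut (D.k + 1) x) hj]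
  by_cases h0 : j = D.k
  · subst h0; simp [cut]
  by_cases hjk : j < D.k + 1
  · simp [cut, h0, hjk, hx.1 j (by omega)]
  · simp [cut, h0, hjk, co_mk x hj]

theorem ch_unique {x : Fin m → F} (hx : D.Vec₁ x) (h : D.Nice x) {p p' : K ⧸ D.L}
    (hp : D.Ch x p) (hp' : D.Ch x p') : p = p' := by
  have := D.hk
  obtain ⟨l, hl, s, hs, hse, rfl⟩ := hp
  obtain ⟨l', hl', s', hs', hse', rfl⟩ := hp'
  have hrL : l'⁻¹ * l ∈ D.L := mul_mem (inv_mem hl') hl
  have hrse : act (C.π (l'⁻¹ * l)) (act (C.π s) D.e) = act (C.π s') D.e := by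
    rw [map_mul, act_mul]
    rw [map_mul, act_mul] at hse hse'
    rw [hse, ← hse', map_inv, act_inv_act]
  set r := l'⁻¹ * l with hr
  set a := co (act (C.π s) D.e) D.k
  set b := co (act (C.π s) D.e) (D.k + 1)
  have hs2 : act (C.π s) D.e = a • ev m F D.k + b • ev m F (D.k + 1) := D.ap_S₀_e hs
  have hsum : nm c a + nm c b = 1 := by
    have h1 := T_Blk c (D.π_S₀ hs) (Or.inl (le_refl D.k)) D.e
    rw [T_succ c D.k, T_succ c (D.k + 1), T_Blk c (D.π_S₀ hs) (Or.inr (le_of_eq rfl)), e,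
      T_ev c (show D.k < m by omega), if_neg (by omega), add_zero,
      T_ev c (show D.k < m by omega), if_pos le_rfl] at h1
    exact h1
  have hxa : co x D.k = a := by
    rw [← hse, map_mul, act_mul, co_Blk c (D.π_L hl) (Or.inl (Nat.lt_succ_self _))]
  have hb : b ≠ 0 := fun e => h (by rw [hxa]; rw [e, nm_zero, add_zero] at hsum; exact hsum)
  have ha' : co (act (C.π s') D.e) D.k = a := by
    rw [← hrse, co_Blk c (D.π_L hrL) (Or.inl (Nat.lt_succ_self _))]
  set b' := co (act (C.π s') D.e) (D.k + 1) with hb'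
  have hs2' : act (C.π s') D.e = a • ev m F D.k + b' • ev m F (D.k + 1) := by
    rw [← ha']; exact D.ap_S₀_e hs'
  rw [hs2, hs2', act_add, act_smul, act_smul,
    show act (C.π r) (ev m F D.k) = ev m F D.k from D.ap_L_e hrL, add_right_inj] at hrse
  have hlam : act (C.π r) (ev m F (D.k + 1)) = (b' / b) • ev m F (D.k + 1) := by
    rw [div_eq_inv_mul, ← smul_smul, ← hrse, smul_smul, inv_mul_cancel₀ hb, one_smul]
  have hnl : nm c (b' / b) = 1 := by
    have h1 := T_Blk c (D.π_L hrL) (Or.inl (le_refl (D.k + 1))) (ev m F (D.k + 1))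
    rw [hlam, T_ev c (show D.k + 1 < m by omega), if_pos le_rfl, T_succ c (D.k + 1), co_smul,
      co_ev (show D.k + 1 < m by omega), if_pos rfl, mul_one] at h1
    have h0 : T (q := 3) (D.k + 1 + 1) ((b' / b) • ev m F (D.k + 1)) = 0 := by
      rw [T_congr (y := (0 : Fin m → F)) fun j hj => by
        rw [co_smul, co_ev (show D.k + 1 < m by omega), if_neg (by omega), mul_zero, co_zero]]
      rw [T_eq_sum c]; simp
    rw [h0, add_zero] at h1
    exact h1
  obtain ⟨g, hg, hg0, hg1⟩ := move_frame c D.hk12 (ev m F (D.k + 1)) (a := b' / b) (b := 0)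
    (by rw [co_ev (show D.k + 1 < m by omega), co_ev (show D.k + 1 < m by omega)]; simp)
    (by rw [hnl, co_ev (show D.k + 1 < m by omega), co_ev (show D.k + 1 < m by omega)]; simp)
  obtain ⟨t, ht, rfl⟩ := D.exists_S₁ hg
  have hte : act (C.π t) (ev m F (D.k + 1)) = (b' / b) • ev m F (D.k + 1) := by
    refine co_ext fun j _ => ?_
    rw [co_smul, co_ev (show D.k + 1 < m by omega)]
    by_cases h0 : j = D.k + 1
    · subst h0; simp [hg0]
    by_cases h1 : j = D.k + 1 + 1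
    · subst h1; simp [hg1]
    rw [co_Blk c (D.π_S₁ ht) (by omega), co_ev (show D.k + 1 < m by omega), if_neg h0, mul_zero]
  have htr : t⁻¹ * r ∈ D.L := mul_mem (inv_mem (D.S₁_le_L ht)) hrL
  have hr₂ : t⁻¹ * r ∈ D.L₂ := by
    have hB : C.π (t⁻¹ * r) ∈ Blk c m (D.k + 2) m := fun l hl => by
      by_cases h1 : (l : ℕ) = D.k + 1
      · rw [← ev_eq_single, h1, map_mul, map_inv, act_mul, hlam, ← hte, act_inv_act]
      · exact D.π_L htr l (by omega)
    obtain ⟨r₂, hr₂, e⟩ := D.hI2.map hB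
    rw [← D.hI.inj.eq (D.L₂_le_L hr₂) htr e]
    exact hr₂
  have hJ : t * s ∈ D.J := mul_mem (D.S₁_le_J ht) (D.S₀_le_J hs)
  have hts : s'⁻¹ * (t * s) ∈ D.L := by
    refine D.J_stab (mul_mem (inv_mem (D.S₀_le_J hs')) hJ) ?_
    rw [map_mul, map_mul, map_inv, act_mul, act_mul, hs2, act_add, act_smul, act_smul,
      show act (C.π t) (ev m F D.k) = ev m F D.k from D.ap_L_e (D.S₁_le_L ht), hte, smul_smul,
      mul_div_cancel₀ _ hb, ← hs2', act_inv_act]
  symm
  refine D.smul_base_eq ?_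
  have hcomm : (t⁻¹ * r) * s = s * (t⁻¹ * r) := (D.comm_L₂ hs hr₂).symm
  have : (l' * s')⁻¹ * (l * s) = s'⁻¹ * (t * s) * (t⁻¹ * r) := by
    calc (l' * s')⁻¹ * (l * s) = s'⁻¹ * t * ((t⁻¹ * r) * s) := by rw [hr]; group
      _ = _ := by rw [hcomm]; group
  rw [this]
  exact mul_mem hts htr

open Classical in
/-- The chart. -/
noncomputable def kG (x : Fin m → F) : K ⧸ D.L :=
  if h : ∃ p, D.Ch x p then h.choose else D.base

theorem kG_eq {x : Fin m → F} (hx : D.Vec₁ x) (h : D.Nice x) {p : K ⧸ D.L} (hp : D.Ch x p) :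
    D.kG x = p := by
  have hex : ∃ p, D.Ch x p := ⟨p, hp⟩
  rw [kG, dif_pos hex]
  exact D.ch_unique hx h hex.choose_spec hp

/-- The chart commutes with an element at a vector. -/
def OkG (a : K) (x : Fin m → F) : Prop := a • D.kG x = D.kG (act (C.π a) x)

variable {D}

theorem OkG.mul {a b : K} {x : Fin m → F} (hb : D.OkG b x) (ha : D.OkG a (act (C.π b) x)) :
    D.OkG (a * b) x := by
  rw [OkG, mul_smul, hb, ha, map_mul, act_mul]

theorem OkG.inv {a : K} {x : Fin m → F} (h : D.OkG a x) : D.OkG a⁻¹ (act (C.π a) x) := by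
  rw [OkG, inv_smul_eq_iff, map_inv, act_inv_act, ← h]

variable (D)

theorem okG_L {a : K} (ha : a ∈ D.L) {x : Fin m → F} (hx : D.Vec₁ x) (h : D.Nice x) :
    D.OkG a x := by
  obtain ⟨p, hp⟩ := D.ch_exists hx h
  rw [OkG, D.kG_eq hx h hp]
  refine (D.kG_eq (D.vec_act (D.π_L ha) (Nat.le_succ _) hx) ((D.nice_L ha).2 h) ?_).symm
  obtain ⟨l, hl, s, hs, hse, rfl⟩ := hp
  refine ⟨a * l, mul_mem ha hl, s, hs, ?_, by rw [← mul_smul, mul_assoc]⟩
  rw [mul_assoc, map_mul, act_mul, hse]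

/-- A vector in the window is reached by the chart inside the window. -/
theorem J_rep {x : Fin m → F} (hx : D.Vec₁ x) (h : D.Nice x)
    (h4 : ∀ j, D.k + 4 ≤ j → co x j = 0) :
    ∃ l ∈ D.LJ, ∃ s ∈ C.S D.k, act (C.π (l * s)) D.e = x := by
  have := D.hk
  -- clear the last coordinate
  obtain ⟨g₁, hg₁, hz⟩ : ∃ g ∈ Blk c m (D.k + 1) 3, co (act g x) (D.k + 3) = 0 := by
    by_cases h3 : co x (D.k + 3) = 0
    · exact ⟨1, one_mem _, by rwa [act_one]⟩
    have hm : D.k + 4 ≤ m := by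
      by_contra hm
      exact h3 (co_of_le _ (by omega))
    have clear : ∀ y : Fin m → F, nm c (co y (D.k + 2)) + nm c (co y (D.k + 2 + 1)) ≠ 0 →
        ∃ g ∈ Blk c m (D.k + 1) 3, co (act g y) (D.k + 3) = 0 := by
      intro y hy
      obtain ⟨b, hb⟩ := exists_nm c (k := nm c (co y (D.k + 2)) + nm c (co y (D.k + 2 + 1)))
        (by rw [map_add, nm_fixed, nm_fixed])
      obtain ⟨g, hg, -, hg2⟩ := move_frame c (show D.k + 2 + 2 ≤ m by omega) y (a := b) (b := 0)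
        hy (by rw [nm_zero, add_zero, hb])
      exact ⟨g, Blk_mono c (by omega) (by omega) hg, hg2⟩
    by_cases hs : nm c (co x (D.k + 2)) + nm c (co x (D.k + 2 + 1)) = 0
    swap
    · exact clear x hs
    have hT := D.tail_ne hx h
    rw [T_succ c (D.k + 1), T_succ c (D.k + 1 + 1), T_succ c (D.k + 1 + 1 + 1),
      T_congr (y := (0 : Fin m → F)) (fun j hj => by rw [h4 j (by omega), co_zero]),
      show T (q := 3) (D.k + 1 + 1 + 1 + 1) (0 : Fin m → F) = 0 by rw [T_eq_sum c]; simp,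
      add_zero] at hT
    change nm c (co x (D.k + 1)) + (nm c (co x (D.k + 2)) + nm c (co x (D.k + 2 + 1))) ≠ 0 at hT
    rw [hs, add_zero] at hT
    obtain ⟨g, hg, hn⟩ := move_norm c D.hk12 x (k := -nm c (co x (D.k + 1)))
      (Or.inl fun e => hT (by rw [e, nm_zero])) (by rw [map_neg, nm_fixed]) (fun _ => neg_ne_zero.2 hT)
    have h1 := T_Blk c hg (Or.inl le_rfl) x
    rw [T_succ c (D.k + 1), T_succ c (D.k + 1 + 1), T_succ c (D.k + 1) x,
      T_succ c (D.k + 1 + 1) x, hn, T_Blk c hg (Or.inr (le_of_eq rfl))] at h1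
    change -nm c (co x (D.k + 1)) + (nm c (co (act g x) (D.k + 2)) + T (q := 3) (D.k + 3) x) =
      nm c (co x (D.k + 1)) + (nm c (co x (D.k + 2)) + T (q := 3) (D.k + 3) x) at h1
    obtain ⟨g', hg', hz⟩ := clear (act g x) (by
      rw [co_Blk c hg (j := D.k + 2 + 1) (Or.inr (by omega))]
      intro e
      have : (2 : F) * nm c (co x (D.k + 1)) = 0 := by linear_combination -h1 + e - hs
      exact (mul_eq_zero.1 this).elim (two_ne_zero' D.hF) hT)
    exact ⟨g' * g, mul_mem hg' (Blk_mono c le_rfl (by omega) hg), by rwa [act_mul]⟩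
  set y := act g₁ x with hy
  have hyV : D.Vec₁ y := ⟨Sup.act c hg₁ (Nat.le_succ _) hx.1,
    by rw [hy, T_Blk c hg₁ (Or.inl (Nat.le_succ _))]; exact hx.2⟩
  have hy0 : co y D.k = co x D.k := co_Blk c hg₁ (Or.inl (Nat.lt_succ_self _)) x
  have hy4 : ∀ j, D.k + 3 ≤ j → co y j = 0 := fun j hj => by
    rcases eq_or_lt_of_le hj with rfl | hj
    · exact hz
    · rw [hy, co_Blk c hg₁ (Or.inr (by omega)), h4 j hj]
  have hT := hyV.2
  rw [T_succ c D.k, T_succ c (D.k + 1), T_succ c (D.k + 1 + 1),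
    T_congr (y := (0 : Fin m → F)) (fun j hj => by rw [hy4 j (by omega), co_zero]),
    show T (q := 3) (D.k + 1 + 1 + 1) (0 : Fin m → F) = 0 by rw [T_eq_sum c]; simp, add_zero] at hT
  obtain ⟨b, hb⟩ := exists_nm c (k := nm c (co y (D.k + 1)) + nm c (co y (D.k + 1 + 1)))
    (by rw [map_add, nm_fixed, nm_fixed])
  obtain ⟨g, hg, hg1, hg2⟩ := move_frame c D.hk12 y (a := b) (b := 0)
    (fun e => h (by rw [← hy0]; linear_combination hT - e)) (by rw [nm_zero, add_zero, hb])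
  have hgg : g * g₁ ∈ Blk c m (D.k + 1) 3 := mul_mem (Blk_mono c le_rfl (by omega) hg) hg₁
  obtain ⟨l, hl, hle⟩ := D.exists_LJ hgg
  have hk0 : co D.e D.k = 1 := by rw [e, co_ev (show D.k < m by omega), if_pos rfl]
  have hk1 : co D.e (D.k + 1) = 0 := by rw [e, co_ev (show D.k < m by omega), if_neg (by omega)]
  obtain ⟨g₀, hg₀, h0, h1⟩ := move_frame c D.hk2 D.e (a := co y D.k) (b := b)
    (by rw [hk0, hk1]; simp)
    (by rw [hk0, hk1, hb]; simp [hT])
  obtain ⟨s, hs, rfl⟩ := D.exists_S₀ hg₀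
  refine ⟨l⁻¹, inv_mem hl, s, hs, ?_⟩
  have hlx : act (C.π l) x = act (C.π s) D.e := by
    rw [hle, act_mul, ← hy]
    refine co_ext fun j _ => ?_
    by_cases hj0 : j = D.k
    · subst hj0; rw [co_Blk c hg (Or.inl (Nat.lt_succ_self _)), h0]
    by_cases hj1 : j = D.k + 1
    · subst hj1; rw [hg1, h1]
    rw [co_Blk c (D.π_S₀ hs) (by omega), e, co_ev (show D.k < m by omega), if_neg hj0]
    by_cases hj2 : j = D.k + 1 + 1
    · subst hj2; rw [hg2]
    rw [co_Blk c hg (by omega)]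
    by_cases hjk : j < D.k
    · exact hyV.1 j hjk
    · exact hy4 j (by omega)
  rw [map_mul, map_inv, act_mul, ← hlx, act_inv_act]

theorem kG_J {a : K} (ha : a ∈ D.J) (h : D.Nice (act (C.π a) D.e)) :
    D.kG (act (C.π a) D.e) = a • D.base := by
  have := D.hk
  have hx : D.Vec₁ (act (C.π a) D.e) := D.vec_act (D.π_J ha) le_rfl D.vec_e
  obtain ⟨l, hl, s, hs, hse⟩ := D.J_rep hx h fun j hj => by
    rw [co_Blk c (D.π_J ha) (Or.inr hj), e, co_ev (show D.k < m by omega), if_neg (by omega)]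
  refine D.kG_eq hx h ⟨l, D.LJ_le_L hl, s, hs, hse, D.smul_base_eq ?_⟩
  refine D.J_stab (mul_mem (inv_mem ha) (mul_mem (Subgroup.mem_sup_right hl) (D.S₀_le_J hs))) ?_
  rw [map_mul, map_inv, act_mul, hse, act_inv_act]

end Lvl

end CfsgLib.SUPhanThree
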