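/-
Orthonormal eigenframes of commuting unitary involutions, and conjugation by a frame.
-/
import Cfsg.Agent.Lib.SUPhanThree.Field

set_option autoImplicit false
set_option linter.unusedSectionVars false

open Matrix

namespace CfsgLib.SUPhanThree

open CfsgLib.ClassicalForms CfsgLib.SUAmalgam

variable {F : Type*} [Field F] [Fintype F] {n : ℕ} (c : Conj F 3) (hF : Nat.card F = 3 ^ 2)

/-- The standard form. -/
abbrev hm (n : ℕ) (x y : Fin n → F) : F := Cfsg.hermForm n F 3 x y

include c hF

omit hF in
theorem herm_sum_left {ι : Type*} (s : Finset ι) (a : ι → F) (v : ι → Fin n → F) (y : Fin n → F) :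
    hm n (∑ i ∈ s, a i • v i) y = ∑ i ∈ s, a i * hm n (v i) y := by
  classical
  induction s using Finset.induction_on with
  | empty => simp [hm, c.zero_left]
  | insert i s hi ih =>
    rw [Finset.sum_insert hi, Finset.sum_insert hi, hm, c.add_left, c.smul_left]
    exact congrArg _ ih

theorem exists_perp {j : ℕ} (hj : j < n) (v : Fin j → Fin n → F)
    (hv : ∀ i l, hm n (v i) (v l) = if i = l then 1 else 0) :
    ∃ x, (∀ i, hm n x (v i) = 0) ∧ hm n x x ≠ 0 := by
  let L : (Fin n → F) →ₗ[F] (Fin j → F) :=
    { toFun := fun x i => hm n x (v i)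
      map_add' := fun x y => funext fun i => c.add_left x y (v i)
      map_smul' := fun a x => funext fun i => c.smul_left a x (v i) }
  have hni : ¬ Function.Injective L := fun h => by
    have := LinearMap.finrank_le_finrank_of_injective h
    simp only [Module.finrank_fin_fun] at this
    omega
  rw [← LinearMap.ker_eq_bot, Submodule.eq_bot_iff] at hni
  simp only [not_forall] at hni
  obtain ⟨u, hu, hu0⟩ := hni
  have hu' : ∀ i, hm n u (v i) = 0 := fun i => congrFun hu i
  by_cases huu : hm n u u = 0
  swap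
  · exact ⟨u, hu', huu⟩
  obtain ⟨l, hl⟩ := Function.ne_iff.1 hu0
  set e : Fin n → F := Pi.single l 1
  set w := e - ∑ i, hm n e (v i) • v i with hw
  have hsum : ∀ y, hm n (∑ i, hm n e (v i) • v i) y = ∑ i, hm n e (v i) * hm n (v i) y :=
    fun y => herm_sum_left c _ _ _ y
  have hwv : ∀ i, hm n w (v i) = 0 := by
    intro i
    rw [hw, hm, c.sub_left]
    change hm n e (v i) - hm n _ (v i) = 0
    rw [hsum]
    simp [hv]
  have hwu : hm n w u = c.σ (u l) := by
    rw [hw, hm, c.sub_left]
    change hm n e u - hm n _ u = _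
    rw [hsum, Finset.sum_eq_zero (fun i _ => by
      rw [show hm n (v i) u = 0 from by rw [hm, c.herm_symm, show Cfsg.hermForm n F 3 u (v i) = 0 from hu' i, map_zero],
        mul_zero]), sub_zero]
    exact c.single_left u l
  by_cases hww : hm n w w = 0
  swap
  · exact ⟨w, hwv, hww⟩
  obtain ⟨θ, hθ⟩ := c.exists_trace_one
  refine ⟨w + (c.σ θ / u l) • u, fun i => ?_, ?_⟩
  · rw [hm, c.add_left, c.smul_left]
    change hm n w (v i) + _ * hm n u (v i) = 0
    rw [hwv, hu', mul_zero, add_zero]
  · have hul : c.σ (u l) ≠ 0 := fun e0 => hl (c.eq_zero e0)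
    have huw : hm n u w = u l := by rw [hm, c.herm_symm]; change c.σ (hm n w u) = _; rw [hwu, c.invol]
    have : hm n (w + (c.σ θ / u l) • u) (w + (c.σ θ / u l) • u) = θ + c.σ θ := by
      simp only [hm] at huw hwu hww huu ⊢
      rw [c.add_left, c.add_right, c.add_right, c.smul_left, c.smul_left, c.smul_right, c.smul_right,
        hww, huu, hwu, huw, map_div₀, c.invol, div_mul_cancel₀ _ hul,
        div_mul_cancel₀ _ (show u l ≠ 0 from hl)]
      ring
    rw [this, hθ]
    exact one_ne_zero

/-- An orthonormal frame of common eigenvectors of two commuting involutions. -/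
theorem exists_eigen_frame (d : Fin 2 → SUg n F 3) (hsq : ∀ r, d r * d r = 1)
    (hcomm : Commute (d 0) (d 1)) :
    ∃ v : Fin n → Fin n → F, (∀ i l, hm n (v i) (v l) = if i = l then 1 else 0) ∧
      ∀ i r, ∃ e : F, e * e = 1 ∧ act (d r) (v i) = e • v i := by
  suffices ∀ j, j ≤ n → ∃ v : Fin j → Fin n → F,
      (∀ i l, hm n (v i) (v l) = if i = l then 1 else 0) ∧
        ∀ i r, ∃ e : F, e * e = 1 ∧ act (d r) (v i) = e • v i from this n le_rfl
  intro j
  induction j with
  | zero => exact fun _ => ⟨Fin.elim0, fun i => i.elim0, fun i => i.elim0⟩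
  | succ j ih =>
    intro hj
    obtain ⟨v, hv, he⟩ := ih (by omega)
    obtain ⟨x, hx, hxx⟩ := exists_perp c hF (show j < n by omega) v hv
    have key : ∀ (r : Fin 2) (y : Fin n → F), (∀ i, hm n y (v i) = 0) → hm n y y ≠ 0 → ∃ (z : Fin n → F) (e : F), (∀ i, hm n z (v i) = 0) ∧
        hm n z z ≠ 0 ∧ e * e = 1 ∧ act (d r) z = e • z ∧
        ∀ (s : Fin 2) (e' : F), act (d s) y = e' • y → Commute (d s) (d r) → act (d s) z = e' • z := by
      intro r y hy hyy
      set y' := act (d r) y with hy'
      have hdd : act (d r) y' = y := by rw [hy', ← act_mul, hsq, act_one]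
      have hy'v : ∀ i, hm n y' (v i) = 0 := fun i => by
        obtain ⟨e, -, hei⟩ := he i r
        have : hm n y' (act (d r) (v i)) = hm n y (v i) := herm_act (d r) y (v i)
        rw [hei, hm, c.smul_right] at this
        rcases mul_eq_zero.1 (this.trans (hy i)) with h | h
        · have : e = 0 := c.eq_zero h
          rw [this, zero_smul] at hei
          have h1 := congrArg (act (d r)) hei
          rw [← act_mul, hsq, act_one, act_zero] at h1
          have h2 := hv i i
          rw [if_pos rfl, h1, hm, c.zero_left] at h2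
          exact absurd h2 zero_ne_one
        · exact h
      have hsum : hm n (y + y') (y + y') + hm n (y - y') (y - y') = hm n y y := by
        have : hm n y' y' = hm n y y := herm_act (d r) y y
        simp only [hm] at this ⊢
        rw [c.add_left, c.add_right, c.add_right, c.sub_left, c.sub_right, c.sub_right, this]
        linear_combination Cfsg.hermForm n F 3 y y * three_eq_zero hF
      have hcases : hm n (y + y') (y + y') ≠ 0 ∨ hm n (y - y') (y - y') ≠ 0 := by
        by_contra h
        simp only [not_or, ne_eq, not_not] at h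
        exact hyy (by rw [← hsum, h.1, h.2, add_zero])
      rcases hcases with h | h
      · refine ⟨y + y', 1, fun i => ?_, h, one_mul _, by rw [act_add, hdd, ← hy', one_smul, add_comm],
          fun s e' hs hc => ?_⟩
        · rw [hm, c.add_left]; change hm n y _ + hm n y' _ = 0; rw [hy, hy'v, add_zero]
        · rw [act_add, hs, hy', ← act_mul, hc.eq, act_mul, hs, act_smul, smul_add]
      · refine ⟨y - y', -1, fun i => ?_, h, by ring, ?_, fun s e' hs hc => ?_⟩
        · rw [hm, c.sub_left]; change hm n y _ - hm n y' _ = 0; rw [hy, hy'v, sub_zero]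
        · rw [sub_eq_add_neg y y', ← neg_one_smul F y', act_add, act_smul, hdd, ← hy', smul_add,
            smul_smul]
          norm_num
          abel
        · rw [sub_eq_add_neg y y', ← neg_one_smul F y', act_add, act_smul, hs, hy', ← act_mul,
            hc.eq, act_mul, hs, act_smul, smul_add, smul_comm]
    obtain ⟨y₀, e₀, h0v, h00, he0, hd0, -⟩ := key 0 x hx hxx
    obtain ⟨y₁, e₁, h1v, h11, he1, hd1, hkeep⟩ := key 1 y₀ h0v h00
    have hd01 := hkeep 0 e₀ hd0 hcomm
    obtain ⟨a, ha⟩ := c.exists_norm (d := (hm n y₁ y₁)⁻¹) (by rw [map_inv₀]; exact congrArg _ (c.herm_self y₁))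
    refine ⟨Fin.snoc v (a • y₁), fun i l => ?_, fun i r => ?_⟩
    · have hsv : ∀ i, hm n (a • y₁) (v i) = 0 := fun i => by
        rw [hm, c.smul_left, show Cfsg.hermForm n F 3 y₁ (v i) = 0 from h1v i, mul_zero]
      refine Fin.lastCases ?_ (fun i' => ?_) i <;> refine Fin.lastCases ?_ (fun l' => ?_) l
      · simp only [Fin.snoc_last, if_pos]
        rw [hm, c.smul_left, c.smul_right, ← mul_assoc, ha]
        exact inv_mul_cancel₀ h11
      · simp only [Fin.snoc_last, Fin.snoc_castSucc, hsv]
        rw [if_neg (by exact fun e => absurd e (Fin.castSucc_ne_last l').symm)]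
      · simp only [Fin.snoc_last, Fin.snoc_castSucc]
        rw [hm, c.herm_symm]
        change c.σ (hm n (a • y₁) (v i')) = _
        rw [hsv, map_zero, if_neg (Fin.castSucc_ne_last i')]
      · simp only [Fin.snoc_castSucc, hv, Fin.castSucc_inj]
    · refine Fin.lastCases ?_ (fun i' => ?_) i
      · simp only [Fin.snoc_last]
        fin_cases r
        · exact ⟨e₀, he0, by show act (d 0) _ = _; rw [act_smul, hd01, smul_comm]⟩
        · exact ⟨e₁, he1, by show act (d 1) _ = _; rw [act_smul, hd1, smul_comm]⟩
      · simp only [Fin.snoc_castSucc]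
        exact he i' r

/-- Conjugation by an orthonormal frame. -/
theorem exists_frame_conj (v : Fin n → Fin n → F)
    (hv : ∀ i l, hm n (v i) (v l) = if i = l then 1 else 0) :
    ∃ E : SUg n F 3 ≃* SUg n F 3, ∀ (y : SUg n F 3) (i : Fin n) (e : F),
      act (E y) (v i) = e • v i → act y (Pi.single i 1) = e • Pi.single i 1 := by
  classical
  set A : Matrix (Fin n) (Fin n) F := Matrix.of fun r i => v i r with hA
  have hAe : ∀ i, A *ᵥ Pi.single i 1 = v i := fun i => by
    funext r; simp [hA, Matrix.mulVec, dotProduct, Pi.single_apply]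
  have hAx : ∀ x, A *ᵥ x = ∑ i, x i • v i := fun x => by
    funext r; simp [hA, Matrix.mulVec, dotProduct, mul_comm]
  have hpres : ∀ x y, hm n (A *ᵥ x) (A *ᵥ y) = hm n x y := fun x y => by
    rw [hAx, hAx, herm_sum_left c, hm, c.herm_apply x y]
    refine Finset.sum_congr rfl fun i _ => ?_
    rw [hm, c.herm_symm]
    change x i * c.σ (hm n (∑ l, y l • v l) (v i)) = _
    rw [herm_sum_left c]
    simp [hv]
  have hdet : A.det ≠ 0 := fun h => by
    obtain ⟨x, hx0, hx⟩ := Matrix.exists_mulVec_eq_zero_iff.2 h
    obtain ⟨i, hi⟩ := Function.ne_iff.1 hx0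
    have := hpres x (Pi.single i 1)
    rw [hx, hm, c.zero_left, hm, c.single_right] at this
    exact hi this.symm
  set P : GL (Fin n) F := Matrix.GeneralLinearGroup.mkOfDetNeZero A hdet with hP
  have hPi : ∀ x, A *ᵥ (((P⁻¹ : GL (Fin n) F) : Matrix (Fin n) (Fin n) F) *ᵥ x) = x := fun x => by
    rw [Matrix.mulVec_mulVec, show A = (P : Matrix (Fin n) (Fin n) F) from rfl, Units.mul_inv,
      Matrix.one_mulVec]
  let φ : SUg n F 3 →* SUg n F 3 :=
    { toFun := fun y => mk ((P : Matrix (Fin n) (Fin n) F) * mat y *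
          ((P⁻¹ : GL (Fin n) F) : Matrix (Fin n) (Fin n) F))
        (by rw [Matrix.det_units_conj]; exact y.1.2)
        (fun a b => by
          rw [← Matrix.mulVec_mulVec, ← Matrix.mulVec_mulVec, ← Matrix.mulVec_mulVec,
            ← Matrix.mulVec_mulVec]
          show hm n (A *ᵥ _) (A *ᵥ _) = _
          rw [hpres]
          show hm n (act y _) (act y _) = _
          rw [hm, herm_act]
          change hm n _ _ = hm n a b
          rw [← hpres, hPi, hPi])
      map_one' := Subtype.ext (Subtype.ext (by
        show (P : Matrix (Fin n) (Fin n) F) * 1 * _ = 1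
        simp))
      map_mul' := fun a b => Subtype.ext (Subtype.ext (by
        show (P : Matrix (Fin n) (Fin n) F) * (mat a * mat b) * _ = _ * _ * _ * (_ * _ * _)
        simp [Matrix.mul_assoc])) }
  have hφ : Function.Injective φ := (injective_iff_map_eq_one φ).2 fun a ha => by
    have h := congrArg mat ha
    change (P : Matrix (Fin n) (Fin n) F) * mat a * _ = 1 at h
    refine Subtype.ext (Subtype.ext ?_)
    show mat a = 1
    calc mat a = ((P⁻¹ : GL (Fin n) F) : Matrix (Fin n) (Fin n) F) *
          ((P : Matrix (Fin n) (Fin n) F) * mat a * ((P⁻¹ : GL (Fin n) F) : Matrix (Fin n) (Fin n) F)) *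
          (P : Matrix (Fin n) (Fin n) F) := by simp [Matrix.mul_assoc]
      _ = 1 := by rw [h]; simp
  refine ⟨MulEquiv.ofBijective φ (Finite.injective_iff_bijective.1 hφ), fun y i e h => ?_⟩
  change ((P : Matrix (Fin n) (Fin n) F) * mat y *
      ((P⁻¹ : GL (Fin n) F) : Matrix (Fin n) (Fin n) F)) *ᵥ v i = e • v i at h
  have hinj : Function.Injective (fun x => A *ᵥ x) :=
    (Matrix.mulVec_injective_iff_isUnit.2 P.isUnit)
  refine hinj ?_
  show A *ᵥ (mat y *ᵥ Pi.single i 1) = A *ᵥ (e • Pi.single i 1)
  rw [Matrix.mulVec_smul, hAe, ← h, ← hAe i, Matrix.mulVec_mulVec, Matrix.mulVec_mulVec,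
    show A = (P : Matrix (Fin n) (Fin n) F) from rfl, Units.inv_mul_cancel_right]

end CfsgLib.SUPhanThree
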