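/-
The equivariant section for covers with four-dimensional windows.
-/
import Cfsg.Agent.Lib.SUPhanThree.Chart

set_option autoImplicit false
set_option linter.unusedSectionVars false

open Matrix

namespace CfsgLib.SUPhanThree

open CfsgLib.ClassicalForms CfsgLib.SUAmalgam

variable {F : Type*} [Field F] [Fintype F] {m : ℕ} {c : Conj F 3} {K : Type*} [Group K]

/-- A vector with anisotropic tail is moved to one supported at the first tail coordinate. -/
theorem flatten_one {C : Cover c m K} {j : ℕ} (hG : C.Good j) (x : Fin m → F)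
    (h : T (q := 3) j x ≠ 0) :
    ∃ g ∈ Blk c m j m, ∀ l, j + 1 ≤ l → co (act g x) l = 0 := by
  by_cases hj : j + 2 ≤ m
  swap
  · exact ⟨1, one_mem _, fun l hl => co_of_le _ (by omega)⟩
  obtain ⟨b, hb⟩ := exists_nm c (k := T (q := 3) j x) (c.herm_self _)
  have hb0 : b ≠ 0 := fun e => h (by rw [← hb, e, nm_zero])
  have hs : Sup j (b⁻¹ • cut j x) := fun l hl => by
    rw [co_smul, co_mk _ (show l < m by omega)]
    simp [cut, hl]
  obtain ⟨g, hg, hge⟩ := hG.trans hj _ hs (by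
    rw [T_eq_herm hs, c.smul_left, c.smul_right, ← mul_assoc,
      show b⁻¹ * c.σ b⁻¹ = (nm c b)⁻¹ by rw [nm, map_inv₀, mul_inv]]
    show (nm c b)⁻¹ * T (q := 3) j x = 1
    rw [← hb, inv_mul_cancel₀ (fun e => hb0 ((nm_eq_zero c).1 e))])
  refine ⟨g⁻¹, inv_mem hg, fun l hl => ?_⟩
  have h2 : cut j (act g⁻¹ x) = b • ev m F j := by
    rw [cut_Blk c (inv_mem hg) le_rfl,
      show cut j x = b • act g (ev m F j) by rw [hge, smul_smul, mul_inv_cancel₀ hb0, one_smul],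
      act_smul, act_inv_act]
  by_cases hlm : l < m
  · have h3 := congrArg (fun z => co z l) h2
    simp only [co_smul, co_ev (show j < m by omega), if_neg (show ¬ l = j by omega), mul_zero] at h3
    rw [co_mk _ hlm] at h3 ⊢
    simpa [cut, show ¬ l < j by omega] using h3
  · exact co_of_le _ (by omega)

/-- A nonzero tail is moved to one with nonzero leading coordinate. -/
theorem exists_lead (j : ℕ) (x : Fin m → F) {l : ℕ} (hjl : j ≤ l) (hl : co x l ≠ 0) :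
    ∃ g ∈ Blk c m j m, co (act g x) j ≠ 0 := by
  suffices ∀ d j, j + d = l → ∃ g ∈ Blk c m j m, co (act g x) j ≠ 0 from this (l - j) j (by omega)
  intro d
  induction d with
  | zero => intro j h; subst h; exact ⟨1, one_mem _, by rwa [act_one]⟩
  | succ d ih =>
    intro j h
    have hlm : l < m := by
      by_contra hlm
      exact hl (co_of_le _ (not_lt.1 hlm))
    obtain ⟨g, hg, hn⟩ := ih (j + 1) (by omega)
    obtain ⟨g', hg', hn'⟩ := move_norm c (show j + 2 ≤ m by omega) (act g x) (k := 1) (Or.inr hn)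
      (map_one _) (fun _ => one_ne_zero)
    refine ⟨g' * g, mul_mem (fun k hk => hg' k (by have := k.isLt; omega))
      (fun k hk => hg k (by have := k.isLt; omega)), fun e => ?_⟩
    rw [act_mul] at e
    rw [e, nm_zero] at hn'
    exact zero_ne_one hn'

namespace Lvl

variable {C : Cover c m K} (D : Lvl C)

theorem exists_flat (x : Fin m → F) :
    ∃ r ∈ D.L₂, ∀ j, D.k + 4 ≤ j → co (act (C.π r) x) j = 0 := by
  suffices h : ∃ g ∈ Blk c m (D.k + 2) m, ∀ j, D.k + 4 ≤ j → co (act g x) j = 0 by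
    obtain ⟨g, hg, hh⟩ := h
    obtain ⟨r, hr, rfl⟩ := D.hI2.map hg
    exact ⟨r, hr, hh⟩
  by_cases hz : ∀ j, D.k + 4 ≤ j → co x j = 0
  · exact ⟨1, one_mem _, by simpa using hz⟩
  by_cases h : T (q := 3) (D.k + 2) x = 0
  swap
  · obtain ⟨g, hg, hh⟩ := flatten_one D.hI2 x h
    exact ⟨g, hg, fun j hj => hh j (by omega)⟩
  simp only [not_forall] at hz
  obtain ⟨l, hl, hxl⟩ := hz
  obtain ⟨g, hg, hn⟩ := exists_lead (c := c) (D.k + 2) x (show D.k + 2 ≤ l by omega) hxl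
  have h' : T (q := 3) (D.k + 2 + 1) (act g x) ≠ 0 := by
    intro e
    have h1 := T_Blk c hg (Or.inl le_rfl) x
    rw [T_succ c (D.k + 2) (act g x), e, add_zero, h] at h1
    exact hn ((nm_eq_zero c).1 h1)
  obtain ⟨g', hg', hh⟩ := flatten_one D.hI3 (act g x) h'
  exact ⟨g' * g, mul_mem (fun k hk => hg' k (by have := k.isLt; omega)) hg,
    fun j hj => by rw [act_mul]; exact hh j (by omega)⟩

theorem nice_L₂ {r : K} (hr : r ∈ D.L₂) {x : Fin m → F} :
    D.Nice (act (C.π r) x) ↔ D.Nice x :=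
  D.nice_L (D.L₂_le_L hr)

theorem transfer {s r : K} (hs : s ∈ C.S D.k) (hr : r ∈ D.L₂) {x : Fin m → F} (hx : D.Vec₁ x)
    (h : D.Nice x) (h' : D.Nice (act (C.π s) x)) (hok : D.OkG s (act (C.π r) x)) : D.OkG s x := by
  have hsr : r⁻¹ * (s * r) = s := by rw [D.comm_L₂ hs hr, inv_mul_cancel_left]
  have hsx : act (C.π s) (act (C.π r) x) = act (C.π r) (act (C.π s) x) := by
    rw [← act_mul, ← act_mul, ← map_mul, ← map_mul, D.comm_L₂ hs hr]
  rw [← hsr]
  refine OkG.mul (OkG.mul (D.okG_L (D.L₂_le_L hr) hx h) hok) ?_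
  rw [map_mul, act_mul, hsx]
  exact D.okG_L (inv_mem (D.L₂_le_L hr))
    (D.vec_act (D.π_L₂ hr) (by omega) (D.vec_act (D.π_S₀ hs) le_rfl hx)) ((D.nice_L₂ hr).2 h')

theorem okG_S₀ {s : K} (hs : s ∈ C.S D.k) {x : Fin m → F} (hx : D.Vec₁ x) (h : D.Nice x)
    (h' : D.Nice (act (C.π s) x)) : D.OkG s x := by
  obtain ⟨r, hr, hflat⟩ := D.exists_flat x
  refine D.transfer hs hr hx h h' ?_
  have hx' : D.Vec₁ (act (C.π r) x) := D.vec_act (D.π_L₂ hr) (by omega) hx
  have hn : D.Nice (act (C.π r) x) := (D.nice_L₂ hr).2 h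
  have hn' : D.Nice (act (C.π s) (act (C.π r) x)) := by
    rw [← act_mul, ← map_mul, D.comm_L₂ hs hr, map_mul, act_mul]
    exact (D.nice_L₂ hr).2 h'
  obtain ⟨l, hl, s', hs', hae⟩ := D.J_rep hx' hn hflat
  have ha : l * s' ∈ D.J := mul_mem (Subgroup.mem_sup_right hl) (D.S₀_le_J hs')
  rw [← hae] at hn hn'
  rw [← act_mul, ← map_mul] at hn'
  rw [OkG, ← hae, D.kG_J ha hn, ← act_mul, ← map_mul, D.kG_J (mul_mem (D.S₀_le_J hs) ha) hn',
    ← mul_smul]

/-- An element of the first block moving a vector to a nice one. -/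
theorem exists_nice (x : Fin m → F) : ∃ s ∈ C.S D.k, D.Nice (act (C.π s) x) := by
  obtain ⟨g, hg, hn⟩ := move_nice c D.hF D.hk2 x
  obtain ⟨s, hs, rfl⟩ := D.exists_S₀ hg
  exact ⟨s, hs, hn⟩

/-- The section. -/
noncomputable def kap (x : Fin m → F) : K ⧸ D.L :=
  (D.exists_nice x).choose⁻¹ • D.kG (act (C.π (D.exists_nice x).choose) x)

theorem kap_eq {x : Fin m → F} (hx : D.Vec₁ x) {s : K} (hs : s ∈ C.S D.k)
    (h : D.Nice (act (C.π s) x)) : D.kap x = s⁻¹ • D.kG (act (C.π s) x) := by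
  obtain ⟨hs₁, h₁⟩ := (D.exists_nice x).choose_spec
  set s₁ := (D.exists_nice x).choose with hs₁def
  have hsx : act (C.π (s * s₁⁻¹)) (act (C.π s₁) x) = act (C.π s) x := by
    rw [map_mul, map_inv, act_mul, act_inv_act]
  have := D.okG_S₀ (mul_mem hs (inv_mem hs₁)) (D.vec_act (D.π_S₀ hs₁) le_rfl hx) h₁
    (by rw [hsx]; exact h)
  rw [OkG, hsx] at this
  rw [kap, ← hs₁def, ← this, ← mul_smul, inv_mul_cancel_left]

theorem kap_nice {x : Fin m → F} (hx : D.Vec₁ x) (h : D.Nice x) : D.kap x = D.kG x := by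
  rw [D.kap_eq hx (one_mem _) (by rwa [map_one, act_one]), map_one, act_one, inv_one, one_smul]

/-- The section commutes with an element at a vector. -/
def Ok (a : K) (x : Fin m → F) : Prop := a • D.kap x = D.kap (act (C.π a) x)

variable {D}

theorem Ok.mul {a b : K} {x : Fin m → F} (hb : D.Ok b x) (ha : D.Ok a (act (C.π b) x)) :
    D.Ok (a * b) x := by
  rw [Ok, mul_smul, hb, ha, map_mul, act_mul]

theorem Ok.inv {a : K} {x : Fin m → F} (h : D.Ok a x) : D.Ok a⁻¹ (act (C.π a) x) := by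
  rw [Ok, inv_smul_eq_iff, map_inv, act_inv_act, ← h]

variable (D)

theorem ok_S₀ {s : K} (hs : s ∈ C.S D.k) {x : Fin m → F} (hx : D.Vec₁ x) : D.Ok s x := by
  obtain ⟨s₁, hs₁, h⟩ := D.exists_nice x
  have e : act (C.π (s₁ * s⁻¹)) (act (C.π s) x) = act (C.π s₁) x := by
    rw [map_mul, map_inv, act_mul, act_inv_act]
  rw [Ok, D.kap_eq hx hs₁ h, D.kap_eq (D.vec_act (D.π_S₀ hs) le_rfl hx) (mul_mem hs₁ (inv_mem hs))
    (by rw [e]; exact h), e, ← mul_smul, _root_.mul_inv_rev, inv_inv]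

theorem ok_L_nice {a : K} (ha : a ∈ D.L) {x : Fin m → F} (hx : D.Vec₁ x) (h : D.Nice x) :
    D.Ok a x := by
  rw [Ok, D.kap_nice hx h, D.kap_nice (D.vec_act (D.π_L ha) (Nat.le_succ _) hx)
    ((D.nice_L ha).2 h)]
  exact D.okG_L ha hx h

theorem ok_L₂ {a : K} (ha : a ∈ D.L₂) {x : Fin m → F} (hx : D.Vec₁ x) : D.Ok a x := by
  obtain ⟨s, hs, h⟩ := D.exists_nice x
  rw [show a = s⁻¹ * (a * s) by rw [← D.comm_L₂ hs ha]; group]
  refine Ok.mul (Ok.mul (D.ok_S₀ hs hx) (D.ok_L_nice (D.L₂_le_L ha)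
    (D.vec_act (D.π_S₀ hs) le_rfl hx) h)) ?_
  have : C.π (a * s) ∈ Blk c m D.k m := by
    rw [map_mul]
    exact mul_mem (fun l hl => D.π_L₂ ha l (by have := l.isLt; omega))
      (Blk_mono c le_rfl (by have := D.hk; omega) (D.π_S₀ hs))
  exact D.ok_S₀ (inv_mem hs) (D.vec_act this le_rfl hx)

/-- The elements of the second block of mixed type commute with the section. -/
theorem ok_S₁_mixed {a : K} (ha : a ∈ C.S (D.k + 1))
    (hh : nm c (co (act (C.π a) (ev m F (D.k + 1))) (D.k + 1)) = -1) {x : Fin m → F}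
    (hx : D.Vec₁ x) : D.Ok a x := by
  have := D.hk
  have hk2 := D.hk2
  by_cases hn : D.Nice x
  · exact D.ok_L_nice (D.S₁_le_L ha) hx hn
  have hx0 : nm c (co x D.k) = 1 := not_not.1 hn
  obtain ⟨A, B, A', B', hAB, hAB', h1, h2, h3⟩ := exists_rows c D.hF (co x (D.k + 1))
    (co (act (C.π a) x) (D.k + 1)) hx0 hh
  have hr : ∀ A B : F, nm c A + nm c B = 1 → ∃ s ∈ C.S D.k,
      (∀ y : Fin m → F, co (act (C.π s) y) D.k = A * co y D.k + B * co y (D.k + 1)) ∧
      act (C.π s⁻¹) D.e = c.σ A • ev m F D.k + c.σ B • ev m F (D.k + 1) := by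
    intro A B hAB
    have hs : nm c A + nm c (-c.σ B) = 1 := by rw [nm_neg, nm_conj]; exact hAB
    obtain ⟨s, hs', e⟩ := D.exists_S₀ (emb_mem_Blk c D.k hk2 (sb c A (-c.σ B) hs))
    have hrow : ∀ y : Fin m → F,
        co (act (C.π s) y) D.k = A * co y D.k + B * co y (D.k + 1) := fun y => by
      obtain ⟨h0, -, -⟩ := act_two_coord c D.k hk2 (sb c A (-c.σ B) hs) y
      rw [e, co_mk _ (show D.k < m by omega), h0, co_mk y (show D.k < m by omega),
        co_mk y (show D.k + 1 < m by omega), act_sb]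
      simp [c.invol]
    refine ⟨s, hs', hrow, ?_⟩
    rw [D.ap_S₀_e (inv_mem hs')]
    have key : ∀ i (hi : i < m), co (act (C.π s⁻¹) D.e) i = c.σ (co (act (C.π s) (ev m F i)) D.k) := by
      intro i hi
      have hk : D.k < m := by omega
      rw [map_inv, co_mk _ hi, co_mk _ hk, ← c.single_right (act (C.π s)⁻¹ D.e) ⟨i, hi⟩,
        ← herm_act (C.π s), act_act_inv, e, ← ev_eq_single]
      show Cfsg.hermForm m F 3 (ev m F D.k) _ = _
      rw [show ev m F D.k = Pi.single ⟨D.k, hk⟩ 1 from ev_eq_single ⟨D.k, hk⟩, c.single_left]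
    rw [key D.k (by omega), key (D.k + 1) (by omega), hrow, hrow, co_ev (show D.k < m by omega),
      co_ev (show D.k < m by omega), co_ev (show D.k + 1 < m by omega),
      co_ev (show D.k + 1 < m by omega)]
    simp
  obtain ⟨s, hs, hrow, hcol⟩ := hr A B hAB
  obtain ⟨s', hs', hrow', -⟩ := hr A' B' hAB'
  set y := act (C.π a) x with hy
  have hyV : D.Vec₁ y := D.vec_act (D.π_S₁ ha) (Nat.le_succ _) hx
  have hy0 : co y D.k = co x D.k := co_Blk c (D.π_S₁ ha) (Or.inl (Nat.lt_succ_self _)) x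
  have hsx : D.Nice (act (C.π s) x) := by rw [Nice, hrow]; exact h1
  have hs'y : D.Nice (act (C.π s') y) := by rw [Nice, hrow', hy0]; exact h2
  set v := act (C.π a) (act (C.π s⁻¹) D.e) with hv
  have hv0 : co v D.k = c.σ A := by
    rw [hv, co_Blk c (D.π_S₁ ha) (Or.inl (Nat.lt_succ_self _)), hcol, co_add, co_smul, co_smul,
      co_ev (show D.k < m by omega), co_ev (show D.k + 1 < m by omega)]
    simp
  have hv1 : co v (D.k + 1) = co (act (C.π a) (ev m F (D.k + 1))) (D.k + 1) * c.σ B := by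
    rw [hv, hcol, act_add, act_smul, act_smul,
      show act (C.π a) (ev m F D.k) = ev m F D.k from D.ap_L_e (D.S₁_le_L ha), co_add, co_smul,
      co_smul, co_ev (show D.k < m by omega)]
    simp [mul_comm]
  have h3v : nm c (co (act (C.π s') v) D.k) ≠ 1 := by rw [hrow', hv0, hv1]; exact h3
  obtain ⟨b, hb⟩ : ∃ b, b = s' * a * s⁻¹ := ⟨_, rfl⟩
  have hbB : C.π b ∈ Blk c m D.k 3 := by
    rw [hb, map_mul, map_mul, map_inv]
    exact mul_mem (mul_mem (Blk_mono c le_rfl (by omega) (D.π_S₀ hs'))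
      (Blk_mono c (by omega) (by omega) (D.π_S₁ ha)))
      (inv_mem (Blk_mono c le_rfl (by omega) (D.π_S₀ hs)))
  obtain ⟨g₁, hg₁, g₂, hg₂, g₃, hg₃, hg⟩ := decomp_nice c D.hk hbB (by
    show nm c (co (act (C.π b) D.e) D.k) ≠ 1
    rw [hb, map_mul, map_mul, act_mul, act_mul, ← hv]
    exact h3v)
  obtain ⟨a₁, ha₁, rfl⟩ := D.exists_S₁ hg₁
  obtain ⟨a₂, ha₂, rfl⟩ := D.exists_S₀ hg₂
  obtain ⟨a₃, ha₃, rfl⟩ := D.exists_S₁ hg₃
  have hbe : b = a₁ * (a₂ * a₃) := D.inj_J.eq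
    (hb ▸ mul_mem (mul_mem (D.S₀_le_J hs') (D.S₁_le_J ha)) (inv_mem (D.S₀_le_J hs)))
    (mul_mem (D.S₁_le_J ha₁) (mul_mem (D.S₀_le_J ha₂) (D.S₁_le_J ha₃)))
    (by rw [hg, map_mul, map_mul]; group)
  have v0 : D.Vec₁ (act (C.π s) x) := D.vec_act (D.π_S₀ hs) le_rfl hx
  have v3 : D.Vec₁ (act (C.π a₃) (act (C.π s) x)) := D.vec_act (D.π_S₁ ha₃) (Nat.le_succ _) v0
  have v2 : D.Vec₁ (act (C.π (a₂ * a₃)) (act (C.π s) x)) := by
    rw [map_mul, act_mul]; exact D.vec_act (D.π_S₀ ha₂) le_rfl v3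
  have hend : act (C.π b) (act (C.π s) x) = act (C.π s') y := by
    rw [hb, map_mul, map_mul, map_inv, act_mul, act_mul, act_inv_act]
  have hbok : D.Ok b (act (C.π s) x) := by
    rw [hbe]
    refine Ok.mul (Ok.mul (D.ok_L_nice (D.S₁_le_L ha₃) v0 hsx) (D.ok_S₀ ha₂ v3)) ?_
    refine D.ok_L_nice (D.S₁_le_L ha₁) v2 ((D.nice_L (D.S₁_le_L ha₁)).1 ?_)
    rw [← act_mul, ← map_mul, ← hbe, hend]
    exact hs'y
  rw [show a = s'⁻¹ * (b * s) by rw [hb]; group]
  refine Ok.mul (Ok.mul (D.ok_S₀ hs hx) hbok) (D.ok_S₀ (inv_mem hs') ?_)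
  rw [map_mul, act_mul, hend]
  exact D.vec_act (D.π_S₀ hs') le_rfl hyV

theorem ok_S₁ {a : K} (ha : a ∈ C.S (D.k + 1)) {x : Fin m → F} (hx : D.Vec₁ x) : D.Ok a x := by
  have := D.hk
  have hk := D.hk12
  have hent : ∀ g : SUg 2 F 3,
      co (act (emb c (D.k + 1) hk g) (ev m F (D.k + 1))) (D.k + 1) = mat g 0 0 := fun g => by
    rw [co_mk _ (show D.k + 1 < m by omega), show ev m F (D.k + 1) =
      Pi.single (shift (r := 2) (D.k + 1) hk 0) 1 from ev_eq_single ⟨D.k + 1, by omega⟩,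
      show (⟨D.k + 1, _⟩ : Fin m) = shift (r := 2) (D.k + 1) hk 0 from rfl, act_single,
      mat_emb_shift]
  obtain ⟨g, hge⟩ := (range_emb c (D.k + 1) hk).ge (D.π_S₁ ha)
  by_cases hg : nm c (mat g 0 0) = -1
  · exact D.ok_S₁_mixed ha (by rw [← hge, hent]; exact hg) hx
  obtain ⟨w, hw, -⟩ := exists_w c D.hF
  let g₀ : SUg 2 F 3 := sb c w w (by rw [hw]; linear_combination -three_eq_zero D.hF)
  have hg₀ : nm c (mat g₀ 0 0) = -1 := by simp [g₀, mat_sb, hw]
  obtain ⟨b, hb, hbe⟩ := D.exists_S₁ (emb_mem_Blk c (D.k + 1) hk g₀)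
  have hmono : Mono g := by
    by_contra hc
    exact hg (nm_of_not_mono c D.hF hc).1
  have hm' : ¬ Mono (g * g₀⁻¹) := fun h' => by
    have := mono_mul c (mono_inv c h') hmono
    rw [_root_.mul_inv_rev, inv_inv, inv_mul_cancel_right] at this
    simp [Mono, g₀, mat_sb, nm_neg_one_ne_zero c hw] at this
  rw [show a = a * b⁻¹ * b by group]
  refine Ok.mul (D.ok_S₁_mixed hb (by rw [hbe, hent]; exact hg₀) hx) (D.ok_S₁_mixed
    (mul_mem ha (inv_mem hb)) ?_ (D.vec_act (D.π_S₁ hb) (Nat.le_succ _) hx))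
  rw [map_mul, map_inv, hbe, ← hge, ← map_inv, ← map_mul, hent]
  exact (nm_of_not_mono c D.hF hm').1

/-- The elements commuting with the section everywhere. -/
def Stable : Subgroup K where
  carrier := {a | C.π a ∈ Blk c m D.k m ∧ ∀ x, D.Vec₁ x → D.Ok a x}
  one_mem' := ⟨by rw [map_one]; exact one_mem _,
    fun x _ => by rw [Ok, map_one, act_one, one_smul]⟩
  mul_mem' := fun {a b} ha hb => ⟨by rw [map_mul]; exact mul_mem ha.1 hb.1,
    fun x hx => Ok.mul (hb.2 x hx) (ha.2 _ (D.vec_act hb.1 le_rfl hx))⟩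
  inv_mem' := fun {a} ha => ⟨by rw [map_inv]; exact inv_mem ha.1, fun x hx => by
    have hx' : D.Vec₁ (act (C.π a⁻¹) x) := D.vec_act (by rw [map_inv]; exact inv_mem ha.1) le_rfl hx
    have := (ha.2 _ hx').inv
    rwa [map_inv, act_act_inv] at this⟩

theorem fam_le_stable : C.Fam D.k ≤ D.Stable := by
  have := D.hk
  refine C.Fam_le fun j hj hj' a ha =>
    ⟨fun l hl => C.map_mem_S hj' ha l (by have := l.isLt; omega), fun x hx => ?_⟩
  rcases (show j = D.k ∨ j = D.k + 1 ∨ D.k + 2 ≤ j by omega) with rfl | rfl | h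
  · exact D.ok_S₀ ha hx
  · exact D.ok_S₁ ha hx
  · exact D.ok_L₂ (C.S_le_Fam h hj' ha) hx

include D in
/-- The inductive step. -/
theorem good : C.Good D.k := by
  have := D.hk
  have hkap : D.kap D.e = D.base := by
    obtain ⟨s, hs, h⟩ := D.exists_nice D.e
    rw [D.kap_eq D.vec_e hs h, D.kG_eq (D.vec_act (D.π_S₀ hs) le_rfl D.vec_e) h
      ⟨1, one_mem _, s, hs, by rw [one_mul], rfl⟩, one_mul, inv_smul_smul]
  have hS : ∀ {a : K}, a ∈ C.S D.k → a ∈ C.Fam D.k := fun ha => C.S_le_Fam le_rfl D.hk2 ha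
  have hreach : ∀ x, D.Vec₁ x → ∃ a ∈ C.Fam D.k, act (C.π a) D.e = x := by
    intro x hx
    obtain ⟨s, hs, h⟩ := D.exists_nice x
    obtain ⟨_, l, hl, s', hs', hse, -⟩ := D.ch_exists (D.vec_act (D.π_S₀ hs) le_rfl hx) h
    refine ⟨s⁻¹ * (l * s'), mul_mem (inv_mem (hS hs))
      (mul_mem (C.Fam_anti (Nat.le_succ _) hl) (hS hs')), ?_⟩
    rw [map_mul C.π s⁻¹, act_mul, hse, map_inv, act_inv_act]
  refine ⟨fun a ha h => ?_, fun g hg => ?_, fun _ x hx hT => ?_⟩
  · have h1 := (D.fam_le_stable ha).2 D.e D.vec_e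
    rw [Ok, h, act_one, hkap, D.smul_base, base] at h1
    have h2 : a ∈ D.L := by simpa using (QuotientGroup.eq.1 h1.symm)
    exact D.hI.inj a h2 h
  · obtain ⟨a, ha, hae⟩ := hreach (act g D.e)
      ⟨Sup.act c hg le_rfl D.vec_e.1, by rw [T_Blk c hg (Or.inl le_rfl)]; exact D.vec_e.2⟩
    have hB : (C.π a)⁻¹ * g ∈ Blk c m (D.k + 1) m := fun l hl => by
      by_cases hlk : (l : ℕ) = D.k
      · rw [← ev_eq_single, hlk, act_mul]
        change act (C.π a)⁻¹ (act g D.e) = D.e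
        rw [← hae, act_inv_act]
      · exact mul_mem (inv_mem (C.map_mem_Fam ha)) hg l (by omega)
    obtain ⟨b, hb, he⟩ := D.hI.map hB
    exact ⟨a * b, mul_mem ha (C.Fam_anti (Nat.le_succ _) hb), by
      rw [map_mul, he, mul_inv_cancel_left]⟩
  · obtain ⟨a, ha, hae⟩ := hreach x ⟨hx, hT⟩
    exact ⟨_, C.map_mem_Fam ha, hae⟩

end Lvl

end CfsgLib.SUPhanThree
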