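/-
Covers with four-dimensional windows over the field with nine elements are trivial.
-/
import Cfsg.Agent.Lib.SUPhanThree.Section

set_option autoImplicit false
set_option linter.unusedSectionVars false

open Matrix

namespace CfsgLib.SUPhanThree

open CfsgLib.ClassicalForms CfsgLib.SUAmalgam

variable {F : Type*} [Field F] [Fintype F] {m : ℕ} {c : Conj F 3} {K : Type*} [Group K]
  (C : Cover c m K) (hF : Nat.card F = 3 ^ 2)
  (h₄ : ∀ i, i + 4 ≤ m → KerFree C.π (C.S i ⊔ C.S (i + 1) ⊔ C.S (i + 2)))
include hF h₄

theorem cover_good (k : ℕ) : C.Good k := by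
  suffices ∀ d k, m ≤ k + d → C.Good k from this m k (Nat.le_add_left m k)
  intro d
  induction d using Nat.strong_induction_on with
  | h d ih =>
    intro k hd
    by_cases h1 : m ≤ k + 1
    · exact C.good_top h1
    by_cases h2 : k + 2 = m
    · exact C.good_two h2
    exact Lvl.good (C := C)
      { k := k, hk := by omega, hI := ih (d - 1) (by omega) (k + 1) (by omega),
        hI2 := ih (d - 1) (by omega) (k + 2) (by omega),
        hI3 := ih (d - 1) (by omega) (k + 3) (by omega), hF := hF, inj₄ := h₄ k }

theorem cover_bijective (hgen : C.Fam 0 = ⊤) : Function.Bijective C.π := by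
  have h := cover_good C hF h₄ 0
  refine ⟨(injective_iff_map_eq_one C.π).2 fun a => h.inj a (by rw [hgen]; exact Subgroup.mem_top a),
    fun g => ?_⟩
  obtain ⟨a, -, ha⟩ := h.map (show g ∈ Blk c m 0 m from fun l hl => absurd hl (by have := l.isLt; omega))
  exact ⟨a, ha⟩

end CfsgLib.SUPhanThree
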