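/-
A frame in which the three blocks are in standard position.
-/
import Cfsg.Agent.Lib.SUPhanThree.Block
import Cfsg.Agent.Lib.SUPhanThree.Frame

set_option autoImplicit false
set_option linter.unusedSectionVars false

open Matrix
open scoped commutatorElement

namespace CfsgLib.SUPhanThree

open CfsgLib.ClassicalForms CfsgLib.SUAmalgam

variable {F : Type*} [Field F] [Fintype F] {c : Conj F 3} {G : Type*} [Group G]
  {g : SUg 4 F 3 →* G} {f : ℕ → (SUg 2 F 3 →* G)}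

set_option synthInstance.maxSize 2000 in
theorem comb_two : ∀ x y : Fin 4 → Bool,
      ((x 0).xor (x 1)).xor ((x 2).xor (x 3)) = false →
      ((y 0).xor (y 1)).xor ((y 2).xor (y 3)) = false →
      ¬ (x 0 = x 1 ∧ x 1 = x 2 ∧ x 2 = x 3) → ¬ (y 0 = y 1 ∧ y 1 = y 2 ∧ y 2 = y 3) →
      ¬ ((x 0).xor (y 0) = (x 1).xor (y 1) ∧ (x 1).xor (y 1) = (x 2).xor (y 2) ∧
        (x 2).xor (y 2) = (x 3).xor (y 3)) →
      ∀ p q : Bool, ∃ i, x i = p ∧ y i = q := by decide +kernel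

set_option synthInstance.maxSize 2000 in
theorem comb_one : ∀ b : Fin 4 → Bool, ((b 0).xor (b 1)).xor ((b 2).xor (b 3)) = false →
      ¬ (b 0 = b 1 ∧ b 1 = b 2 ∧ b 2 = b 3) →
      (∀ i, b i = true → ∃ l, l ≠ i ∧ (decide ((l : ℕ) < 2) = decide ((i : ℕ) < 2)) ∧ b l = true) →
      b = ![false, false, true, true] ∨ b = ![true, true, false, false] := by decide +kernel

theorem sign_prod (hne : (-1 : F) ≠ 1) (q₀ q₁ q₂ q₃ : Bool)
    (h : (if q₀ then (-1 : F) else 1) * (if q₁ then -1 else 1) * (if q₂ then -1 else 1) *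
      (if q₃ then -1 else 1) = 1) : (q₀.xor q₁).xor (q₂.xor q₃) = false := by
  cases q₀ <;> cases q₁ <;> cases q₂ <;> cases q₃ <;> simp_all

theorem Win.comp_equiv (W : Win c g f) (hF : Nat.card F = 3 ^ 2) (E : SUg 4 F 3 ≃* SUg 4 F 3) :
    Win c (g.comp E.toMonoidHom) f where
  ker y hy := by
    obtain ⟨μ, hμ⟩ := W.ker (E y) hy
    have hc : y ∈ Subgroup.center (SUg 4 F 3) := Subgroup.mem_center_iff.2 fun p => E.injective (by
      rw [map_mul, map_mul]
      exact (Sc_comm (show E y ∈ Sc from ⟨μ, hμ⟩) (E p)).symm.eq)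
    exact Sc_of_center (m := 4) hF (by norm_num) hc
  mem k hk x := by
    obtain ⟨y, hy⟩ := W.mem k hk x
    exact ⟨E.symm y, by simpa using hy⟩
  inj := W.inj
  comm := W.comm
  conjU := W.conjU
  conjD := W.conjD

theorem IsCom.comp_equiv {fk : SUg 2 F 3 →* G} {ζ : F} {hζ : nm c ζ = 1} {d : SUg 4 F 3}
    (hd : IsCom c g fk ζ hζ d) (E : SUg 4 F 3 ≃* SUg 4 F 3) :
    IsCom c (g.comp E.toMonoidHom) fk ζ hζ (E.symm d) := by
  intro y u hy hu
  rw [← hd (E y) (E u) hy hu, map_commutatorElement, MulEquiv.symm_apply_apply,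
    MulEquiv.symm_apply_apply]

section

variable (W : Win c g f) (hF : Nat.card F = 3 ^ 2) {ζ : F} (hζ : nm c ζ = 1) (h2 : ζ ^ 2 = -1)
include W hF h2

/-- The torus of one block normalises its neighbours. -/
theorem conj_nb {k l : ℕ} (hk : k < 3) (hl : l < 3) (hkl : k + 1 = l ∨ l + 1 = k) (x : SUg 2 F 3) :
    f l (dg c ζ hζ) * f k x * (f l (dg c ζ hζ))⁻¹ = f k (D c ζ hζ x) := by
  rcases hkl with rfl | rfl
  · exact W.conjU k hl _ _ _
  · exact W.conjD l hk _ _ _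

/-- The involution of a block is not central, even times that of a neighbour. -/
theorem not_central {k l : ℕ} (hk : k < 3) (hl : l < 3) (hkl : k + 1 = l ∨ l + 1 = k)
    {z : SUg 4 F 3} (hz : z ∈ Sc) (hzk : g z = f k (dg c ζ hζ * dg c ζ hζ)) : False := by
  obtain ⟨u, hu⟩ := W.mem l hl (ad c 1 (nm_one c))
  have h1 : f k (dg c ζ hζ * dg c ζ hζ) * f l (ad c 1 (nm_one c)) *
      (f k (dg c ζ hζ * dg c ζ hζ))⁻¹ = f l (ad c 1 (nm_one c)) := by
    rw [← hzk, ← hu, ← map_inv, ← map_mul, ← map_mul, (Sc_comm hz u).eq, mul_inv_cancel_right]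
  have hc := conj_nb W hF hζ h2 hl hk hkl.symm
  rw [map_mul, show f k (dg c ζ hζ) * f k (dg c ζ hζ) * f l (ad c 1 (nm_one c)) *
      (f k (dg c ζ hζ) * f k (dg c ζ hζ))⁻¹ = f k (dg c ζ hζ) * (f k (dg c ζ hζ) *
        f l (ad c 1 (nm_one c)) * (f k (dg c ζ hζ))⁻¹) * (f k (dg c ζ hζ))⁻¹ by group,
    hc, hc, D_ad, D_ad] at h1
  have h3 := congrArg (fun p => mat p 1 0) (W.inj l hl h1)
  simp [mat_ad] at h3
  exact neg_one_ne_one hF (by linear_combination h3 - h2)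

theorem not_central_mul {k l : ℕ} (hk : k < 3) (hl : l < 3) (hkl : k + 1 = l ∨ l + 1 = k)
    {z : SUg 4 F 3} (hz : z ∈ Sc)
    (hzk : g z = f k (dg c ζ hζ * dg c ζ hζ) * f l (dg c ζ hζ * dg c ζ hζ)) : False := by
  obtain ⟨u, hu⟩ := W.mem l hl (ad c 1 (nm_one c))
  have e : f k (dg c ζ hζ * dg c ζ hζ) = g z * (f l (dg c ζ hζ * dg c ζ hζ))⁻¹ := by
    rw [hzk]; group
  have hcl : dg c ζ hζ * dg c ζ hζ * ad c 1 (nm_one c) = ad c 1 (nm_one c) * (dg c ζ hζ * dg c ζ hζ) :=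
    ext_mat fun i j => by
      rw [mat_mul, mat_mul (ad c 1 (nm_one c)), dg_sq c hζ h2, Matrix.neg_mul, Matrix.one_mul,
        Matrix.mul_neg, Matrix.mul_one]
  have h1 : f k (dg c ζ hζ * dg c ζ hζ) * f l (ad c 1 (nm_one c)) *
      (f k (dg c ζ hζ * dg c ζ hζ))⁻¹ = f l (ad c 1 (nm_one c)) := by
    have a1 : Commute (g z) (f l (ad c 1 (nm_one c))) := hu ▸ (Sc_comm hz u).map g
    have a2 : Commute (f l (dg c ζ hζ * dg c ζ hζ)) (f l (ad c 1 (nm_one c))) :=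
      (show Commute (dg c ζ hζ * dg c ζ hζ) (ad c 1 (nm_one c)) from hcl).map (f l)
    rw [e, (a1.mul_left a2.inv_left).eq, mul_inv_cancel_right]
  have hc := conj_nb W hF hζ h2 hl hk hkl.symm
  rw [map_mul, show f k (dg c ζ hζ) * f k (dg c ζ hζ) * f l (ad c 1 (nm_one c)) *
      (f k (dg c ζ hζ) * f k (dg c ζ hζ))⁻¹ = f k (dg c ζ hζ) * (f k (dg c ζ hζ) *
        f l (ad c 1 (nm_one c)) * (f k (dg c ζ hζ))⁻¹) * (f k (dg c ζ hζ))⁻¹ by group,
    hc, hc, D_ad, D_ad] at h1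
  have h3 := congrArg (fun p => mat p 1 0) (W.inj l hl h1)
  simp [mat_ad] at h3
  exact neg_one_ne_one hF (by linear_combination h3 - h2)

/-- The lift of the torus of one block commutes with the involution of a neighbour. -/
theorem torus_commute {k l : ℕ} (hk : k < 3) (hl : l < 3) (hkl : k + 1 = l ∨ l + 1 = k)
    {d : SUg 4 F 3} (hd : IsCom c g (f k) ζ hζ d) (hgd : g d = f k (dg c ζ hζ * dg c ζ hζ))
    {y : SUg 4 F 3} (hy : g y = f l (dg c ζ hζ)) : Commute y d :=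
  com_conj W hF hζ h2 hk hd hgd (fun x => D c ζ hζ x)
    (fun x => by rw [hy]; exact conj_nb W hF hζ h2 hk hl hkl x) (D_dg c _ _ _ _)
    (a := c.σ ζ) (ha := by rw [nm_conj, hζ]) (by rw [D_ad, dg_mul_ad]; simp [c.invol])

/-- A frame for the first two involutions. -/
theorem exists_std₀₁ : ∃ (E : SUg 4 F 3 ≃* SUg 4 F 3) (d₀ d₁ : SUg 4 F 3),
    IsCom c (g.comp E.toMonoidHom) (f 0) ζ hζ d₀ ∧
    IsCom c (g.comp E.toMonoidHom) (f 1) ζ hζ d₁ ∧
    g (E d₀) = f 0 (dg c ζ hζ * dg c ζ hζ) ∧ g (E d₁) = f 1 (dg c ζ hζ * dg c ζ hζ) ∧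
    mat d₀ = Matrix.diagonal (sg 0) ∧ mat d₁ = Matrix.diagonal (sg 1) := by
  classical
  obtain ⟨d₀, hd₀, hg₀⟩ := exists_com W hF hζ h2 (k := 0) (by norm_num)
  obtain ⟨d₁, hd₁, hg₁⟩ := exists_com W hF hζ h2 (k := 1) (by norm_num)
  have hcomm : Commute d₀ d₁ := by
    obtain ⟨y, hy⟩ := W.mem 1 (by norm_num) (dg c ζ hζ)
    have hy0 := torus_commute W hF hζ h2 (k := 0) (l := 1) (by norm_num) (by norm_num) (Or.inl rfl)
      hd₀ hg₀ hy
    obtain ⟨z, hz, e⟩ := W.congr (show g (y * y) = g d₁ by rw [map_mul, hy, hg₁, map_mul])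
    rw [e]
    exact ((hy0.symm.mul_right hy0.symm).mul_right (Sc_comm hz d₀).symm)
  have hsq : ∀ r, (![d₀, d₁] : Fin 2 → SUg 4 F 3) r * ![d₀, d₁] r = 1 := by
    intro r
    fin_cases r
    · exact com_sq W hF hζ h2 (by norm_num) hd₀ hg₀
    · exact com_sq W hF hζ h2 (by norm_num) hd₁ hg₁
  obtain ⟨v, hv, hev⟩ := exists_eigen_frame c hF ![d₀, d₁] hsq hcomm
  choose e he1 he using hev
  -- diagonal form in this frame
  have hdiag : ∀ (π : Equiv.Perm (Fin 4)), ∃ E : SUg 4 F 3 ≃* SUg 4 F 3, ∀ r,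
      mat (E.symm (![d₀, d₁] r)) = Matrix.diagonal fun i => e (π i) r := by
    intro π
    obtain ⟨E, hE⟩ := exists_frame_conj c hF (fun i => v (π i)) (fun i l => by
      rw [hv]; simp only [π.injective.eq_iff])
    refine ⟨E, fun r => Matrix.ext_of_mulVec_single fun i => ?_⟩
    show act (E.symm _) _ = _
    rw [hE (E.symm (![d₀, d₁] r)) i (e (π i) r) (by rw [MulEquiv.apply_symm_apply]; exact he _ r)]
    funext l
    simp [Matrix.mulVec_single_one, Matrix.diagonal, Pi.single_apply]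
    split <;> simp_all
  obtain ⟨E₁, hE₁⟩ := hdiag (Equiv.refl _)
  have hprod : ∀ r, ∏ i, e i r = 1 := fun r => by
    have := (E₁.symm (![d₀, d₁] r)).1.2
    change (mat _).det = 1 at this
    rw [hE₁, Matrix.det_diagonal] at this
    simpa using this
  have hsc : ∀ (z : SUg 4 F 3), (∃ s : F, mat (E₁.symm z) = Matrix.diagonal fun _ => s) → z ∈ Sc := by
    rintro z ⟨s, hs⟩
    have hm : E₁.symm z ∈ Sc := ⟨s, fun x => by
      show mat _ *ᵥ x = _
      rw [hs]; funext i; simp [Matrix.mulVec_diagonal]⟩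
    refine Sc_of_center hF (by norm_num) (Subgroup.mem_center_iff.2 fun p => E₁.symm.injective ?_)
    rw [map_mul, map_mul]
    exact ((Sc_comm hm _).symm).eq
  have hpm : ∀ i r, e i r = 1 ∨ e i r = -1 := fun i r => mul_self_eq_one_iff.1 (he1 i r)
  have hne := neg_one_ne_one hF
  let b : Fin 2 → Fin 4 → Bool := fun r i => decide (e i r = -1)
  have hb : ∀ i r, e i r = if b r i then -1 else 1 := fun i r => by
    rcases hpm i r with h | h <;> simp [b, h, hne.symm]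
  have c1 : ∀ r, ((b r 0).xor (b r 1)).xor ((b r 2).xor (b r 3)) = false := by
    intro r
    have h := hprod r
    rw [Fin.prod_univ_four, hb, hb, hb, hb] at h
    exact sign_prod hne _ _ _ _ h
  have c2 : ∀ r, ¬ (b r 0 = b r 1 ∧ b r 1 = b r 2 ∧ b r 2 = b r 3) := by
    intro r hh
    obtain ⟨h01, h12, h23⟩ := hh
    have hz : (![d₀, d₁] : Fin 2 → SUg 4 F 3) r ∈ Sc := hsc _ ⟨e 0 r, by
      rw [hE₁]; congr 1; funext i
      fin_cases i <;> simp [hb _ r, h01, h12, h23]⟩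
    fin_cases r
    · exact not_central W hF hζ h2 (k := 0) (l := 1) (by norm_num) (by norm_num) (Or.inl rfl) hz hg₀
    · exact not_central W hF hζ h2 (k := 1) (l := 0) (by norm_num) (by norm_num) (Or.inr rfl) hz hg₁
  have c3 : ¬ ((b 0 0).xor (b 1 0) = (b 0 1).xor (b 1 1) ∧ (b 0 1).xor (b 1 1) = (b 0 2).xor (b 1 2)
      ∧ (b 0 2).xor (b 1 2) = (b 0 3).xor (b 1 3)) := by
    rintro ⟨h01, h12, h23⟩
    have hee : ∀ i, e i 0 * e i 1 = if (b 0 i).xor (b 1 i) then -1 else 1 := fun i => by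
      rw [hb, hb]; cases b 0 i <;> cases b 1 i <;> simp
    have hz : d₀ * d₁ ∈ Sc := hsc _ ⟨e 0 0 * e 0 1, by
      rw [map_mul, mat_mul, show mat (E₁.symm d₀) = _ from hE₁ 0, show mat (E₁.symm d₁) = _ from hE₁ 1,
        Matrix.diagonal_mul_diagonal]
      congr 1; funext i
      simp only [Equiv.refl_apply]
      fin_cases i <;> simp [hee, h01, h12, h23]⟩
    exact not_central_mul W hF hζ h2 (k := 0) (l := 1) (by norm_num) (by norm_num) (Or.inl rfl) hz
      (by rw [map_mul, hg₀, hg₁])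
  have hex := comb_two (b 0) (b 1) (c1 0) (c1 1) (c2 0) (c2 1) c3
  let pat : Fin 4 → Bool × Bool := ![(true, false), (true, true), (false, true), (false, false)]
  choose π₀ hπ using fun j => hex (pat j).1 (pat j).2
  have hinj : Function.Injective π₀ := by
    intro i j h
    have h1 := (hπ i).1; have h2' := (hπ i).2
    rw [h, (hπ j).1] at h1
    rw [h, (hπ j).2] at h2'
    revert h1 h2'
    fin_cases i <;> fin_cases j <;> simp [pat]
  obtain ⟨E, hE⟩ := hdiag (Equiv.ofBijective π₀ (Finite.injective_iff_bijective.1 hinj))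
  refine ⟨E, E.symm d₀, E.symm d₁, hd₀.comp_equiv E, hd₁.comp_equiv E,
    by rw [MulEquiv.apply_symm_apply, hg₀], by rw [MulEquiv.apply_symm_apply, hg₁], ?_, ?_⟩
  · rw [show mat (E.symm d₀) = _ from hE 0]
    congr 1; funext i
    simp only [Equiv.ofBijective_apply, hb, (hπ i).1]
    fin_cases i <;> simp [pat, sg]
  · rw [show mat (E.symm d₁) = _ from hE 1]
    congr 1; funext i
    simp only [Equiv.ofBijective_apply, hb, (hπ i).2]
    fin_cases i <;> simp [pat, sg]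

theorem diag_of_commute {d₀ d₁ p : SUg 4 F 3} (h₀ : mat d₀ = Matrix.diagonal (sg 0))
    (h₁ : mat d₁ = Matrix.diagonal (sg 1)) (c₀ : Commute d₀ p) (c₁ : Commute d₁ p) :
    ∃ a, mat p = Matrix.diagonal a := by
  refine ⟨fun i => mat p i i, Matrix.ext fun i l => ?_⟩
  by_cases hil : i = l
  · subst hil; simp
  rw [Matrix.diagonal_apply_ne _ hil]
  have hne := neg_one_ne_one hF
  by_cases h : (sg 0 i : F) = sg 0 l
  · refine entry_zero h₁ c₁ ?_
    revert h hil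
    fin_cases i <;> fin_cases l <;> simp [sg, hne, hne.symm]
  · exact entry_zero h₀ c₀ h

/-- In such a frame all three involutions and tori are in standard position. -/
theorem exists_std₂ {d₀ d₁ : SUg 4 F 3} (hd₀ : IsCom c g (f 0) ζ hζ d₀)
    (hd₁ : IsCom c g (f 1) ζ hζ d₁) (hg₀ : g d₀ = f 0 (dg c ζ hζ * dg c ζ hζ))
    (hg₁ : g d₁ = f 1 (dg c ζ hζ * dg c ζ hζ))
    (h₀ : mat d₀ = Matrix.diagonal (sg 0)) (h₁ : mat d₁ = Matrix.diagonal (sg 1)) :
    ∃ d₂, IsCom c g (f 2) ζ hζ d₂ ∧ g d₂ = f 2 (dg c ζ hζ * dg c ζ hζ) ∧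
      mat d₂ = Matrix.diagonal (sg 2) := by
  classical
  obtain ⟨d₂, hd₂, hg₂⟩ := exists_com W hF hζ h2 (k := 2) (by norm_num)
  refine ⟨d₂, hd₂, hg₂, ?_⟩
  have hne := neg_one_ne_one hF
  obtain ⟨y₂, hy₂⟩ := W.mem 2 (by norm_num) (dg c ζ hζ)
  obtain ⟨u₂, hu₂⟩ := W.mem 2 (by norm_num) (ad c 1 (nm_one c))
  obtain ⟨y₀, hy₀⟩ := W.mem 0 (by norm_num) (dg c ζ hζ)
  have c0 : ∀ {x p}, g p = f 2 x → Commute d₀ p := by
    intro x p hp
    refine (com_conj W hF hζ h2 (k := 0) (by norm_num) hd₀ hg₀ id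
      (fun z => ?_) rfl (a := 1) (ha := nm_one c) ?_).symm
    · rw [hp, ← (W.comm z x).eq, mul_inv_cancel_right]; rfl
    · rw [dg_mul_ad]; simp
  have c1 : Commute d₁ y₂ :=
    (torus_commute W hF hζ h2 (k := 1) (l := 2) (by norm_num) (by norm_num) (Or.inl rfl) hd₁ hg₁
      hy₂).symm
  obtain ⟨a₂, ha₂⟩ := diag_of_commute W hF h2 h₀ h₁ (c0 hy₂) c1
  obtain ⟨z, hz, ez⟩ := W.congr (show g (y₂ * y₂) = g d₂ by rw [map_mul, hy₂, hg₂, map_mul])
  obtain ⟨μ, hμ⟩ := mat_scalar hz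
  obtain ⟨e, he⟩ : ∃ e, mat d₂ = Matrix.diagonal e := ⟨fun i => a₂ i * a₂ i * μ, by
    rw [ez, mat_mul, mat_mul, ha₂, hμ, Matrix.mul_smul, Matrix.mul_one, Matrix.diagonal_mul_diagonal,
      ← Matrix.diagonal_smul]
    congr 1; funext i; simp [mul_comm]⟩
  have hsq := com_sq W hF hζ h2 (k := 2) (by norm_num) hd₂ hg₂
  have hpm : ∀ i, e i = 1 ∨ e i = -1 := fun i => mul_self_eq_one_iff.1 (by
    have := congrFun (congrFun (congrArg mat hsq) i) i
    rw [mat_mul, he] at this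
    simpa using this)
  obtain ⟨-, -, hj⟩ := pair_data hF W hζ h2 (k := 2) (by norm_num) hd₂ hg₂ he hy₂ ha₂
  have hn₂ := (pair_data hF W hζ h2 (k := 2) (by norm_num) hd₂ hg₂ he hy₂ ha₂).2.1
  have hblock : ∀ i l, (sg 0 i : F) ≠ sg 0 l → mat u₂ i l = 0 := fun i l h =>
    entry_zero h₀ (c0 hu₂) h
  -- each negative coordinate has a negative partner
  have partner : ∀ i, e i = -1 → ∃ l, mat u₂ l i ≠ 0 ∧ l ≠ i ∧ (sg 0 l : F) = sg 0 i ∧ e l = -1 := by
    intro i hi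
    obtain ⟨l, hl⟩ := col_ne_zero u₂ i
    refine ⟨l, hl, fun e1 => ?_, not_not.1 fun h => hl (hblock l i h), ?_⟩
    · subst e1
      have := (hj u₂ hu₂ l l).2
      rw [hi] at this
      have h3 : (2 : F) * (a₂ l * mat u₂ l l) = 0 := by linear_combination this
      exact mul_ne_zero (two_ne_zero' hF) (mul_ne_zero (nm_one_ne_zero c (hn₂ l)) hl) h3
    · rw [← hi]
      exact not_not.1 fun h => hl ((hj u₂ hu₂ l i).1 h)
  let b : Fin 4 → Bool := fun i => decide (e i = -1)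
  have hb : ∀ i, e i = if b i then -1 else 1 := fun i => by
    rcases hpm i with h | h <;> simp [b, h, hne.symm]
  have hprod : ∏ i, e i = 1 := by
    have := d₂.1.2
    change (mat d₂).det = 1 at this
    rwa [he, Matrix.det_diagonal] at this
  have k2 : ¬ (b 0 = b 1 ∧ b 1 = b 2 ∧ b 2 = b 3) := by
    rintro ⟨h01, h12, h23⟩
    refine not_central W hF hζ h2 (k := 2) (l := 1) (by norm_num) (by norm_num) (Or.inr rfl)
      (z := d₂) ⟨e 0, fun x => ?_⟩ hg₂
    show mat d₂ *ᵥ x = _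
    rw [he]; funext i
    simp only [Matrix.mulVec_diagonal, Pi.smul_apply, smul_eq_mul]
    congr 1
    fin_cases i <;> simp [hb, h01, h12, h23]
  have k1 : ((b 0).xor (b 1)).xor ((b 2).xor (b 3)) = false := by
    have h := hprod
    rw [Fin.prod_univ_four, hb, hb, hb, hb] at h
    exact sign_prod hne _ _ _ _ h
  have k3 : ∀ i, b i = true → ∃ l, l ≠ i ∧ (decide ((l : ℕ) < 2) = decide ((i : ℕ) < 2)) ∧ b l = true := by
    intro i hi
    obtain ⟨l, -, hli, hsg, hel⟩ := partner i (by simpa [b] using hi)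
    refine ⟨l, hli, ?_, by simp [b, hel]⟩
    revert hsg
    fin_cases i <;> fin_cases l <;> simp [sg, hne, hne.symm]
  rcases comb_one b k1 k2 k3 with h | h
  · rw [he]
    congr 1; funext i
    rw [hb, h]
    fin_cases i <;> simp [sg]
  exfalso
  have hs0 : e = sg 0 := by
    funext i; rw [hb, h]
    fin_cases i <;> simp [sg]
  obtain ⟨a₀, ha₀⟩ := diag_of_commute W hF h2 h₀ h₁
    (com_commute W hF hζ h2 (k := 0) (by norm_num) hd₀ hg₀ hy₀)
    (torus_commute W hF hζ h2 (k := 1) (l := 0) (by norm_num) (by norm_num) (Or.inr rfl) hd₁ hg₁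
      hy₀).symm
  have hpr : ∀ φ : Fin 4 → F, φ 0 * φ 1 * φ 2 * φ 3 = ∏ i, φ i := fun φ => by rw [Fin.prod_univ_four]
  have hcov : ∀ i : Fin 4, i = 0 ∨ i = 1 ∨ i = 2 ∨ i = 3 := by decide
  obtain ⟨hq, hrs, -, -⟩ := pair_values hF W hζ h2 (k := 0) (by norm_num) hd₀ hg₀ h₀ hy₀ ha₀
    hpr hcov (by simp [sg]) (by simp [sg]) (by simp [sg]) (by simp [sg])
  obtain ⟨-, -, -, hY⟩ := pair_values hF W hζ h2 (k := 2) (by norm_num) hd₂ hg₂ (hs0 ▸ he) hy₂ ha₂
    hpr hcov (by simp [sg]) (by simp [sg]) (by simp [sg]) (by simp [sg])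
  have hn₀ := (pair_data hF W hζ h2 (k := 0) (by norm_num) hd₀ hg₀ h₀ hy₀ ha₀).2.1
  obtain ⟨w, hw, ew⟩ := W.congr (show g (y₀ * u₂) = g (u₂ * y₀) by
    rw [map_mul, map_mul, hy₀, hu₂]; exact (W.comm _ _).eq)
  obtain ⟨ν, hν⟩ := mat_scalar hw
  have ent : ∀ i l, mat u₂ i l * a₀ l = a₀ i * mat u₂ i l * ν := fun i l => by
    have := congrFun (congrFun (congrArg mat ew) i) l
    rw [mat_mul, mat_mul, mat_mul, hν, ha₀, Matrix.mul_smul, Matrix.mul_one, Matrix.mul_diagonal] at this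
    rw [this]; simp [mul_comm]
  obtain ⟨l, hl⟩ := col_ne_zero u₂ 2
  have hν1 : ν = 1 := by
    have hal : a₀ l = a₀ 2 := by
      rcases hcov l with rfl | rfl | rfl | rfl
      · exact absurd (hblock 0 2 (by simp [sg, hne])) hl
      · exact absurd (hblock 1 2 (by simp [sg, hne])) hl
      · rfl
      · exact hrs.symm
    have := ent l 2
    rw [hal] at this
    have h0 : a₀ 2 * mat u₂ l 2 ≠ 0 := mul_ne_zero (nm_one_ne_zero c (hn₀ 2)) hl
    exact mul_left_cancel₀ h0 (by rw [mul_one]; linear_combination -this)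
  have := ent 1 0
  rw [hν1, mul_one, hq] at this
  have h3 : (2 : F) * (a₀ 0 * mat u₂ 1 0) = 0 := by linear_combination this
  exact mul_ne_zero (two_ne_zero' hF) (mul_ne_zero (nm_one_ne_zero c (hn₀ 0)) (hY u₂ hu₂)) h3

end

end CfsgLib.SUPhanThree
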