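/-
Three blocks inside a central quotient of the four-dimensional group extend to a homomorphism.
-/
import Cfsg.Agent.Lib.SUPhanThree.Standard

set_option autoImplicit false
set_option linter.unusedSectionVars false

open Matrix
open scoped commutatorElement

namespace CfsgLib.SUPhanThree

open CfsgLib.ClassicalForms CfsgLib.SUAmalgam

variable {F : Type*} [Field F] [Fintype F] {c : Conj F 3} {G : Type*} [Group G]
  {g : SUg 4 F 3 →* G} {f : ℕ → (SUg 2 F 3 →* G)}

/-- A scalar element fixing a coordinate vector is trivial. -/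
theorem eq_one_of_Sc_Blk (c : Conj F 3) {k : ℕ} {p : SUg 4 F 3} (hz : p ∈ Sc)
    (hb : p ∈ Blk c 4 k 2) {r : Fin 4} (hr : (r : ℕ) < k ∨ k + 2 ≤ (r : ℕ)) : p = 1 := by
  obtain ⟨μ, h⟩ := hz
  have := congrFun (hb r hr) r
  rw [h] at this
  simp at this
  exact ext_act fun i => by rw [h, this, one_smul, act_one]

section

variable (W : Win c g f) (hF : Nat.card F = 3 ^ 2) {ζ : F} (hζ : nm c ζ = 1) (h2 : ζ ^ 2 = -1)
  {d : ℕ → SUg 4 F 3} (hd : ∀ k, k < 3 → IsCom c g (f k) ζ hζ (d k))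
  (hgd : ∀ k, k < 3 → g (d k) = f k (dg c ζ hζ * dg c ζ hζ))
  (hst : ∀ k, k < 3 → mat (d k) = Matrix.diagonal (sg k))
include W hF h2 hd hgd hst

theorem torus_diag {k : ℕ} (hk : k < 3) {y : SUg 4 F 3} (hy : g y = f k (dg c ζ hζ)) :
    ∃ a, mat y = Matrix.diagonal a := by
  have self := com_commute W hF hζ h2 hk (hd k hk) (hgd k hk) hy
  interval_cases k
  · exact diag_of_commute W hF h2 (hst 0 (by norm_num)) (hst 1 (by norm_num)) self
      (torus_commute W hF hζ h2 (by norm_num) (by norm_num) (Or.inr rfl) (hd 1 (by norm_num))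
        (hgd 1 (by norm_num)) hy).symm
  · exact diag_of_commute W hF h2 (hst 0 (by norm_num)) (hst 1 (by norm_num))
      (torus_commute W hF hζ h2 (by norm_num) (by norm_num) (Or.inl rfl) (hd 0 (by norm_num))
        (hgd 0 (by norm_num)) hy).symm self
  · refine diag_of_commute W hF h2 (hst 0 (by norm_num)) (hst 1 (by norm_num)) ?_
      (torus_commute W hF hζ h2 (by norm_num) (by norm_num) (Or.inl rfl) (hd 1 (by norm_num))
        (hgd 1 (by norm_num)) hy).symm
    refine (com_conj W hF hζ h2 (k := 0) (by norm_num) (hd 0 (by norm_num)) (hgd 0 (by norm_num)) id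
      (fun z => ?_) rfl (a := 1) (ha := nm_one c) ?_).symm
    · rw [hy, ← (W.comm z _).eq, mul_inv_cancel_right]; rfl
    · rw [dg_mul_ad]; simp

theorem scalar_std {k nb : ℕ} (hk : k < 3) (hnb : nb < 3) (hkn : k + 1 = nb ∨ nb + 1 = k)
    {p q r s : Fin 4} (hrs : r ≠ s) (hpr : ∀ φ : Fin 4 → F, φ p * φ q * φ r * φ s = ∏ i, φ i)
    (hcov : ∀ i, i = p ∨ i = q ∨ i = r ∨ i = s)
    (hep : (sg k p : F) = -1) (heq : (sg k q : F) = -1) (her : (sg k r : F) = 1)
    (hes : (sg k s : F) = 1) (hnrs : (sg nb r : F) ≠ sg nb s)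
    (x : SUg 2 F 3) (P : SUg 4 F 3) (hP : g P = f k x) :
    mat P r s = 0 ∧ mat P s r = 0 ∧ mat P r r = mat P s s := by
  obtain ⟨y, hy⟩ := W.mem k hk (dg c ζ hζ)
  obtain ⟨a, ha⟩ := torus_diag W hF hζ h2 hd hgd hst hk hy
  obtain ⟨b, hb⟩ := W.mem nb hnb (dg c ζ hζ)
  obtain ⟨a', ha'⟩ := torus_diag W hF hζ h2 hd hgd hst hnb hb
  obtain ⟨-, hya, -, -⟩ := pair_values hF W hζ h2 hk (hd k hk) (hgd k hk) (hst k hk) hy ha
    hpr hcov hep heq her hes
  obtain ⟨⟨μ, hμ⟩, hn', -⟩ := pair_data hF W hζ h2 hnb (hd nb hnb) (hgd nb hnb) (hst nb hnb) hb ha'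
  have hbr : a' r ≠ a' s := fun e => by
    have h1 := hμ r
    rw [e, hμ s] at h1
    have hμ0 : μ ≠ 0 := fun e0 => by
      have := hμ r
      rw [e0, zero_mul] at this
      exact nm_one_ne_zero c (hn' r) (eq_zero_of_pow_eq_zero this)
    exact hnrs (mul_left_cancel₀ hμ0 h1.symm)
  exact scalar_compl hF W hζ h2 hk (hd k hk) (hgd k hk) (hst k hk) her hes hrs
    (fun i h1 h2' => by
      rcases hcov i with rfl | rfl | rfl | rfl
      exacts [hep, heq, absurd rfl h1, absurd rfl h2'])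
    hy ha hya (fun z => by rw [hb]; exact conj_nb W hF hζ h2 hk hnb hkn z) ha' hbr
    ⟨nm_one_ne_zero c (hn' r), nm_one_ne_zero c (hn' s)⟩ x P hP

theorem complement {k : ℕ} (hk : k < 3) : ∃ r s : Fin 4, r ≠ s ∧ (sg k r : F) = 1 ∧ (sg k s : F) = 1 ∧
    (∀ i : Fin 4, (i : ℕ) < k ∨ k + 2 ≤ (i : ℕ) ↔ i = r ∨ i = s) ∧
    ∀ x P, g P = f k x → mat P r s = 0 ∧ mat P s r = 0 ∧ mat P r r = mat P s s := by
  have hne := neg_one_ne_one hF
  interval_cases k
  · refine ⟨2, 3, by decide, by simp [sg], by simp [sg], by decide, ?_⟩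
    exact scalar_std W hF hζ h2 hd hgd hst (k := 0) (nb := 1) (p := 0) (q := 1) (by norm_num)
      (by norm_num) (Or.inl rfl) (by decide) (fun φ => by rw [Fin.prod_univ_four]) (by decide)
      (by simp [sg]) (by simp [sg]) (by simp [sg]) (by simp [sg]) (by simp [sg, hne, hne.symm])
  · refine ⟨0, 3, by decide, by simp [sg], by simp [sg], by decide, ?_⟩
    exact scalar_std W hF hζ h2 hd hgd hst (k := 1) (nb := 0) (p := 1) (q := 2) (by norm_num)
      (by norm_num) (Or.inr rfl) (by decide) (fun φ => by rw [Fin.prod_univ_four]; ring) (by decide)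
      (by simp [sg]) (by simp [sg]) (by simp [sg]) (by simp [sg]) (by simp [sg, hne, hne.symm])
  · refine ⟨0, 1, by decide, by simp [sg], by simp [sg], by decide, ?_⟩
    exact scalar_std W hF hζ h2 hd hgd hst (k := 2) (nb := 1) (p := 2) (q := 3) (by norm_num)
      (by norm_num) (Or.inr rfl) (by decide) (fun φ => by rw [Fin.prod_univ_four]; ring) (by decide)
      (by simp [sg]) (by simp [sg]) (by simp [sg]) (by simp [sg]) (by simp [sg, hne, hne.symm])

theorem exists_beta {k : ℕ} (hk : k < 3) :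
    ∃ β : SUg 2 F 3 ≃* SUg 2 F 3, (∀ x, f k x = g (emb c k (by omega) (β x))) ∧
      ∀ x, IsDiag₂ x → IsDiag₂ (β x) := by
  classical
  have hi : k + 2 ≤ 4 := by omega
  obtain ⟨r, s, hrs, her, hes, hout, hsc⟩ := complement W hF hζ h2 hd hgd hst hk
  have hfix : (r : ℕ) < k ∨ k + 2 ≤ (r : ℕ) := (hout r).2 (Or.inl rfl)
  have hneg : ∀ i, i ≠ r → i ≠ s → (sg k i : F) = -1 := fun i h1 h2' => by
    have : ¬ ((i : ℕ) < k ∨ k + 2 ≤ (i : ℕ)) := fun h => ((hout i).1 h).elim h1 h2'
    simp only [sg]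
    rw [if_pos (by omega)]
  have hne := neg_one_ne_one hF
  -- splitting off the scalar part
  have hsplit : ∀ x, ∃ h, ∃ z ∈ Sc, g (emb c k hi h * z) = f k x := by
    intro x
    obtain ⟨P, hP⟩ := W.mem k hk x
    have hcP := com_commute W hF hζ h2 hk (hd k hk) (hgd k hk) hP
    obtain ⟨h1, h2', h3⟩ := hsc x P hP
    obtain ⟨μ, hμ⟩ : ∃ μ, μ = mat P r r := ⟨_, rfl⟩
    have hcol : ∀ t : Fin 4, t = r ∨ t = s → act P (Pi.single t 1) = μ • Pi.single t 1 := by
      intro t ht
      funext l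
      rw [act_single, Pi.smul_apply, smul_eq_mul]
      by_cases hl : l = t
      · subst hl
        rcases ht with rfl | rfl <;> simp [hμ, h3]
      · rw [Pi.single_apply, if_neg hl, mul_zero]
        rcases ht with rfl | rfl
        · by_cases hls : l = s
          · exact hls ▸ h2'
          · exact entry_zero (hst k hk) hcP (by rw [her, hneg l hl hls]; exact hne)
        · by_cases hlr : l = r
          · exact hlr ▸ h1
          · exact entry_zero (hst k hk) hcP (by rw [hes, hneg l hlr hl]; exact hne)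
    have hnm : nm c μ = 1 := by
      have := herm_act P (Pi.single r 1) (Pi.single r 1)
      rw [hcol r (Or.inl rfl), c.smul_left, c.smul_right, c.single_right, Pi.single_eq_same, mul_one] at this
      exact this
    have hμ4 : μ ^ 4 = 1 := by rw [← nm_eq_pow c, hnm]
    let Z : SUg 4 F 3 := mk (μ • (1 : Matrix (Fin 4) (Fin 4) F))
      (by rw [Matrix.det_smul, Matrix.det_one, mul_one, Fintype.card_fin, hμ4])
      (fun a b => by
        rw [Matrix.smul_mulVec, Matrix.smul_mulVec, Matrix.one_mulVec, Matrix.one_mulVec,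
          c.smul_left, c.smul_right, ← mul_assoc]
        simp only [nm] at hnm
        rw [hnm, one_mul])
    have hZ : ∀ v, act Z v = μ • v := fun v => by
      show (μ • (1 : Matrix (Fin 4) (Fin 4) F)) *ᵥ v = _
      rw [Matrix.smul_mulVec, Matrix.one_mulVec]
    have hZs : Z ∈ Sc := ⟨μ, hZ⟩
    obtain ⟨h, hh⟩ := (range_emb c k hi).ge (show P * Z⁻¹ ∈ Blk c 4 k 2 from fun t ht => by
      rw [act_mul]
      have : act Z⁻¹ (Pi.single t 1) = μ⁻¹ • (Pi.single t 1 : Fin 4 → F) := by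
        have h := congrArg (act Z⁻¹) (hZ (Pi.single t 1))
        rw [act_inv_act, act_smul] at h
        conv_rhs => rw [h, smul_smul, inv_mul_cancel₀ (nm_one_ne_zero c hnm), one_smul]
      rw [this, act_smul, hcol t ((hout t).1 ht), smul_smul,
        inv_mul_cancel₀ (nm_one_ne_zero c hnm), one_smul])
    exact ⟨h, Z, hZs, by rw [hh, inv_mul_cancel_right, hP]⟩
  choose β z hz hβ using hsplit
  have huniq : ∀ h h' z z', z ∈ Sc → z' ∈ Sc → g (emb c k hi h * z) = g (emb c k hi h' * z') →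
      h = h' := by
    intro h h' z z' hz hz' e
    obtain ⟨w, hw, ew⟩ := W.congr e
    have e1 : emb c k hi (h⁻¹ * h') = z * w * z'⁻¹ := by
      rw [map_mul, map_inv, show emb c k hi h' = emb c k hi h' * z' * z'⁻¹ by group, ew]
      group
    have h1 : emb c k hi (h⁻¹ * h') = 1 := eq_one_of_Sc_Blk c
      (e1 ▸ mul_mem (mul_mem hz hw) (inv_mem hz')) (emb_mem_Blk c k hi _) hfix
    rw [← map_one (emb c k hi), (emb_injective c k hi).eq_iff] at h1
    exact eq_of_inv_mul_eq_one h1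
  let βh : SUg 2 F 3 →* SUg 2 F 3 :=
    { toFun := β
      map_one' := huniq _ 1 _ 1 (hz 1) (one_mem _) (by rw [hβ, map_one, map_one, mul_one, map_one])
      map_mul' := fun a b => huniq _ _ _ (z a * z b) (hz _) (mul_mem (hz a) (hz b)) (by
        rw [hβ, map_mul, ← hβ a, ← hβ b, ← map_mul, map_mul (emb c k hi)]
        congr 1
        calc emb c k hi (β a) * z a * (emb c k hi (β b) * z b)
            = emb c k hi (β a) * (z a * emb c k hi (β b)) * z b := by group
          _ = _ := by rw [(Sc_comm (hz a) _).eq]; group) }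
  -- the central part is trivial
  let A : Subgroup G := (Sc : Subgroup (SUg 4 F 3)).map g
  have hA : ∀ a b : A, a * b = b * a := by
    rintro ⟨_, a, ha, rfl⟩ ⟨_, b, hb, rfl⟩
    exact Subtype.ext ((Sc_comm ha b).map g).eq
  letI : CommGroup A := { (inferInstance : Group A) with mul_comm := hA }
  let χ : SUg 2 F 3 →* A :=
    { toFun := fun x => ⟨g (z x), _, hz x, rfl⟩
      map_one' := Subtype.ext (by
        show g (z 1) = 1
        have := hβ 1
        rwa [show β 1 = 1 from βh.map_one, map_one, one_mul, map_one] at this)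
      map_mul' := fun a b => Subtype.ext (by
        show g (z (a * b)) = g (z a) * g (z b)
        have e := hβ (a * b)
        rw [show β (a * b) = β a * β b from βh.map_mul a b, map_mul (f k), ← hβ a, ← hβ b] at e
        simp only [map_mul] at e ⊢
        have hc : Commute (g (z a)) (g (emb c k hi (β b))) := (Sc_comm (hz a) _).map g
        refine mul_left_cancel (a := g (emb c k hi (β a)) * g (emb c k hi (β b))) (e.trans ?_)
        calc g (emb c k hi (β a)) * g (z a) * (g (emb c k hi (β b)) * g (z b))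
            = g (emb c k hi (β a)) * (g (z a) * g (emb c k hi (β b))) * g (z b) := by group
          _ = _ := by rw [hc.eq]; group) }
  have hχ : ∀ x, g (z x) = 1 := fun x => congrArg Subtype.val (hom_eq_one c hF (A := A) (fun a => by
    obtain ⟨_, w, hw, rfl⟩ := a
    refine Subtype.ext ?_
    show g w ^ 4 = 1
    rw [← map_pow, Sc_pow_four c hw, map_one]) χ x)
  have hf : ∀ x, f k x = g (emb c k hi (βh x)) := fun x => by
    rw [← hβ x, map_mul, hχ, mul_one]; rfl
  have hinj : Function.Injective βh := fun a b e => W.inj k hk (by rw [hf, hf, e])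
  refine ⟨MulEquiv.ofBijective βh (Finite.injective_iff_bijective.1 hinj), hf, fun x hx => ?_⟩
  show IsDiag₂ (βh x)
  obtain ⟨a, ha, rfl⟩ := diag_eq_sb (c := c) hx
  have ht : IsDiag₂ (βh (dg c ζ hζ)) := by
    obtain ⟨a₀, ha₀⟩ := torus_diag W hF hζ h2 hd hgd hst hk (hf _).symm
    have e10 := congrFun (congrFun ha₀ (shift k hi 1)) (shift k hi 0)
    have e01 := congrFun (congrFun ha₀ (shift k hi 0)) (shift k hi 1)
    rw [mat_emb_shift, Matrix.diagonal_apply_ne _ ((shift_injective k hi).ne (by decide))] at e10 e01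
    exact ⟨e01, e10⟩
  have dmul : ∀ {u v : SUg 2 F 3}, IsDiag₂ u → IsDiag₂ v → IsDiag₂ (u * v) := fun hu hv => by
    simp [IsDiag₂, mat_mul, Matrix.mul_apply, Fin.sum_univ_two, hu.1, hu.2, hv.1, hv.2]
  have hn : nm c a = 1 := by rwa [nm_zero, add_zero] at ha
  show IsDiag₂ (βh (dg c a hn))
  rcases norm_one_cases c h2 hn with rfl | rfl | rfl | rfl
  · rw [show dg c 1 hn = 1 from ext_mat fun i j => by
      rw [mat_dg]; fin_cases i <;> fin_cases j <;> simp, map_one]
    simp [IsDiag₂]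
  · rw [show dg c (-1) hn = dg c ζ hζ * dg c ζ hζ by rw [dg_mul]; simp only [← sq, h2], map_mul]
    exact dmul ht ht
  · exact ht
  · rw [show dg c (-ζ) hn = dg c ζ hζ * dg c ζ hζ * dg c ζ hζ by
      rw [dg_mul, dg_mul]; simp only [← sq, h2, neg_one_mul], map_mul, map_mul]
    exact dmul (dmul ht ht) ht

end

/-- Conjugation of a block by the neighbouring torus, upper neighbour. -/
theorem emb_conj_upper (c : Conj F 3) {k : ℕ} (hk : k + 1 + 2 ≤ 4) (a : F) (ha : nm c a = 1)
    (h : SUg 2 F 3) :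
    emb c (k + 1) hk (dg c a ha) * emb c k (by omega) h * (emb c (k + 1) hk (dg c a ha))⁻¹ =
      emb c k (by omega : k + 2 ≤ 4) (D c a ha h) := by
  have e : ∀ (j : ℕ) (hj : j + 2 ≤ 3) (x : SUg 2 F 3),
      emb c k (show k + 3 ≤ 4 by omega) (emb c j hj x) = emb c (k + j) (by omega) x := fun j hj x =>
    emb_emb c k _ j hj x
  have h1 := congrArg (emb c k (show k + 3 ≤ 4 by omega))
    (conj_torus₁ (c := c) a (by rw [ha, nm_zero, add_zero]) h
      (by intro i; fin_cases i <;> simp [ha]))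
  rw [map_mul, map_mul, map_inv, e, e, e] at h1
  exact h1

theorem exists_semi_data (W : Win c g f) (hF : Nat.card F = 3 ^ 2) {ζ : F} (hζ : nm c ζ = 1)
    (h2 : ζ ^ 2 = -1) {d : ℕ → SUg 4 F 3} (hd : ∀ k, k < 3 → IsCom c g (f k) ζ hζ (d k))
    (hgd : ∀ k, k < 3 → g (d k) = f k (dg c ζ hζ * dg c ζ hζ))
    (hst : ∀ k, k < 3 → mat (d k) = Matrix.diagonal (sg k)) {k : ℕ} (hk : k < 3) :
    ∃ (b : F) (hb : nm c b = 1) (τ : F ≃+* F), (τ = RingEquiv.refl F ∨ τ = cE c) ∧
      ∀ x, f k x = g (emb c k (by omega) (semi c ![1, b] (by intro i; fin_cases i <;> simp [hb]) τ x)) := by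
  obtain ⟨β, hβ, hD⟩ := exists_beta W hF hζ h2 hd hgd hst hk
  obtain ⟨b, τ, hτ, hb, hmain⟩ := exists_semi c hF β hD
  refine ⟨b, hb, τ, hτ, fun x => ?_⟩
  rw [hβ]
  congr 2
  refine Subtype.ext (Subtype.ext ?_)
  show mat _ = mat _
  rw [hmain, mat_semi_two]

/-- Three blocks inside a central quotient extend to a homomorphism. -/
theorem Win.exists_extend (W : Win c g f) (hF : Nat.card F = 3 ^ 2) :
    ∃ α : SUg 4 F 3 →* G, ∀ k, ∀ hk : k + 2 ≤ 4, ∀ x, α (emb c k hk x) = f k x := by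
  classical
  obtain ⟨ζ, hζ, h2⟩ := exists_zeta c hF
  obtain ⟨E, d₀, d₁, hd₀, hd₁, hg₀, hg₁, h₀, h₁⟩ := exists_std₀₁ W hF hζ h2
  have W' := W.comp_equiv hF E
  set g' := g.comp E.toMonoidHom with hg'
  obtain ⟨d₂, hd₂, hg₂, h₂⟩ := exists_std₂ W' hF hζ h2 hd₀ hd₁ hg₀ hg₁ h₀ h₁
  let d : ℕ → SUg 4 F 3 := fun k => if k = 0 then d₀ else if k = 1 then d₁ else d₂
  have hd : ∀ k, k < 3 → IsCom c g' (f k) ζ hζ (d k) := fun k hk => by
    interval_cases k <;> assumption
  have hgd : ∀ k, k < 3 → g' (d k) = f k (dg c ζ hζ * dg c ζ hζ) := fun k hk => by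
    interval_cases k <;> assumption
  have hst : ∀ k, k < 3 → mat (d k) = Matrix.diagonal (sg k) := fun k hk => by
    interval_cases k <;> assumption
  obtain ⟨b₀, hb₀, τ, hτ, H₀⟩ := exists_semi_data W' hF hζ h2 hd hgd hst (k := 0) (by norm_num)
  obtain ⟨b₁, hb₁, τ₁, hτ₁, H₁⟩ := exists_semi_data W' hF hζ h2 hd hgd hst (k := 1) (by norm_num)
  obtain ⟨b₂, hb₂, τ₂, hτ₂, H₂⟩ := exists_semi_data W' hF hζ h2 hd hgd hst (k := 2) (by norm_num)
  have hne : (-ζ : F) ≠ ζ := fun e => two_ne_zero' hF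
    ((mul_eq_zero.1 (show (2 : F) * ζ = 0 by linear_combination -e)).resolve_right
      (nm_one_ne_zero c hζ))
  have nmτ : ∀ (τ : F ≃+* F) {x : F}, nm c x = 1 → nm c (τ x) = 1 := fun τ x hx => by
    rw [nm, ← cE_comm c, ← map_mul]
    exact (congrArg τ hx).trans (map_one τ)
  -- neighbouring field automorphisms agree
  have agree : ∀ (k : ℕ) (hk : k + 1 + 2 ≤ 4) (b b' : F) (hb : nm c b = 1) (hb' : nm c b' = 1)
      (τ τ' : F ≃+* F), (τ = RingEquiv.refl F ∨ τ = cE c) → (τ' = RingEquiv.refl F ∨ τ' = cE c) →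
      (∀ x, f k x = g' (emb c k (by omega) (semi c ![1, b] (by intro i; fin_cases i <;> simp [hb]) τ x))) →
      (∀ x, f (k + 1) x = g' (emb c (k + 1) hk
        (semi c ![1, b'] (by intro i; fin_cases i <;> simp [hb']) τ' x))) → τ' = τ := by
    intro k hk b b' hb hb' τ τ' hτ hτ' hf hf'
    have sdg : ∀ (b : F) (hb : ∀ i, nm c ((![1, b] : Fin 2 → F) i) = 1) (τ : F ≃+* F) (a : F)
        (ha : nm c a = 1), semi c ![1, b] hb τ (dg c a ha) = dg c (τ a) (nmτ τ ha) := by
      intro b hb τ a ha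
      refine ext_mat fun i l => ?_
      have := hb 1
      simp [nm] at this
      rw [mat_semi_apply, mat_dg, mat_dg]
      fin_cases i <;> fin_cases l <;> simp [cE_comm c]
      linear_combination c.σ (τ a) * this
    have sad : ∀ (b : F) (hb : nm c b = 1) (τ : F ≃+* F) (a : F) (ha : nm c a = 1),
        semi c ![1, b] (by intro i; fin_cases i <;> simp [hb]) τ (ad c a ha) =
          ad c (b * τ a) (by rw [nm_mul, hb, nmτ τ ha, one_mul]) := by
      intro b hb τ a ha
      refine ext_mat fun i l => ?_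
      rw [mat_semi_apply, mat_ad, mat_ad]
      fin_cases i <;> fin_cases l <;> simp [cE_comm c, mul_comm]
    have key := W'.conjU k (by omega) ζ hζ (ad c 1 (nm_one c))
    rw [hf', hf, hf, D_ad, sdg, sad b hb, sad b hb, ← map_inv, ← map_mul, ← map_mul, emb_conj_upper, D_ad] at key
    obtain ⟨w, hw, ew⟩ := W'.congr key
    have hfix : ((⟨if k = 0 then 3 else 0, by split <;> norm_num⟩ : Fin 4) : ℕ) < k ∨
        k + 2 ≤ ((⟨if k = 0 then 3 else 0, by split <;> norm_num⟩ : Fin 4) : ℕ) := by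
      show (if k = 0 then 3 else 0) < k ∨ k + 2 ≤ (if k = 0 then 3 else 0)
      split <;> omega
    have hw1 : w = 1 := by
      refine eq_one_of_Sc_Blk c (k := k) hw ?_ hfix
      rw [show w = (emb c k (by omega) (ad c _ _))⁻¹ * _ from (eq_inv_mul_iff_mul_eq.2 ew.symm)]
      exact mul_mem (inv_mem (emb_mem_Blk c k _ _)) (emb_mem_Blk c k _ _)
    rw [hw1] at ew
    replace ew := ew.trans (mul_one _)
    have e10 := congrArg (fun p => mat p 1 0) (emb_injective c k _ ew)
    simp only [mat_ad, map_one, mul_one] at e10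
    simp at e10
    have e : τ' ζ = τ ζ := mul_right_cancel₀ (nm_one_ne_zero c hb) (by linear_combination -e10)
    rcases hτ with rfl | rfl <;> rcases hτ' with rfl | rfl
    · rfl
    · simp [cE_apply, conj_zeta c h2] at e; exact absurd e hne
    · simp [cE_apply, conj_zeta c h2] at e; exact absurd e.symm hne
    · rfl
  obtain rfl := agree 0 (by norm_num) b₀ b₁ hb₀ hb₁ τ τ₁ hτ hτ₁ H₀ H₁
  obtain rfl := agree 1 (by norm_num) b₁ b₂ hb₁ hb₂ τ₁ τ₂ hτ₁ hτ₂ H₁ H₂
  let v : Fin 4 → F := ![1, b₀, b₀ * b₁, b₀ * b₁ * b₂]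
  have hv : ∀ i, nm c (v i) = 1 := by
    intro i; fin_cases i <;> simp [v, nm_mul, hb₀, hb₁, hb₂]
  refine ⟨g'.comp (semi c v hv τ₂), fun k hk x => ?_⟩
  show g' (semi c v hv τ₂ (emb c k hk x)) = _
  rw [semi_emb]
  have hbb : ∀ {b : F}, nm c b = 1 → b * c.σ b = 1 := fun h => h
  have h0 := hbb hb₀
  have h1 := hbb hb₁
  rcases (show k = 0 ∨ k = 1 ∨ k = 2 by omega) with rfl | rfl | rfl
  · rw [H₀]
    congr 2
    refine ext_mat fun i l => ?_
    rw [mat_semi_apply, mat_semi_apply]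
    fin_cases i <;> fin_cases l <;> simp [v, shift]
  · rw [H₁]
    congr 2
    refine ext_mat fun i l => ?_
    rw [mat_semi_apply, mat_semi_apply]
    fin_cases i <;> fin_cases l <;> simp [v, shift]
    · linear_combination τ₂ (mat x 0 0) * h0
    · linear_combination (τ₂ (mat x 0 1) * c.σ b₁) * h0
    · linear_combination (b₁ * τ₂ (mat x 1 0)) * h0
    · linear_combination (b₁ * τ₂ (mat x 1 1) * c.σ b₁) * h0
  · rw [H₂]
    congr 2
    refine ext_mat fun i l => ?_
    rw [mat_semi_apply, mat_semi_apply]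
    have h01 : b₀ * b₁ * (c.σ b₀ * c.σ b₁) = 1 := by linear_combination (b₁ * c.σ b₁) * h0 + h1
    fin_cases i <;> fin_cases l <;> simp [v, shift]
    · linear_combination τ₂ (mat x 0 0) * h01
    · linear_combination (τ₂ (mat x 0 1) * c.σ b₂) * h01
    · linear_combination (b₂ * τ₂ (mat x 1 0)) * h01
    · linear_combination (b₂ * τ₂ (mat x 1 1) * c.σ b₂) * h01

end CfsgLib.SUPhanThree
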